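import Cfsg.Agent.Fr4.Tools
import Cfsg.Agent.FT.BG3.T38

/-!
# Four-fold transitive groups with a Frobenius four-point stabiliser: the stabilisers
-/

set_option autoImplicit false
set_option linter.unusedSectionVars false

namespace Cfsg.Lib.Fr4

open MulAction Subgroup Cfsg.Lib.Perm Cfsg.Lib.Trans

variable {G Ω : Type*} [Group G] [MulAction G Ω] [Finite G] [Finite Ω] {m r p : ℕ} {s U : Set Ω}

/-- The order of `g` is prime to `m`. -/
abbrev Cp (m : ℕ) (g : G) : Prop := (orderOf g).Coprime m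

theorem Cp.inv {g : G} (h : Cp m g) : Cp m g⁻¹ := by rwa [Cp, orderOf_inv]

theorem Cp.conj {g : G} (h : Cp m g) (k : G) : Cp m (k * g * k⁻¹) := by
  rwa [Cp, ← (SemiconjBy.conj_mk k g).orderOf_eq]

theorem Cp.pow {g : G} (h : Cp m g) (n : ℕ) : Cp m (g ^ n) :=
  Nat.Coprime.coprime_dvd_left (orderOf_pow_dvd n) h

theorem not_cp_of_dvd (hp : p.Prime) (hm : p ∣ m) {g : G} (h : p ∣ orderOf g) : ¬ Cp m g :=
  fun hc => hp.one_lt.ne' (Nat.eq_one_of_dvd_coprimes hc h hm)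

theorem not_cp_of_dvd' {g : G} (h : orderOf g ∣ m) (h1 : g ≠ 1) : ¬ Cp m g :=
  fun hc => h1 (orderOf_eq_one_iff.1 (Nat.eq_one_of_dvd_coprimes hc dvd_rfl h))

/-- The homomorphism onto the induced group. -/
noncomputable def resHom (Ω : Type*) [MulAction G Ω] (W : Subgroup G) :
    normalizer (W : Set G) →* resX Ω W :=
  MonoidHom.mk' (fun n => (exists_resX (α := Ω) n.2).choose) fun a b =>
    Subtype.ext (Equiv.ext fun x => Subtype.ext (by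
      have h1 := (exists_resX (α := Ω) (a * b).2).choose_spec x
      have h2 := (exists_resX (α := Ω) a.2).choose_spec ((exists_resX (α := Ω) b.2).choose • x)
      rw [(exists_resX (α := Ω) b.2).choose_spec x, ← mul_smul, ← mul_smul] at h2
      exact h1.trans h2.symm))

theorem resHom_smul {W : Subgroup G} (n : normalizer (W : Set G)) (x : FixT Ω W) :
    ((resHom Ω W n • x : FixT Ω W) : Ω) = (n : G) • (x : Ω) :=
  (exists_resX (α := Ω) n.2).choose_spec x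

theorem card_dvd_resX {W C : Subgroup G} (h1 : C ≤ normalizer (W : Set G))
    (h2 : ∀ c ∈ C, c ∈ Dx G (Fs Ω W) → c = 1) : Nat.card C ∣ Nat.card (resX Ω W) := by
  refine card_dvd_of_injective ((resHom Ω W).comp (inclusion h1))
    ((injective_iff_map_eq_one _).2 fun c hc => Subtype.ext (h2 c c.2 (mem_Dx.2 fun x hx => ?_)))
  have := resHom_smul (inclusion h1 c) (⟨x, hx⟩ : FixT Ω W)
  rw [show resHom Ω W (inclusion h1 c) = 1 from hc, one_smul] at this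
  exact this.symm

theorem ncard_preimage {W : Subgroup G} (hs : s ⊆ Fs Ω W) :
    (Subtype.val ⁻¹' s : Set (FixT Ω W)).ncard = s.ncard := by
  rw [← Set.ncard_image_of_injective _ Subtype.val_injective,
    Set.image_preimage_eq_of_subset fun x hx => ⟨⟨x, hs hx⟩, rfl⟩]

theorem hall_fix {W : Subgroup G} (htr : IsMultiplyPretransitive (resX Ω W) (FixT Ω W) 4)
    (hc : Nat.card (resX Ω W) = (Fs Ω W).ncard.descFactorial 4) (hs : 4 ≤ s.ncard)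
    (hsW : s ⊆ Fs Ω W) {n : G} (hn : n ∈ normalizer (W : Set G)) (hD : n ∈ Dx G s) :
    n ∈ Dx G (Fs Ω W) := by
  obtain ⟨U, hUs, hU⟩ := exists_sub_four hs
  have h1 := card_eq_mul htr ((ncard_preimage (hUs.trans hsW)).trans hU)
  rw [← ncard_Fs, ← hc] at h1
  have h2 : Nat.card (Dx (resX Ω W) (Subtype.val ⁻¹' U : Set (FixT Ω W))) = 1 :=
    (Nat.mul_eq_left Nat.card_pos.ne').1 h1.symm
  obtain ⟨σ, hσ⟩ := exists_resX (α := Ω) hn
  have h3 : σ ∈ Dx (resX Ω W) (Subtype.val ⁻¹' U : Set (FixT Ω W)) :=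
    mem_Dx.2 fun x hx => Subtype.ext ((hσ x).trans (mem_Dx.1 hD _ (hUs hx)))
  rw [card_eq_one.1 h2, mem_bot] at h3
  refine mem_Dx.2 fun x hx => ?_
  have := hσ ⟨x, hx⟩
  rw [h3, one_smul] at this
  exact this.symm

namespace Cx

theorem ker' (h : Cx G Ω m) (hs : 4 ≤ s.ncard) : ∃ K : Subgroup G, K ≠ ⊥ ∧ Group.IsNilpotent K ∧
    Dx G s ≤ normalizer (K : Set G) ∧ (∀ g ∈ Dx G s, g ∈ K ↔ Cp m g) ∧
    ∀ g ∈ Dx G s, g ∉ K → orderOf g ∣ m ∧ ∀ k ∈ K, g * k = k * g → k = 1 := by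
  obtain ⟨U, hUs, hU⟩ := exists_sub_four hs
  obtain ⟨K, h1, h2, h3, -, -, h4, h5⟩ := h.ker U hU
  refine ⟨K, h2, h3, fun g hg => mem_normalizer_fintype fun k hk => ?_,
    fun g hg => h4 g (Dx_anti hUs hg), fun g hg => h5 g (Dx_anti hUs hg)⟩
  have h6 := Dx_anti hUs hg
  exact (h4 _ (mul_mem (mul_mem h6 (h1 hk)) (inv_mem h6))).2 (Cp.conj ((h4 k (h1 hk)).1 hk) g)

theorem cop_mul (h : Cx G Ω m) (hs : 4 ≤ s.ncard) {a b : G} (ha : a ∈ Dx G s) (hb : b ∈ Dx G s)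
    (ca : Cp m a) (cb : Cp m b) : Cp m (a * b) := by
  obtain ⟨K, -, -, -, h4, -⟩ := h.ker' hs
  exact (h4 _ (mul_mem ha hb)).1 (mul_mem ((h4 a ha).2 ca) ((h4 b hb).2 cb))

theorem not_cop_mul (h : Cx G Ω m) (hs : 4 ≤ s.ncard) {a b : G} (ha : a ∈ Dx G s)
    (hb : b ∈ Dx G s) (ca : Cp m a) (cb : ¬ Cp m b) : ¬ Cp m (a * b) := fun hc => cb (by
  have := h.cop_mul hs (inv_mem ha) (mul_mem ha hb) ca.inv hc
  rwa [inv_mul_cancel_left] at this)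

theorem dvd (h : Cx G Ω m) (hs : 4 ≤ s.ncard) {g : G} (hg : g ∈ Dx G s) (hc : ¬ Cp m g) :
    orderOf g ∣ m := by
  obtain ⟨K, -, -, -, h4, h5⟩ := h.ker' hs
  exact (h5 g hg (mt (h4 g hg).1 hc)).1

theorem fpf (h : Cx G Ω m) (hs : 4 ≤ s.ncard) {g k : G} (hg : g ∈ Dx G s) (hc : ¬ Cp m g)
    (hk : k ∈ Dx G s) (ck : Cp m k) (e : g * k = k * g) : k = 1 := by
  obtain ⟨K, -, -, -, h4, h5⟩ := h.ker' hs
  exact (h5 g hg (mt (h4 g hg).1 hc)).2 k ((h4 k hk).2 ck) e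

theorem comm (h : Cx G Ω m) (hs : 4 ≤ s.ncard) {a b : G} (ha : a ∈ Dx G s) (hb : b ∈ Dx G s)
    (ca : Cp m a) (cb : Cp m b) (hab : (orderOf a).Coprime (orderOf b)) : a * b = b * a := by
  obtain ⟨K, -, h3, -, h4, -⟩ := h.ker' hs
  exact Solv.commute_of_mem_of_coprime_of_isNilpotent h3 ((h4 a ha).2 ca) ((h4 b hb).2 cb) hab

theorem PE_mul (h : Cx G Ω m) (hs : 4 ≤ s.ncard) (hr : r.Prime) (hm : ¬ r ∣ m) :
    ∀ a ∈ Dx G s, ∀ b ∈ Dx G s, PE r a → PE r b → PE r (a * b) := by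
  intro a ha b hb h1 h2
  obtain ⟨K, -, h3, -, h4, -⟩ := h.ker' hs
  exact PE.mul_of_nilpotent hr h3 ((h4 a ha).2 (h1.coprime hr hm)) ((h4 b hb).2 (h2.coprime hr hm))
    h1 h2

theorem mem_Pz (h : Cx G Ω m) (hs : 4 ≤ s.ncard) (hr : r.Prime) (hm : ¬ r ∣ m) {g : G} :
    g ∈ Pz G r s ↔ g ∈ Dx G s ∧ PE r g := mem_Pz_iff (h.PE_mul hs hr hm)

theorem isPGroup (h : Cx G Ω m) (hs : 4 ≤ s.ncard) (hr : r.Prime) (hm : ¬ r ∣ m) :
    IsPGroup r (Pz G r s) := isPGroup_of_PE fun _ hg => ((h.mem_Pz hs hr hm).1 hg).2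

theorem card_Dx (h : Cx G Ω m) {V : Set Ω} (hU : U.ncard = 4) (hV : V.ncard = 4) :
    Nat.card (Dx G U) = Nat.card (Dx G V) := by
  obtain ⟨g, rfl⟩ := exists_image_eq h.tr hU hV
  rw [← cj_Dx, card_cj]

theorem card_Pz (h : Cx G Ω m) {V : Set Ω} (hU : U.ncard = 4) (hV : V.ncard = 4) :
    Nat.card (Pz G r U) = Nat.card (Pz G r V) := by
  obtain ⟨g, rfl⟩ := exists_image_eq h.tr hU hV
  rw [← cj_Pz, card_cj]

theorem Pz_eq (h : Cx G Ω m) (hr : r.Prime) (hm : ¬ r ∣ m) (hU : U.ncard = 4) (hs : 4 ≤ s.ncard)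
    (hsU : s ⊆ Fs Ω (Pz G r U)) : Pz G r s = Pz G r U := by
  obtain ⟨V, hVs, hV⟩ := exists_sub_four hs
  have h1 : Pz G r U ≤ Pz G r s := fun g hg =>
    mem_Pz_of (le_Dx_iff.2 hsU hg) ((h.mem_Pz hU.ge hr hm).1 hg).2
  exact (eq_of_le_of_card_ge h1 ((Subgroup.card_le_of_le (Pz_anti hVs)).trans (h.card_Pz hV hU).le)).symm

theorem dvd_card (h : Cx G Ω m) (hU : U.ncard = 4) : m ∣ Nat.card (Dx G U) := by
  obtain ⟨K, -, -, -, h1, -⟩ := h.ker U hU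
  exact h1 ▸ dvd_mul_left _ _

theorem exists_ord (h : Cx G Ω m) (hU : U.ncard = 4) (hp : p.Prime) (hm : p ∣ m) :
    ∃ g ∈ Dx G U, orderOf g = p := by
  have := Fact.mk hp
  obtain ⟨g, hg⟩ := exists_prime_orderOf_dvd_card' p (hm.trans (h.dvd_card hU))
  exact ⟨g, g.2, by rw [orderOf_coe, hg]⟩

theorem exists_not_cp (h : Cx G Ω m) (hU : U.ncard = 4) :
    ∃ p : ℕ, p.Prime ∧ p ∣ m ∧ ∃ g ∈ Dx G U, orderOf g = p := by
  obtain ⟨p, hp, hm⟩ := Nat.exists_prime_and_dvd h.one_lt.ne'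
  exact ⟨p, hp, hm, h.exists_ord hU hp hm⟩

theorem cyc (h : Cx G Ω m) (hs : 4 ≤ s.ncard) (hp : p.Prime) (h2 : p ≠ 2) (hm : p ∣ m)
    {A : Subgroup G} (hA : IsPGroup p A) (hD : A ≤ Dx G s) : IsCyclic A := by
  have := Fact.mk hp
  obtain ⟨K, h1, -, h3, h4, h5⟩ := h.ker' hs
  obtain ⟨n, hn⟩ := IsPGroup.iff_card.1 hA
  refine FT.odd_regular_pgroup_cyclic hA (hn ▸ (hp.odd_of_ne_two h2).pow) h1 (hD.trans h3)
    fun x hx hx1 => eq_bot_iff.2 fun a ha => ?_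
  exact (h5 x (hD hx) (mt (h4 x (hD hx)).1 ((PE.of_mem hA hx).not_coprime hp hx1 hm))).2 a ha.1
    (mem_centralizer_singleton_iff.1 ha.2).symm

theorem conj_zpowers (h : Cx G Ω m) (hs : 4 ≤ s.ncard) (hp : p.Prime) (h2 : p ≠ 2) (hm : p ∣ m)
    {x y : G} (hx : x ∈ Dx G s) (hy : y ∈ Dx G s) (px : PE p x) (py : PE p y)
    (e : orderOf x = orderOf y) : ∃ d ∈ Dx G s, cj d (zpowers x) = zpowers y := by
  have := Fact.mk hp
  obtain ⟨T, hT, h3⟩ := exists_isSylowIn_ge py.isPGroup (zpowers_le.2 hy)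
  obtain ⟨d, hd, h4⟩ := hT.exists_cj_le px.isPGroup (zpowers_le.2 hx)
  have := h.cyc hs hp h2 hm hT.isPGroup hT.le
  exact ⟨d, hd, Solv.PG.eq_of_card_eq_of_isCyclic h4 h3 (by
    rw [card_cj, Nat.card_zpowers, Nat.card_zpowers, e])⟩

theorem comm_of_PE (h : Cx G Ω m) (hs : 4 ≤ s.ncard) (hp : p.Prime) (h2 : p ≠ 2) (hm : p ∣ m)
    {x y : G} (hx : x ∈ Dx G s) (hy : y ∈ Dx G s) (px : PE p x) (py : PE p y)
    (hn : y ∈ normalizer (zpowers x : Set G)) : y * x = x * y := by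
  have := Fact.mk hp
  have h3 := IsPGroup.to_sup_of_normal_left' px.isPGroup py.isPGroup (zpowers_le.2 hn)
  have := h.cyc hs hp h2 hm h3 (sup_le (zpowers_le.2 hx) (zpowers_le.2 hy))
  have h4 := (IsCyclic.isMulCommutative (α := (zpowers x ⊔ zpowers y : Subgroup G))).is_comm.comm
    ⟨y, mem_sup_right (mem_zpowers y)⟩ ⟨x, mem_sup_left (mem_zpowers x)⟩
  exact congrArg Subtype.val h4

theorem norm_dvd (h : Cx G Ω m) (hs : 4 ≤ s.ncard) {g n : G} (hg : g ∈ Dx G s) (hc : ¬ Cp m g)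
    (hD : n ∈ Dx G s) (hn : n ∈ normalizer (zpowers g : Set G)) : orderOf n ∣ m := by
  by_cases cn : Cp m n
  · have h1 : Cp m (n * (g * n⁻¹ * g⁻¹)) :=
      h.cop_mul hs hD (mul_mem (mul_mem hg (inv_mem hD)) (inv_mem hg)) cn (cn.inv.conj g)
    have h2 : n * (g * n⁻¹ * g⁻¹) ∈ zpowers g := by
      have := mul_mem (mem_normalizer_conj hn (mem_zpowers g)) (inv_mem (mem_zpowers g))
      simpa only [mul_assoc] using this
    have h3 := orderOf_eq_one_iff.1 (Nat.eq_one_of_dvd_coprimes h1 dvd_rfl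
      ((orderOf_dvd_of_mem_zpowers h2).trans (h.dvd hs hg hc)))
    have h4 : g * n = n * g := by
      calc g * n = (n * (g * n⁻¹ * g⁻¹)) * (g * n) := by rw [h3, one_mul]
        _ = n * g := by group
    rw [h.fpf hs hg hc hD cn h4, orderOf_one]
    exact one_dvd _
  · exact h.dvd hs hD cn

/-- Elements of the same prime power order dividing `m` with four fixed points generate conjugate
subgroups. -/
theorem exists_cj (h : Cx G Ω m) (hp : p.Prime) (h2 : p ≠ 2) (hm : p ∣ m) {x y : G}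
    (hx : 4 ≤ (Fx Ω x).ncard) (hy : 4 ≤ (Fx Ω y).ncard) (px : PE p x) (py : PE p y)
    (e : orderOf x = orderOf y) : ∃ g : G, cj g (zpowers x) = zpowers y := by
  obtain ⟨U, h3, hU⟩ := exists_sub_four hx
  obtain ⟨V, h4, hV⟩ := exists_sub_four hy
  obtain ⟨g, rfl⟩ := exists_image_eq h.tr hU hV
  obtain ⟨d, -, hd⟩ := h.conj_zpowers hV.ge hp h2 hm (conj_mem_Dx (mem_Dx_iff.2 h3))
    (mem_Dx_iff.2 h4) (px.conj g) py (by rw [← e, (SemiconjBy.conj_mk g x).orderOf_eq])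
  exact ⟨d * g, by rw [cj_mul, cj_zpowers g, hd]⟩

theorem ncard_Fx_eq (h : Cx G Ω m) (hp : p.Prime) (h2 : p ≠ 2) (hm : p ∣ m) {x y : G}
    (hx : 4 ≤ (Fx Ω x).ncard) (hy : 4 ≤ (Fx Ω y).ncard) (ox : orderOf x = p) (oy : orderOf y = p) :
    (Fx Ω x).ncard = (Fx Ω y).ncard := by
  obtain ⟨g, hg⟩ := h.exists_cj hp h2 hm hx hy (PE.of_orderOf ox) (PE.of_orderOf oy)
    (ox.trans oy.symm)
  rw [← Fs_zpowers, ← Fs_zpowers, ← hg, Fs_cj, ncard_smul]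

theorem hallh (h : Cx G Ω m) (hodd : Odd m) (hp : p.Prime) (hm : p ∣ m) {x : G} (ox : orderOf x = p)
    (hU : U.ncard = 4) (hx : x ∈ Dx G U) :
    IsMultiplyPretransitive (resX Ω (zpowers x)) (FixT Ω (zpowers x)) 4 ∧
      ((Fx Ω x).ncard = 4 ∧ Nat.card (resX Ω (zpowers x)) = 24 ∨
        (Fx Ω x).ncard = 5 ∧ Nat.card (resX Ω (zpowers x)) = 120 ∨
        (Fx Ω x).ncard = 6 ∧ Nat.card (resX Ω (zpowers x)) = 360 ∨
        (Fx Ω x).ncard = 7 ∧ Nat.card (resX Ω (zpowers x)) = 2520 ∨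
        (Fx Ω x).ncard = 11 ∧ Nat.card (resX Ω (zpowers x)) = 7920) ∧
      ((Fx Ω x).ncard = 7 → ∃ n ∈ normalizer (zpowers x : Set G), n ∈ Dx G U ∧
        ∃ y ∈ Fx Ω x, n • y ≠ y) := by
  have h2 : p ≠ 2 := by
    rintro rfl
    exact (Nat.not_even_iff_odd.2 hodd) (even_iff_two_dvd.2 hm)
  have := hall h.tr hU (zpowers_le.2 hx) (fun g hg => ?_) fun n hn hD => ?_
  · rw [Fs_zpowers] at this
    exact ⟨this.1, this.2.1, this.2.2.1⟩
  · rw [cj_zpowers, zpowers_le] at hg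
    obtain ⟨d, hd, e⟩ := h.conj_zpowers hU.ge hp h2 hm hg hx ((PE.of_orderOf ox).conj g)
      (PE.of_orderOf ox) (SemiconjBy.conj_mk g x).orderOf_eq.symm
    exact ⟨d, hd, by rw [cj_mul, cj_zpowers g, e]⟩
  · exact ⟨m, hodd, by
      rw [orderOf_dvd_iff_pow_eq_one.1 (h.norm_dvd hU.ge hx (not_cp_of_dvd hp hm ox.symm.dvd) hD hn)]
      exact one_mem _⟩

end Cx

end Cfsg.Lib.Fr4
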