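import Cfsg.Agent.Fr4.Base

/-!
# Four-fold transitive groups with a Frobenius four-point stabiliser: the blocks
-/

set_option autoImplicit false
set_option linter.unusedSectionVars false

namespace Cfsg.Lib.Fr4

open MulAction Subgroup Cfsg.Lib.Perm Cfsg.Lib.Trans

variable {G Ω : Type*} [Group G] [MulAction G Ω] [Finite G] [Finite Ω] {m k r p : ℕ}
  {s U B : Set Ω}

theorem exists_PE_part (hr : r.Prime) {c : G} {e : ℕ} (h : ∀ y ∈ B, c ^ r ^ e • y = y) :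
    ∃ i : ℕ, PE r (c ^ i) ∧ ∀ y ∈ B, c ^ i • y = c • y := by
  obtain ⟨i, j, h1, h2, h3⟩ := exists_split hr c
  refine ⟨i, h1, fun y hy => ?_⟩
  have h4 : c ^ j • y = y := smul_eq_of_pow (n := r ^ e)
    (by rw [← pow_mul, mul_comm, pow_mul]; exact pow_smul_eq (h y hy) j)
    (((Nat.Prime.coprime_iff_not_dvd hr).2 h2).pow_left e)
  conv_rhs => rw [h3, mul_smul, h4]

theorem pow_smul_congr {c ψ : G} (hψ : ∀ y ∈ B, ψ • y ∈ B) (h : ∀ y ∈ B, c • y = ψ • y) (n : ℕ) :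
    ∀ y ∈ B, c ^ n • y = ψ ^ n • y := by
  induction n with
  | zero => intro y _; rw [pow_zero, pow_zero]
  | succ n ih => intro y hy; rw [pow_succ, pow_succ, mul_smul, mul_smul, h y hy, ih _ (hψ y hy)]

/-- A block: the fixed point set of the Sylow `2`-subgroup of a four-point stabiliser. -/
def GB (G : Type*) {Ω : Type*} [Group G] [MulAction G Ω] (B : Set Ω) : Prop :=
  ∃ U : Set Ω, U.ncard = 4 ∧ Fs Ω (Pz G 2 U) = B

theorem GB.image (hB : GB G B) (g : G) : GB G ((g • ·) '' B) := by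
  obtain ⟨U, hU, rfl⟩ := hB
  exact ⟨_, (ncard_smul g U).trans hU, by rw [← cj_Pz, Fs_cj]⟩

theorem GB.four (hB : GB G B) : 4 ≤ B.ncard := by
  obtain ⟨U, hU, rfl⟩ := hB
  exact hU ▸ Set.ncard_le_ncard (subset_Fs_Pz 2 U)

theorem exists_gb (hU : U.ncard = 4) : ∃ B, GB G B ∧ U ⊆ B :=
  ⟨_, ⟨U, hU, rfl⟩, subset_Fs_Pz 2 U⟩

namespace CB

theorem not_two (h : CB G Ω m k) : ¬ 2 ∣ m := fun e =>
  (Nat.not_even_iff_odd.2 h.odd) (even_iff_two_dvd.2 e)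

theorem ne_two (h : CB G Ω m k) (hm : p ∣ m) : p ≠ 2 := fun e => h.not_two (e ▸ hm)

theorem cp (h : CB G Ω m k) {g : G} (hg : PE 2 g) : Cp m g := hg.coprime Nat.prime_two h.not_two

theorem mem_P (h : CB G Ω m k) (hs : 4 ≤ s.ncard) {g : G} :
    g ∈ Pz G 2 s ↔ g ∈ Dx G s ∧ PE 2 g := h.mem_Pz hs Nat.prime_two h.not_two

theorem pg (h : CB G Ω m k) (hs : 4 ≤ s.ncard) : IsPGroup 2 (Pz G 2 s) :=
  h.isPGroup hs Nat.prime_two h.not_two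

theorem pe (h : CB G Ω m k) (hs : 4 ≤ s.ncard) {g : G} (hg : g ∈ Pz G 2 s) : PE 2 g :=
  ((h.mem_P hs).1 hg).2

/-- An element of a four-point stabiliser outside the kernel is fixed point free on `P`. -/
theorem fpfP (h : CB G Ω m k) (hs : 4 ≤ s.ncard) {g a : G} (hg : g ∈ Dx G s) (hc : ¬ Cp m g)
    (ha : a ∈ Dx G s) (pa : PE 2 a) (e : g * a = a * g) : a = 1 :=
  h.fpf hs hg hc ha (h.cp pa) e

theorem P_eq (h : CB G Ω m k) (hB : GB G B) (hs : 4 ≤ s.ncard) (hsB : s ⊆ B) :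
    Pz G 2 s = Pz G 2 B := by
  have h4 := hB.four
  obtain ⟨U, hU, rfl⟩ := hB
  rw [h.Pz_eq Nat.prime_two h.not_two hU hs hsB, h.Pz_eq Nat.prime_two h.not_two hU h4 le_rfl]

theorem Fs_P (h : CB G Ω m k) (hB : GB G B) : Fs Ω (Pz G 2 B) = B := by
  have h4 := hB.four
  obtain ⟨U, hU, rfl⟩ := hB
  rw [h.Pz_eq Nat.prime_two h.not_two hU h4 le_rfl]

theorem card_gb (h : CB G Ω m k) (hB : GB G B) : B.ncard = k := by
  obtain ⟨U, hU, rfl⟩ := hB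
  exact h.blk U hU

theorem P_ne (h : CB G Ω m k) (hB : GB G B) : Pz G 2 B ≠ ⊥ := by
  obtain ⟨U, h1, hU⟩ := exists_sub_four hB.four
  rw [← h.P_eq hB hU.ge h1]
  exact h.ne U hU

theorem gb_eq (h : CB G Ω m k) {B' : Set Ω} (hB : GB G B) (hB' : GB G B')
    (h4 : 4 ≤ (B ∩ B').ncard) : B = B' := by
  rw [← h.Fs_P hB, ← h.P_eq hB h4 Set.inter_subset_left, h.P_eq hB' h4 Set.inter_subset_right,
    h.Fs_P hB']

theorem smul_mem (h : CB G Ω m k) (hB : GB G B) (hs : 4 ≤ s.ncard) (hsB : s ⊆ B) {g : G}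
    (hg : ∀ x ∈ s, g • x ∈ B) : ∀ x ∈ B, g • x ∈ B := by
  have h1 := h.gb_eq (hB.image g) hB (hs.trans ((ncard_smul g s).ge.trans (Set.ncard_le_ncard (by
    rintro _ ⟨x, hx, rfl⟩
    exact ⟨⟨x, hsB hx, rfl⟩, hg x hx⟩))))
  exact fun x hx => h1 ▸ ⟨x, hx, rfl⟩

theorem smul_mem' (h : CB G Ω m k) (hB : GB G B) (hs : 4 ≤ s.ncard) (hsB : s ⊆ B) {g : G}
    (hg : g ∈ Dx G s) : ∀ x ∈ B, g • x ∈ B :=
  h.smul_mem hB hs hsB fun x hx => by rw [mem_Dx.1 hg x hx]; exact hsB hx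

theorem smul_mem_of_norm (h : CB G Ω m k) (hB : GB G B) {g : G}
    (hg : g ∈ normalizer (Pz G 2 B : Set G)) : ∀ x ∈ B, g • x ∈ B :=
  fun _ hx => h.Fs_P hB ▸ smul_mem_Fs hg ((h.Fs_P hB).ge hx)

theorem lt_card (h : CB G Ω m k) : k < Nat.card Ω := by
  obtain ⟨U, -, hU⟩ := exists_sub_four (s := (Set.univ : Set Ω)) (by
    rw [Set.ncard_univ]; exact h.four)
  rw [← h.blk U hU, ← Set.ncard_univ]
  refine Set.ncard_lt_ncard (Set.ssubset_univ_iff.2 fun e => h.ne U hU (eq_bot_iff.2 fun g hg => ?_))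
  exact h.faith g fun x => e.ge (Set.mem_univ x) g hg

theorem hallP (h : CB G Ω m k) (hB : GB G B) (hU : U.ncard = 4) (hUB : U ⊆ B) :
    IsMultiplyPretransitive (resX Ω (Pz G 2 B)) (FixT Ω (Pz G 2 B)) 4 ∧
      (k = 4 ∧ Nat.card (resX Ω (Pz G 2 B)) = 24 ∨ k = 5 ∧ Nat.card (resX Ω (Pz G 2 B)) = 120 ∨
        k = 6 ∧ Nat.card (resX Ω (Pz G 2 B)) = 360 ∨ k = 7 ∧ Nat.card (resX Ω (Pz G 2 B)) = 2520 ∨
        k = 11 ∧ Nat.card (resX Ω (Pz G 2 B)) = 7920) ∧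
      (k = 7 → ∃ n ∈ Dx G U, ∃ x ∈ B, n • x ≠ x) ∧
      (k ≠ 11 → ∀ σ : resX Ω (Pz G 2 B), Odd (orderOf σ) → σ ∈ commutator (resX Ω (Pz G 2 B))) ∧
      (k = 7 → ∀ [Fintype (FixT Ω (Pz G 2 B))] [DecidableEq (FixT Ω (Pz G 2 B))],
        resX Ω (Pz G 2 B) = alternatingGroup (FixT Ω (Pz G 2 B))) := by
  have e := h.P_eq hB hU.ge hUB
  have := hall h.tr hU (W := Pz G 2 B) (e ▸ Pz_le 2 U) (fun g hg => ⟨1, one_mem _, ?_⟩)
    fun n hn hD => ?_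
  · rw [h.Fs_P hB, h.card_gb hB] at this
    obtain ⟨h1, h2, h3, h4, h5⟩ := this
    exact ⟨h1, h2, fun h7 => (h3 h7).imp fun _ hn => hn.2, h4, h5⟩
  · rw [one_mul]
    refine eq_of_le_of_card_ge (fun a ha => e ▸ mem_Pz_of (hg ha) ?_) (card_cj _ _).ge
    exact PE.of_mem (isPGroup_cj (h.pg hB.four) g) ha
  · obtain ⟨j, h1, h2, -⟩ := exists_part Nat.prime_two n
    exact ⟨j, Nat.not_even_iff_odd.1 (mt even_iff_two_dvd.1 h2),
      le_Dx_iff.2 le_rfl (e ▸ mem_Pz_of (pow_mem hD j) h1)⟩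

theorem k_cases (h : CB G Ω m k) : k = 4 ∨ k = 5 ∨ k = 6 ∨ k = 7 ∨ k = 11 := by
  obtain ⟨U, -, hU⟩ := exists_sub_four (s := (Set.univ : Set Ω)) (by
    rw [Set.ncard_univ]; exact h.four)
  obtain ⟨B, hB, h1⟩ := exists_gb (G := G) hU
  have := (h.hallP hB hU h1).2.1
  omega

/-- For `k ≠ 7` four points of a block determine an element on the block. -/
theorem fix_blk (h : CB G Ω m k) (hk : k ≠ 7) (hB : GB G B) (hs : 4 ≤ s.ncard) (hsB : s ⊆ B)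
    {g : G} (hg : g ∈ Dx G s) : g ∈ Dx G B := by
  obtain ⟨U, h1, hU⟩ := exists_sub_four hB.four
  obtain ⟨h2, h3, -⟩ := h.hallP hB hU h1
  have := hall_fix h2 (by
    rw [h.Fs_P hB, h.card_gb hB]
    rcases h3 with h3 | h3 | h3 | h3 | h3 <;> simp_all [Nat.descFactorial]) hs
    ((h.Fs_P hB).symm ▸ hsB) (mem_normalizer_Pz (h.smul_mem' hB hs hsB hg)) hg
  rwa [h.Fs_P hB] at this

/-- The stabiliser of a block is four-fold transitive on it. -/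
theorem blk_map (h : CB G Ω m k) (hB : GB G B) {a b c d a' b' c' d' : Ω}
    (h1 : [a, b, c, d].Nodup) (h2 : [a', b', c', d'].Nodup) (h3 : ({a, b, c, d} : Set Ω) ⊆ B)
    (h4 : ({a', b', c', d'} : Set Ω) ⊆ B) : ∃ g : G, (∀ x ∈ B, g • x ∈ B) ∧
      g • a = a' ∧ g • b = b' ∧ g • c = c' ∧ g • d = d' := by
  obtain ⟨g, e1, e2, e3, e4⟩ := map4' h.tr h1 h2
  refine ⟨g, h.smul_mem hB (ncard_four h1).ge h3 ?_, e1, e2, e3, e4⟩
  rintro x (rfl | rfl | rfl | rfl) <;> apply h4 <;> simp [*]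

/-- An `r`-element stabilising a block commutes, modulo `O_r`, with an element of the complement. -/
theorem comm_lift (h : CB G Ω m k) (hk : k ≠ 11) (hB : GB G B) (hr : r.Prime) (h2 : r ≠ 2) {ψ : G}
    (pψ : PE r ψ) (hψ : ∀ x ∈ B, ψ • x ∈ B)
    (hmul : ∀ a ∈ Dx G B, ∀ b ∈ Dx G B, PE r a → PE r b → PE r (a * b)) (hp : p.Prime) (hm : p ∣ m)
    {x : G} (hx : x ∈ Dx G B) (ox : orderOf x = p) :
    ∃ y ∈ Dx G B, orderOf y = p ∧ ∃ o ∈ Dx G B, PE r o ∧ o * ψ * y = y * (o * ψ) := by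
  obtain ⟨U, h1, hU⟩ := exists_sub_four hB.four
  obtain ⟨σ, hσ⟩ := exists_resX (α := Ω) (mem_normalizer_Pz (r := 2) hψ)
  obtain ⟨e, he⟩ := pψ
  have h3 : Odd (orderOf σ) := Odd.of_dvd_nat (hr.odd_of_ne_two h2).pow
    (resX_orderOf_dvd hσ (m := r ^ e) (he ▸ one_mem _))
  obtain ⟨c, h4, h5⟩ := exists_comm_lift (h := x) (fun n hn => by
    obtain ⟨d, hd, e⟩ := h.conj_zpowers hB.four hp (h.ne_two hm) hm
      (conj_mem_Dx' (h.smul_mem_of_norm hB hn) hx) hx ((PE.of_orderOf ox).conj n) (PE.of_orderOf ox)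
      (SemiconjBy.conj_mk n x).orderOf_eq.symm
    exact ⟨d, (h.Fs_P hB).symm ▸ hd, cj_eq_self_iff.1 (by rw [cj_mul, cj_zpowers n, e])⟩)
    ((h.hallP hB hU h1).2.2.2.1 hk σ h3)
  have h6 : ∀ y ∈ B, c • y = ψ • y := fun y hy =>
    (h5 ⟨y, (h.Fs_P hB).ge hy⟩).symm.trans (hσ _)
  obtain ⟨i, h7, h8⟩ := exists_PE_part (B := B) hr (c := c) (e := e) fun y hy => by
    rw [pow_smul_congr hψ h6 _ y hy, he, one_smul]
  obtain ⟨d, hd, h9, h10⟩ := sylow_coset hr hmul ⟨e, he⟩ h7 (mem_normalizer_Dx hψ)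
    (mem_Dx.2 fun y hy => by
      have := inv_smul_mem hψ y hy
      rw [mul_smul, h8 _ this, h6 _ this, smul_inv_smul])
  refine ⟨d * x * d⁻¹, mul_mem (mul_mem hd hx) (inv_mem hd),
    (SemiconjBy.conj_mk d x).orderOf_eq.symm.trans ox, _, h9, h10, ?_⟩
  rw [inv_mul_cancel_right, conj_mul, conj_mul, (Commute.pow_left h4 i).eq]

end CB

end Cfsg.Lib.Fr4
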