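import Cfsg.Agent.Fr4.Util
import Cfsg.Agent.Class.DicksonCount

/-!
# The configuration on eleven points
-/

set_option autoImplicit false

namespace Cfsg.Lib.Fr4

open MulAction Subgroup Cfsg.Lib.Perm Cfsg.Lib.Trans

theorem PE.conj_modEq {G : Type*} [Group G] [Finite G] {r : ℕ} (hr : r.Prime) {g : G} (hg : PE r g)
    {S : Set G} (hS : ∀ x ∈ S, g * x * g⁻¹ ∈ S) :
    S.ncard ≡ {x ∈ S | g * x = x * g}.ncard [MOD r] := by
  have : Finite (ConjAct G) := inferInstanceAs (Finite G)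
  have h1 : PE r (ConjAct.toConjAct g) := hg.map ConjAct.toConjAct.toMonoidHom
  have := h1.ncard_modEq hr (S := S) hS
  rwa [show S ∩ Fx G (ConjAct.toConjAct g) = {x ∈ S | g * x = x * g} from
    Set.ext fun x => and_congr_right fun _ => mul_inv_eq_iff_eq_mul] at this

namespace E11

variable {C Γ : Type*} [Group C] [MulAction C Γ] [Finite C] [Finite Γ] (h : E11 C Γ)
  {g k : C} {u v : Γ} {s : Set Γ}
include h

omit [Finite C] [Finite Γ] in
theorem le3 (h1 : g ≠ 1) : (Fx Γ g).ncard ≤ 3 := by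
  by_contra e
  exact h1 (h.four g (by omega))

theorem fx {r : ℕ} (hr : r.Prime) (hg : orderOf g = r) :
    (Fx Γ g).ncard ≤ 3 ∧ 11 % r = (Fx Γ g).ncard % r :=
  ⟨h.le3 fun e => hr.one_lt.ne (by rw [← hg, e, orderOf_one]), h.card ▸ (PE.of_orderOf hg).card_modEq hr⟩

theorem fx3 (hg : orderOf g = 3) : (Fx Γ g).ncard = 2 := by
  have := h.fx Nat.prime_three hg
  omega

omit [Finite C] [Finite Γ] in
theorem mem_B (hu : u ∈ s) : g ∈ Pz C 2 s ↔ g ∈ Dx C s ∧ PE 2 g :=
  mem_Pz_iff fun a ha b hb => h.mul u a b (mem_Dx.1 ha u hu) (mem_Dx.1 hb u hu)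

omit [Finite C] [Finite Γ] in
theorem mem_B1 : g ∈ Pz C 2 ({u} : Set Γ) ↔ g • u = u ∧ PE 2 g := by
  rw [h.mem_B (Set.mem_singleton u), mem_Dx]; simp

omit [Finite C] [Finite Γ] in
theorem pB (hu : u ∈ s) : IsPGroup 2 (Pz C 2 s) := isPGroup_of_PE fun _ hg => ((h.mem_B hu).1 hg).2

theorem two (hk : orderOf k = 3) (hu : k • u = u) : Pz C 2 (Fx Γ k) = ⊥ := by
  by_contra e
  obtain ⟨d, hd, d1⟩ := (Subgroup.bot_or_exists_ne_one _).resolve_left e
  have h1 : (Fs Γ (Pz C 2 (Fx Γ k))).ncard ≤ 3 :=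
    (Set.ncard_le_ncard (s := Fs Γ _) (t := Fx Γ d) fun x hx => hx d hd).trans (h.le3 d1)
  have h2 := ncard_modEq_ncard_fixed Nat.prime_two _ (h.pB (s := Fx Γ k) hu) (Set.univ : Set Γ)
    (Set.toFinite _) fun _ _ _ _ => trivial
  have h3 := (PE.of_orderOf hk).ncard_modEq Nat.prime_three (S := Fs Γ (Pz C 2 (Fx Γ k))) fun x hx =>
    smul_mem_Fs (mem_normalizer_Pz fun x hx => smul_mem_Fx rfl hx) hx
  rw [Set.inter_eq_right.2 (subset_Fs_Pz 2 _), h.fx3 hk] at h3
  simp only [Set.ncard_univ, h.card, Set.mem_univ, true_and] at h2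
  change 11 % 2 = (Fs Γ _).ncard % 2 at h2
  unfold Nat.ModEq at h3
  omega

theorem pair (hk : orderOf k = 3) (hu : k • u = u) : ∃ v, v ≠ u ∧ Fx Γ k = {u, v} := by
  obtain ⟨x, y, e, e'⟩ := Set.ncard_eq_two.1 (h.fx3 hk)
  rcases (e' ▸ hu : u ∈ ({x, y} : Set Γ)) with rfl | rfl
  exacts [⟨y, e.symm, e'⟩, ⟨x, e, e'.trans (Set.pair_comm ..)⟩]

theorem card_B (hB : Pz C 2 ({u} : Set Γ) ≠ ⊥) : Nat.card (Pz C 2 ({u} : Set Γ)) = 4 := by
  have := Fact.mk Nat.prime_two
  obtain ⟨k, hk, hu⟩ := h.three u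
  obtain ⟨v, -, e⟩ := h.pair hk hu
  have h1 := card_le_ncard (Pz C 2 ({u} : Set Γ)) (S := Set.univ) (x := v) (fun _ _ => trivial) fun w hw e' => by
    rw [← mem_bot, ← h.two hk hu, h.mem_B (mem_Fx.2 hu), mem_Dx, e]
    simpa [e'] using h.mem_B1.1 hw
  have h2 := (PE.of_orderOf hk).conj_modEq Nat.prime_three (S := Pz C 2 ({u} : Set Γ)) fun x hx =>
    mem_normalizer_conj (mem_normalizer_Pz fun y hy => by rw [hy]; exact hu) hx
  rw [show {x ∈ (Pz C 2 ({u} : Set Γ) : Set C) | k * x = x * k} = {1} from Set.ext fun x => ⟨fun hx =>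
    h.fpf u k x hk hu (h.mem_B1.1 hx.1).1 (h.mem_B1.1 hx.1).2 hx.2, fun hx => by
      rw [hx]; exact ⟨one_mem _, by simp⟩⟩, Set.ncard_singleton, ← Nat.card_coe_set_eq] at h2
  obtain ⟨n, hn⟩ := (h.pB (s := {u}) rfl).exists_card_eq
  have h3 := mt card_eq_one.1 hB
  change Nat.card (Pz C 2 ({u} : Set Γ)) % 3 = _ at h2
  rw [Set.ncard_univ, h.card] at h1
  rw [hn] at h1 h2 h3 ⊢
  have : n < 4 := (Nat.pow_lt_pow_iff_right one_lt_two).1 (by omega)
  interval_cases n <;> omega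

omit [Finite Γ] in
theorem pow_dvd {n : ℕ} (e : 2 ^ n ∣ Nat.card (stabilizer C u)) : 2 ^ n ∣ Nat.card (Pz C 2 ({u} : Set Γ)) := by
  have := Fact.mk Nat.prime_two
  obtain ⟨K, hK⟩ := Sylow.exists_subgroup_card_pow_prime 2 e
  rw [← hK, ← card_map_of_injective (f := (stabilizer C u).subtype) (subtype_injective _)]
  refine card_dvd_of_le ?_
  rintro _ ⟨x, hx, rfl⟩
  exact h.mem_B1.2 ⟨x.2, (PE.of_mem (IsPGroup.of_card hK) hx).map _⟩

omit h [Finite Γ] in
theorem exists_ord {r : ℕ} (hr : r.Prime) (e : r ∣ Nat.card (stabilizer C u)) :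
    ∃ y : C, orderOf y = r ∧ y • u = u := by
  have := Fact.mk hr
  obtain ⟨y, hy⟩ := exists_prime_orderOf_dvd_card' r e
  exact ⟨y, (orderOf_coe y).trans hy, y.2⟩

theorem stab (hB : Pz C 2 ({u} : Set Γ) ≠ ⊥) : Nat.card (stabilizer C u) = 12 := by
  have h4 := h.card_B hB
  have key : ∀ s ∈ Nat.divisors 7920, 4 ∣ s → 3 ∣ s → ¬ 2 ^ 3 ∣ s → ¬ 9 ∣ s → ¬ 5 ∣ s → ¬ 11 ∣ s → s = 12 := by
    decide +kernel
  have hd := card_subgroup_dvd_card (stabilizer C u)
  obtain ⟨k, hk, hu⟩ := h.three u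
  refine key _ (Nat.mem_divisors.2 ⟨hd.trans h.dvd, by decide⟩)
    (h4 ▸ card_dvd_of_le fun x hx => (h.mem_B1.1 hx).1) (hk ▸ orderOf_dvd_natCard _ hu)
    (fun e => by have := h.pow_dvd e; omega) (fun e => h.nine (e.trans hd)) (fun e => ?_) fun e => ?_
  · obtain ⟨y, hy, yu⟩ := exists_ord Nat.prime_five e
    have h1 := h.fx Nat.prime_five hy
    have h2 := (PE.of_orderOf hy).conj_modEq Nat.prime_five (S := Pz C 2 ({u} : Set Γ)) fun x hx =>
      mem_normalizer_conj (mem_normalizer_Pz fun y hy => by rw [hy]; exact yu) hx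
    have h3 : ((Pz C 2 ({u} : Set Γ)) : Set C).ncard = 4 := h4
    have h5 := Set.ncard_le_ncard (Set.sep_subset (Pz C 2 ({u} : Set Γ) : Set C) fun x => y * x = x * y)
    unfold Nat.ModEq at h2
    have h6 := Set.eq_of_subset_of_ncard_le (Set.sep_subset (Pz C 2 ({u} : Set Γ) : Set C)
      fun x => y * x = x * y) (by omega)
    have := Class.card_dvd_ncard_of_free (Pz C 2 ({u} : Set Γ)) ({u}ᶜ : Set Γ) (fun b hb x hx e => hx
      ((smul_left_cancel_iff b).1 (e.trans (h.mem_B1.1 hb).1.symm))) fun b hb x hx e => by_contra fun b1 => by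
        have h7 := (PE.of_orderOf hy).ncard_modEq Nat.prime_five (S := Fx Γ b) fun _ => smul_mem_Fx (h6.ge hb).2
        have h8 := Set.ncard_le_ncard (Set.inter_subset_right (s := Fx Γ b) (t := Fx Γ y))
        have h9 := h.le3 b1
        have := Set.ncard_le_ncard (Set.pair_subset (s := Fx Γ b) e (h.mem_B1.1 hb).1)
        rw [Set.ncard_pair hx] at this
        unfold Nat.ModEq at h7
        omega
    rw [Set.ncard_compl, h.card, Set.ncard_singleton, h4] at this
    omega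
  · obtain ⟨y, hy, yu⟩ := exists_ord (by norm_num) e
    have h1 := h.fx (by norm_num) hy
    have := (Set.ncard_pos (s := Fx Γ y)).2 ⟨u, yu⟩
    omega

omit h [Finite C] [Finite Γ] in
theorem orb (u : Γ) : Nat.card (stabilizer C u) * (orbit C u).ncard = Nat.card C := by
  rw [← index_stabilizer, card_mul_index]

theorem trans (hB : Pz C 2 ({u} : Set Γ) ≠ ⊥) : orbit C u = Set.univ := by
  have := Fact.mk Nat.prime_three
  obtain ⟨k, hk, hu⟩ := h.three u
  obtain ⟨v, -, e⟩ := h.pair hk hu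
  have hU : orbit C u ∪ orbit C v = Set.univ := Set.eq_univ_of_forall fun x => by
    obtain ⟨y, hy, yx⟩ := h.three x
    obtain ⟨Q, hQ⟩ := (PE.of_orderOf hy).isPGroup.exists_le_sylow
    obtain ⟨g, hg⟩ := exists_smul_eq C Q ((PE.of_orderOf hk).isPGroup.toSylow fun e => h.nine (by
      rw [← (zpowers k).card_mul_index, Nat.card_zpowers, hk]; exact Nat.mul_dvd_mul_left 3 e))
    have h1 : g * y * g⁻¹ ∈ zpowers k :=
      hg.le (smul_mem_pointwise_smul _ (MulAut.conj g) _ (hQ (mem_zpowers y)))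
    have h2 : Fx Γ k = Fx Γ (g * y * g⁻¹) := Set.eq_of_subset_of_ncard_le
      (fun z hz => (Fs_zpowers k).ge hz _ h1) (by rw [ncard_Fx_conj, h.fx3 hk, h.fx3 hy])
    have : g • x ∈ ({u, v} : Set Γ) := by rw [← e, h2, Fx_conj]; exact ⟨x, yx, rfl⟩
    exact this.imp (fun e => ⟨g⁻¹, inv_smul_eq_iff.2 e.symm⟩) fun e => ⟨g⁻¹, inv_smul_eq_iff.2 e.symm⟩
  by_cases hv : v ∈ orbit C u
  · rwa [orbit_eq_iff.2 hv, Set.union_self] at hU
  have h1 := Set.ncard_union_eq (s := orbit C u) (t := orbit C v) (Set.disjoint_left.2 fun x a b =>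
    hv (orbit_eq_iff.2 a ▸ orbit_eq_iff.2 b ▸ mem_orbit_self v))
  have h2 := orb (C := C) u
  have h3 := orb (C := C) v
  have h4 := h.dvd
  have h5 := h.nine
  rw [hU, Set.ncard_univ, h.card] at h1
  rw [h.stab hB] at h2
  by_cases hB' : Pz C 2 ({v} : Set Γ) = ⊥
  · have h6 : Nat.Coprime 4 (Nat.card (stabilizer C v)) :=
      Nat.Coprime.pow_left 2 (Nat.prime_two.coprime_iff_not_dvd.2 fun e => by
        simpa [hB'] using h.pow_dvd (n := 1) e)
    have := h6.dvd_of_dvd_mul_left (h3 ▸ h2 ▸ Dvd.dvd.mul_right (by decide) _)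
    have := (Set.ncard_pos (s := orbit C v)).2 ⟨v, mem_orbit_self v⟩
    obtain e | e : Nat.card C = 36 ∨ Nat.card C = 84 := by omega
    all_goals simp [e] at h4 h5
  · rw [h.stab hB'] at h3
    omega

theorem triv (u : Γ) (b : C) (hu : b • u = u) (hb : PE 2 b) : b = 1 := by
  by_contra b1
  have hB : Pz C 2 ({u} : Set Γ) ≠ ⊥ := fun e => b1 (mem_bot.1 (e ▸ h.mem_B1.2 ⟨hu, hb⟩))
  have : Fact (Nat.Prime 11) := ⟨by norm_num⟩
  have ho : ∀ v : Γ, (orbit C v).ncard = 11 := fun v => by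
    rw [orbit_eq_iff.2 ((h.trans hB).ge (Set.mem_univ v)), h.trans hB, Set.ncard_univ, h.card]
  have hc : Nat.card C = 132 := by rw [← orb u, h.stab hB, ho]
  have hs : ∀ v : Γ, Nat.card (stabilizer C v) = 12 := fun v => by
    have := orb (C := C) v
    rw [ho, hc] at this
    omega
  obtain ⟨k, hk, ku⟩ := h.three u
  obtain ⟨y, hy⟩ := exists_prime_orderOf_dvd_card' (G := C) 11 (by rw [hc]; decide)
  have hi : (zpowers y).index = 12 := by
    have := (zpowers y).card_mul_index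
    rw [Nat.card_zpowers, hy, hc] at this
    omega
  let P := (PE.of_orderOf hy).isPGroup.toSylow (by rw [hi]; decide)
  have hP : Nat.card P = 11 := (Nat.card_zpowers y).trans hy
  have h1 : Nat.card (Sylow 11 C) ∣ 12 := hi ▸ P.card_dvd_index
  have h2 := card_sylow_modEq_one 11 C
  rw [P.card_eq_index_normalizer] at h1 h2
  have h3 := Nat.le_of_dvd (by decide) h1
  unfold Nat.ModEq at h2
  obtain e | e : (normalizer (P : Set C)).index = 1 ∨ (normalizer (P : Set C)).index = 12 := by omega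
  · have h4 := (PE.of_orderOf hk).conj_modEq Nat.prime_three (S := P) fun x hx =>
      ((mem_normalizer_iff (H := (P : Subgroup C))).1 ((index_eq_one.1 e).ge (mem_top k)) x).1 hx
    obtain ⟨z, ⟨z1, z2⟩, z3⟩ : ∃ z ∈ {x ∈ (P : Set C) | k * x = x * k}, z ≠ 1 := by
      by_contra! hn
      have := Set.ncard_le_ncard (t := {1}) hn
      have h5 : (P : Set C).ncard = 11 := hP
      unfold Nat.ModEq at h4
      rw [Set.ncard_singleton] at this
      omega
    have h5 : orderOf z = 11 := ((Nat.dvd_prime this.out).1 (hP ▸ orderOf_dvd_natCard _ z1)).resolve_left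
      (mt orderOf_eq_one_iff.1 z3)
    have h6 := (PE.of_orderOf h5).ncard_modEq this.out (S := Fx Γ k) fun _ => smul_mem_Fx z2.symm
    have h7 := h.fx this.out h5
    have h8 := Set.ncard_le_ncard (Set.inter_subset_right (s := Fx Γ k) (t := Fx Γ z))
    unfold Nat.ModEq at h6
    rw [h.fx3 hk] at h6
    omega
  · have h4 : normalizer (P : Set C) ≤ centralizer P := by
      have := (normalizer (P : Set C)).card_mul_index
      rw [e, hc] at this
      exact (eq_of_le_of_card_ge (le_normalizer (H := (P : Subgroup C))) (by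
        change Nat.card (normalizer (P : Set C)) ≤ _; omega)).ge.trans (le_centralizer (zpowers y))
    have h5 : ∀ v : Γ, stabilizer C v = (MonoidHom.transferSylow P h4).ker := fun v => by
      refine eq_of_le_of_card_ge (fun g hg => orderOf_eq_one_iff.1 (Nat.eq_one_of_dvd_coprimes
        (by norm_num : Nat.Coprime 11 12) ((_root_.orderOf_dvd_natCard _).trans hP.dvd)
        ((orderOf_map_dvd _ g).trans (hs v ▸ Subgroup.orderOf_dvd_natCard _ hg)))) ?_
      have := (MonoidHom.ker_transferSylow_isComplement' P h4).card_mul_card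
      rw [hP, hc] at this
      rw [hs]; omega
    have := h.fx3 hk
    rw [show Fx Γ k = Set.univ from Set.eq_univ_of_forall fun v => ((h5 u).trans (h5 v).symm).le ku,
      Set.ncard_univ, h.card] at this
    omega

end E11

end Cfsg.Lib.Fr4
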