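import Cfsg.Agent.Fr4.Util
import Cfsg.Agent.S4221

/-!
# Four-fold transitive groups with a Frobenius four-point stabiliser: Witt's lemma and M. Hall's
theorem for a weakly closed subgroup of the four-point stabiliser
-/

set_option autoImplicit false
set_option linter.unusedSectionVars false

namespace Cfsg.Lib.Fr4

open MulAction Subgroup Cfsg.Lib.Perm Cfsg.Lib.Trans
open scoped commutatorElement

variable {G Ω : Type*} [Group G] [MulAction G Ω]

/-- Four distinct points as an embedding. -/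
def em4 {a b c d : Ω} (h : [a, b, c, d].Nodup) : Fin 4 ↪ Ω :=
  ⟨![a, b, c, d], fun i j e => by
    simp only [List.nodup_cons, List.mem_cons, List.not_mem_nil, not_or] at h
    fin_cases i <;> fin_cases j <;> simp_all [eq_comm]⟩

theorem map4' (tr : IsMultiplyPretransitive G Ω 4) {a b c d a' b' c' d' : Ω}
    (h : [a, b, c, d].Nodup) (h' : [a', b', c', d'].Nodup) :
    ∃ g : G, g • a = a' ∧ g • b = b' ∧ g • c = c' ∧ g • d = d' := by
  obtain ⟨g, hg⟩ := tr.exists_smul_eq (em4 h) (em4 h')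
  exact ⟨g, DFunLike.congr_fun hg 0, DFunLike.congr_fun hg 1, DFunLike.congr_fun hg 2,
    DFunLike.congr_fun hg 3⟩

theorem exists_image_eq (tr : IsMultiplyPretransitive G Ω 4) {U V : Set Ω} (hU : U.ncard = 4)
    (hV : V.ncard = 4) : ∃ g : G, (g • ·) '' U = V := by
  obtain ⟨a, b, c, d, h, rfl⟩ := exists_four hU
  obtain ⟨a', b', c', d', h', rfl⟩ := exists_four hV
  obtain ⟨g, h1, h2, h3, h4⟩ := map4' tr h h'
  exact ⟨g, by simp only [Set.image_insert_eq, Set.image_singleton, h1, h2, h3, h4]⟩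

theorem tr4_of (h : ∀ a b c d a' b' c' d' : Ω, [a, b, c, d].Nodup → [a', b', c', d'].Nodup →
    ∃ g : G, g • a = a' ∧ g • b = b' ∧ g • c = c' ∧ g • d = d') :
    IsMultiplyPretransitive G Ω 4 := by
  rw [isMultiplyPretransitive_iff]
  intro x y
  obtain ⟨g, h1, h2, h3, h4⟩ := h (x 0) (x 1) (x 2) (x 3) (y 0) (y 1) (y 2) (y 3)
    (by simp) (by simp)
  refine ⟨g, Function.Embedding.ext fun i => ?_⟩
  fin_cases i
  exacts [h1, h2, h3, h4]

theorem odd_mem_commutator {α : Type*} [Fintype α] [DecidableEq α] (H : Subgroup (Equiv.Perm α))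
    (h : H = ⊤ ∨ 5 ≤ Nat.card α ∧ H = alternatingGroup α) (σ : H) (hσ : Odd (orderOf σ)) :
    σ ∈ commutator H := by
  rcases h with rfl | ⟨h5, rfl⟩
  · obtain ⟨τ, hτ⟩ := isConj_iff.1 (Equiv.Perm.isConj_iff_cycleType_eq.2
      (Equiv.Perm.cycleType_inv (σ : Equiv.Perm α)).symm)
    have h1 : σ * σ ∈ commutator (⊤ : Subgroup (Equiv.Perm α)) := by
      have : σ * σ = ⁅σ, (⟨τ, mem_top τ⟩ : (⊤ : Subgroup (Equiv.Perm α)))⁆ := by
        refine Subtype.ext ?_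
        change (σ : Equiv.Perm α) * σ = σ * τ * (σ : Equiv.Perm α)⁻¹ * τ⁻¹
        have h2 : τ * (σ : Equiv.Perm α)⁻¹ * τ⁻¹ = σ := by
          rw [← conj_inv, hτ, inv_inv]
        rw [mul_assoc, mul_assoc, ← mul_assoc τ, h2]
      rw [this]
      exact commutator_mem_commutator (mem_top _) (mem_top _)
    obtain ⟨j, hj⟩ := hσ
    have h2 : σ = (σ * σ) ^ (j + 1) := by
      rw [← pow_two, ← pow_mul, show 2 * (j + 1) = orderOf σ + 1 by omega, pow_succ,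
        pow_orderOf_eq_one, one_mul]
    rw [h2]
    exact pow_mem h1 _
  · rw [commutator_alternatingGroup_eq_top h5]
    exact mem_top _

variable [Finite G] [Finite Ω]

set_option linter.unusedVariables false in
omit [Finite G] [Finite Ω] in
theorem map4 (h4 : 4 ≤ Nat.card Ω) (tr : IsMultiplyPretransitive G Ω 4) {a b c d a' b' c' d' : Ω}
    (h : [a, b, c, d].Nodup) (h' : [a', b', c', d'].Nodup) :
    ∃ g : G, g • a = a' ∧ g • b = b' ∧ g • c = c' ∧ g • d = d' := map4' tr h h'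

theorem stabilizer_em4 {a b c d : Ω} (h : [a, b, c, d].Nodup) :
    stabilizer G (em4 h) = Dx G {a, b, c, d} := by
  ext g
  rw [mem_stabilizer_iff, mem_Dx, Function.Embedding.ext_iff]
  simp only [Set.mem_insert_iff, Set.mem_singleton_iff, forall_eq_or_imp, forall_eq]
  exact ⟨fun e => ⟨e 0, e 1, e 2, e 3⟩, fun e i => by
    fin_cases i
    exacts [e.1, e.2.1, e.2.2.1, e.2.2.2]⟩

theorem card_eq_mul (tr : IsMultiplyPretransitive G Ω 4) {U : Set Ω} (hU : U.ncard = 4) :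
    Nat.card G = (Nat.card Ω).descFactorial 4 * Nat.card (Dx G U) := by
  classical
  obtain ⟨a, b, c, d, h, rfl⟩ := exists_four hU
  have := Fintype.ofFinite Ω
  have hind : (stabilizer G (em4 h)).index = (Nat.card Ω).descFactorial 4 := by
    rw [@index_stabilizer_of_transitive G (Fin 4 ↪ Ω) _ _ _ tr, Nat.card_eq_fintype_card,
      Fintype.card_embedding_eq, Fintype.card_fin, Nat.card_eq_fintype_card]
  rw [← hind, ← stabilizer_em4 h, mul_comm, card_mul_index]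

theorem ncard_Fs (W : Subgroup G) : (Fs Ω W).ncard = Nat.card (FixT Ω W) := rfl

theorem resX_tr (tr : IsMultiplyPretransitive G Ω 4) {U : Set Ω} (hU : U.ncard = 4) {W : Subgroup G}
    (hwc : ∀ g : G, cj g W ≤ Dx G U → ∃ d ∈ Dx G U, cj (d * g) W = W) :
    IsMultiplyPretransitive (resX Ω W) (FixT Ω W) 4 := by
  obtain ⟨u1, u2, u3, u4, hu, rfl⟩ := exists_four hU
  have key : ∀ a b c d : FixT Ω W, [a, b, c, d].Nodup → ∃ n ∈ normalizer (W : Set G),
      n • (a : Ω) = u1 ∧ n • (b : Ω) = u2 ∧ n • (c : Ω) = u3 ∧ n • (d : Ω) = u4 := by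
    intro a b c d h
    obtain ⟨g, h1, h2, h3, h4⟩ := map4' tr (a := (a : Ω)) (b := b) (c := c) (d := d)
      (by simpa [Subtype.ext_iff] using h) hu
    obtain ⟨e, he, hn⟩ := hwc g (le_Dx_iff.2 (by
      rw [Fs_cj]
      rintro x (rfl | rfl | rfl | rfl)
      exacts [⟨_, a.2, h1⟩, ⟨_, b.2, h2⟩, ⟨_, c.2, h3⟩, ⟨_, d.2, h4⟩]))
    have he' := mem_Dx.1 he
    exact ⟨e * g, cj_eq_self_iff.1 hn, by rw [mul_smul, h1, he' _ (by simp)],
      by rw [mul_smul, h2, he' _ (by simp)], by rw [mul_smul, h3, he' _ (by simp)],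
      by rw [mul_smul, h4, he' _ (by simp)]⟩
  refine tr4_of fun a b c d a' b' c' d' h h' => ?_
  obtain ⟨n, hn, h1, h2, h3, h4⟩ := key a b c d h
  obtain ⟨n', hn', h1', h2', h3', h4'⟩ := key a' b' c' d' h'
  obtain ⟨σ, hσ⟩ := exists_resX (α := Ω) (mul_mem (inv_mem hn') hn)
  refine ⟨σ, Subtype.ext ?_, Subtype.ext ?_, Subtype.ext ?_, Subtype.ext ?_⟩ <;>
    rw [hσ, mul_smul, inv_smul_eq_iff]
  exacts [h1.trans h1'.symm, h2.trans h2'.symm, h3.trans h3'.symm, h4.trans h4'.symm]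

theorem hall (tr : IsMultiplyPretransitive G Ω 4) {U : Set Ω} (hU : U.ncard = 4) {W : Subgroup G}
    (hW : W ≤ Dx G U) (hwc : ∀ g : G, cj g W ≤ Dx G U → ∃ d ∈ Dx G U, cj (d * g) W = W)
    (hodd : ∀ n ∈ normalizer (W : Set G), n ∈ Dx G U → ∃ j, Odd j ∧ n ^ j ∈ Dx G (Fs Ω W)) :
    IsMultiplyPretransitive (resX Ω W) (FixT Ω W) 4 ∧
      ((Fs Ω W).ncard = 4 ∧ Nat.card (resX Ω W) = 24 ∨ (Fs Ω W).ncard = 5 ∧ Nat.card (resX Ω W) = 120 ∨
        (Fs Ω W).ncard = 6 ∧ Nat.card (resX Ω W) = 360 ∨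
        (Fs Ω W).ncard = 7 ∧ Nat.card (resX Ω W) = 2520 ∨
        (Fs Ω W).ncard = 11 ∧ Nat.card (resX Ω W) = 7920) ∧
      ((Fs Ω W).ncard = 7 → ∃ n ∈ normalizer (W : Set G), n ∈ Dx G U ∧ ∃ x ∈ Fs Ω W, n • x ≠ x) ∧
      ((Fs Ω W).ncard ≠ 11 → ∀ σ : resX Ω W, Odd (orderOf σ) → σ ∈ commutator (resX Ω W)) ∧
      ((Fs Ω W).ncard = 7 → ∀ [Fintype (FixT Ω W)] [DecidableEq (FixT Ω W)],
        resX Ω W = alternatingGroup (FixT Ω W)) := by
  have htr := resX_tr tr hU hwc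
  obtain ⟨u1, u2, u3, u4, hu, rfl⟩ := exists_four hU
  have hs := le_Dx_iff.1 hW
  obtain ⟨v1, rfl⟩ : ∃ v : FixT Ω W, (v : Ω) = u1 := ⟨⟨u1, hs (by simp)⟩, rfl⟩
  obtain ⟨v2, rfl⟩ : ∃ v : FixT Ω W, (v : Ω) = u2 := ⟨⟨u2, hs (by simp)⟩, rfl⟩
  obtain ⟨v3, rfl⟩ : ∃ v : FixT Ω W, (v : Ω) = u3 := ⟨⟨u3, hs (by simp)⟩, rfl⟩
  obtain ⟨v4, rfl⟩ : ∃ v : FixT Ω W, (v : Ω) = u4 := ⟨⟨u4, hs (by simp)⟩, rfl⟩
  have hv : [v1, v2, v3, v4].Nodup := by simpa [Subtype.ext_iff] using hu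
  have est : stabilizer (resX Ω W) (em4 hv) = Dx (resX Ω W) {v1, v2, v3, v4} := stabilizer_em4 hv
  have hlift : ∀ σ ∈ stabilizer (resX Ω W) (em4 hv), ∃ n ∈ normalizer (W : Set G),
      n ∈ Dx G ({(v1 : Ω), (v2 : Ω), (v3 : Ω), (v4 : Ω)} : Set Ω) ∧
        ∀ x : FixT Ω W, ((σ • x : FixT Ω W) : Ω) = n • (x : Ω) := by
    intro σ hσ
    obtain ⟨n, hn, h⟩ := resX_exists σ
    rw [est, mem_Dx] at hσ
    refine ⟨n, hn, mem_Dx.2 ?_, h⟩
    rintro x (rfl | rfl | rfl | rfl) <;>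
      exact (h _).symm.trans (congrArg Subtype.val (hσ _ (by simp)))
  have hst : Odd (Nat.card (stabilizer (resX Ω W) (em4 hv))) := by
    rw [← Nat.not_even_iff_odd, even_iff_two_dvd]
    intro h2
    have := Fact.mk Nat.prime_two
    obtain ⟨σ, hσ⟩ := exists_prime_orderOf_dvd_card' 2 h2
    obtain ⟨n, hn, hD, h⟩ := hlift σ σ.2
    obtain ⟨j, hj, hj'⟩ := hodd n hn hD
    have h3 : (σ : resX Ω W) ^ j = 1 :=
      resX_eq_one fun x => Subtype.ext (by rw [resX_pow h, mem_Dx.1 hj' _ x.2])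
    have h4 := orderOf_dvd_of_pow_eq_one h3
    rw [orderOf_coe, hσ] at h4
    exact (Nat.not_even_iff_odd.2 hj) (even_iff_two_dvd.2 h4)
  have main : ∀ [Fintype (FixT Ω W)] [DecidableEq (FixT Ω W)],
      (((Fs Ω W).ncard = 4 ∨ (Fs Ω W).ncard = 5) ∧ resX Ω W = ⊤) ∨
      (((Fs Ω W).ncard = 6 ∨ (Fs Ω W).ncard = 7) ∧ resX Ω W = alternatingGroup _) ∨
      ((Fs Ω W).ncard = 11 ∧ Nat.card (resX Ω W) = 7920) := by
    intro _ _
    rw [ncard_Fs, Nat.card_eq_fintype_card]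
    exact Cfsg.Agent.S4221.result _ htr _ hst
  classical
  have := Fintype.ofFinite (FixT Ω W)
  have hc : (Fs Ω W).ncard = 4 ∧ Nat.card (resX Ω W) = 24 ∨
      (Fs Ω W).ncard = 5 ∧ Nat.card (resX Ω W) = 120 ∨
      (Fs Ω W).ncard = 6 ∧ Nat.card (resX Ω W) = 360 ∨
      (Fs Ω W).ncard = 7 ∧ Nat.card (resX Ω W) = 2520 ∨
      (Fs Ω W).ncard = 11 ∧ Nat.card (resX Ω W) = 7920 := by
    rcases main with ⟨h1, h2⟩ | ⟨h1, h2⟩ | h
    · have h3 : Nat.card (resX Ω W) = (Fs Ω W).ncard.factorial := by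
        rw [h2, card_top, Nat.card_perm, ncard_Fs]
      rcases h1 with h1 | h1 <;> rw [h1] at h3 <;> simp only [Nat.factorial] at h3 <;> omega
    · have : Nontrivial (FixT Ω W) := Finite.one_lt_card_iff_nontrivial.1 (by
        rw [← ncard_Fs]; omega)
      have h3 : 2 * Nat.card (resX Ω W) = (Fs Ω W).ncard.factorial := by
        rw [h2, ncard_Fs, ← Nat.card_perm, two_mul_nat_card_alternatingGroup]
      rcases h1 with h1 | h1 <;> rw [h1] at h3 <;> simp only [Nat.factorial] at h3 <;> omega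
    · omega
  refine ⟨htr, hc, fun h7 => ?_, fun h11 σ hσ => odd_mem_commutator _ ?_ σ hσ, fun h7 _ _ => ?_⟩
  · have h1 := card_eq_mul htr (ncard_four hv)
    rw [← est, ← ncard_Fs, h7, show Nat.card (resX Ω W) = 2520 by omega] at h1
    have : Nontrivial (stabilizer (resX Ω W) (em4 hv)) := Finite.one_lt_card_iff_nontrivial.1 (by
      simp only [Nat.descFactorial] at h1; omega)
    obtain ⟨σ, hσ⟩ := exists_ne (1 : stabilizer (resX Ω W) (em4 hv))
    obtain ⟨n, hn, hD, h⟩ := hlift σ σ.2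
    refine ⟨n, hn, hD, by_contra fun hcon => hσ (Subtype.ext (resX_eq_one fun x => ?_))⟩
    push Not at hcon
    exact Subtype.ext ((h x).trans (hcon _ x.2))
  · rcases main with ⟨-, h2⟩ | ⟨h1, h2⟩ | h
    · exact Or.inl h2
    · exact Or.inr ⟨by rw [← ncard_Fs]; omega, h2⟩
    · exact absurd h.1 h11
  · rcases main with ⟨h1, -⟩ | ⟨-, h2⟩ | h
    · omega
    · exact h2
    · omega

end Cfsg.Lib.Fr4
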