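import Cfsg.Agent.Fr4.K7

/-!
# Four-fold transitive groups with a Frobenius four-point stabiliser: blocks of size four, the
local configuration has eight points
-/

set_option autoImplicit false
set_option linter.unusedSectionVars false

namespace Cfsg.Lib.Fr4

open MulAction Subgroup Cfsg.Lib.Perm Cfsg.Lib.Trans

/-- The normaliser of `Q` in `P`. -/
abbrev RR {G Ω : Type*} [Group G] [MulAction G Ω] (Q : Subgroup G) (B : Set Ω) : Subgroup G :=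
  Pz G 2 B ⊓ normalizer (Q : Set G)

variable {G Ω : Type*} [Group G] [MulAction G Ω] [Finite G] [Finite Ω] {m k : ℕ}
  {s U B : Set Ω} {Q : Subgroup G} {a ρ η : G} {z w t v : Ω}

theorem CB.gb4 (h : CB G Ω m 4) (hU : U.ncard = 4) : GB G U :=
  ⟨U, hU, (Set.eq_of_subset_of_ncard_le (subset_Fs_Pz 2 U) ((h.blk U hU).trans hU.symm).le).symm⟩

theorem LQ.map4M (h : LQ G Ω m 4 Q) {a b c d a' b' c' d' : Ω} (h1 : [a, b, c, d].Nodup)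
    (h2 : [a', b', c', d'].Nodup) (h3 : ({a, b, c, d} : Set Ω) ⊆ Fs Ω Q)
    (h4 : ({a', b', c', d'} : Set Ω) ⊆ Fs Ω Q) : ∃ g ∈ normalizer (Q : Set G),
      g • a = a' ∧ g • b = b' ∧ g • c = c' ∧ g • d = d' := by
  obtain ⟨a, rfl⟩ : ∃ v : FixT Ω Q, (v : Ω) = a := ⟨⟨a, h3 (by simp)⟩, rfl⟩
  obtain ⟨b, rfl⟩ : ∃ v : FixT Ω Q, (v : Ω) = b := ⟨⟨b, h3 (by simp)⟩, rfl⟩
  obtain ⟨c, rfl⟩ : ∃ v : FixT Ω Q, (v : Ω) = c := ⟨⟨c, h3 (by simp)⟩, rfl⟩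
  obtain ⟨d, rfl⟩ : ∃ v : FixT Ω Q, (v : Ω) = d := ⟨⟨d, h3 (by simp)⟩, rfl⟩
  obtain ⟨a', rfl⟩ : ∃ v : FixT Ω Q, (v : Ω) = a' := ⟨⟨a', h4 (by simp)⟩, rfl⟩
  obtain ⟨b', rfl⟩ : ∃ v : FixT Ω Q, (v : Ω) = b' := ⟨⟨b', h4 (by simp)⟩, rfl⟩
  obtain ⟨c', rfl⟩ : ∃ v : FixT Ω Q, (v : Ω) = c' := ⟨⟨c', h4 (by simp)⟩, rfl⟩
  obtain ⟨d', rfl⟩ : ∃ v : FixT Ω Q, (v : Ω) = d' := ⟨⟨d', h4 (by simp)⟩, rfl⟩
  obtain ⟨σ, e1, e2, e3, e4⟩ := map4' h.sr.tr4 (a := a) (b := b) (c := c) (d := d) (a' := a')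
    (b' := b') (c' := c') (d' := d') (by simpa [Subtype.ext_iff] using h1)
    (by simpa [Subtype.ext_iff] using h2)
  obtain ⟨g, hg, e⟩ := resX_exists σ
  exact ⟨g, hg, by rw [← e, e1], by rw [← e, e2], by rw [← e, e3], by rw [← e, e4]⟩

theorem LQ.imageM (h : LQ G Ω m 4 Q) {V : Set Ω} (hU : U.ncard = 4) (hV : V.ncard = 4)
    (h1 : U ⊆ Fs Ω Q) (h2 : V ⊆ Fs Ω Q) : ∃ g ∈ normalizer (Q : Set G), (g • ·) '' U = V := by
  obtain ⟨a, b, c, d, n1, rfl⟩ := exists_four hU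
  obtain ⟨a', b', c', d', n2, rfl⟩ := exists_four hV
  obtain ⟨g, hg, e1, e2, e3, e4⟩ := h.map4M n1 n2 h1 h2
  exact ⟨g, hg, by simp only [Set.image_insert_eq, Set.image_singleton, e1, e2, e3, e4]⟩

theorem conj_mem_RR {g c : G} (hg : g ∈ normalizer (Q : Set G)) (hc : c ∈ RR Q B) :
    g * c * g⁻¹ ∈ RR Q ((g • ·) '' B) :=
  ⟨cj_Pz (r := 2) g B ▸ conj_mem_cj.2 hc.1,
    Subgroup.mul_mem _ (Subgroup.mul_mem _ hg hc.2) (Subgroup.inv_mem _ hg)⟩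

theorem conj_mem_RR' {g c : G} (hg : g ∈ normalizer (Q : Set G)) (hB : ∀ x ∈ B, g • x ∈ B)
    (hc : c ∈ RR Q B) : g * c * g⁻¹ ∈ RR Q B := by
  have := conj_mem_RR hg hc
  rwa [image_eq_of_mem hB] at this

theorem orbit_sub {y : Ω} (hy : y ∈ Fs Ω Q) (hyB : y ∉ B) : orbit (RR Q B) y ⊆ Fs Ω Q \ B := by
  rintro _ ⟨c, rfl⟩
  exact ⟨smul_mem_Fs c.2.2 hy, LQ.smul_notMem (g := (c : G))
    (fun x hx => by rwa [mem_Dx.1 (Pz_le 2 B c.2.1) x hx]) hyB⟩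

theorem R3.v4' (h : R3 G m 4 Q B a z ρ η w t) : (∀ c ∈ RR Q B, c * c ∈ Q) ∧
    ∀ y ∈ Fs Ω Q, y ∉ B → (orbit (RR Q B) y).ncard ≤ 4 := by
  have := Fact.mk Nat.prime_three
  have hB := h.blkX h.gb h.sub
  obtain ⟨σ, e⟩ := exists_resX (α := Ω) h.ηM
  have oσ : orderOf σ = 3 := orderOf_eq_prime (orderOf_dvd_iff_pow_eq_one.1 (resX_orderOf_dvd e (by
    rw [← h.oη, pow_orderOf_eq_one]; exact Q.one_mem))) fun e1 => h.not_fix h.gb h.sub h.U4.ge h.UB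
      h.zF h.zB h.aP h.aQ h.ηD (h.ncp h.oη.symm.dvd) (by simpa [e1] using (e ⟨z, h.zF⟩).symm)
      (by simpa [e1] using (e ⟨_, h.azF⟩).symm)
  have h1 := dvd_card_sub_one Nat.prime_three oσ
    (A := Om (Pz (resX Ω Q) 2 (Subtype.val ⁻¹' B : Set (FixT Ω Q))))
    (fun c hc => conj_mem_Om (mem_normalizer_Pz fun x hx => by
      change ((σ • x : FixT Ω Q) : Ω) ∈ B
      rw [e]
      exact h.ηB _ hx) hc) fun τ hτ eτ => by
    obtain ⟨c, c1, c2, c3⟩ := h.liftP h.sub h.gb.four hτ.1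
    refine by_contra fun h2 => (h.res_ne_one h.gb h.sub c3 c1).1 h2 (h.fpfQ h.U4.ge
      (h.UB.trans h.sub) h.ηD (h.ncp h.oη.symm.dvd) h.ηM ((h.P_eq h.gb h.U4.ge h.UB).symm ▸ c1)
      (h.mem_Q h.gb h.sub h.zF h.zB (mul_mem (inv_mem c1)
        (mem_normalizer_conj (mem_normalizer_Pz h.ηB) c1)) ?_))
    have h3 := congrArg (fun ν : resX Ω Q =>
      ((ν • (⟨η⁻¹ • z, smul_mem_Fs (inv_mem h.ηM) h.zF⟩ : FixT Ω Q) : FixT Ω Q) : Ω)) eτ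
    simp only [mul_smul, e, c3, smul_inv_smul] at h3
    rw [mul_smul, mul_smul, mul_smul, h3, inv_smul_smul]
  have h2 := mt card_eq_one.1 (h.sr.om_ne_bot hB)
  have h3 : 0 < Nat.card (Om (Pz (resX Ω Q) 2 (Subtype.val ⁻¹' B : Set (FixT Ω Q)))) := Nat.card_pos
  obtain ⟨h4, h5⟩ := h.sr.V4 hB (by omega)
  refine ⟨fun c hc => ?_, fun y hy hyB => ?_⟩
  · obtain ⟨τ, c3⟩ := exists_resX (α := Ω) hc.2
    refine h.mem_Q h.gb h.sub h.zF h.zB (mul_mem hc.1 hc.1) ?_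
    have := congrArg (fun ν : resX Ω Q => ((ν • (⟨z, h.zF⟩ : FixT Ω Q) : FixT Ω Q) : Ω))
      (h5 τ (h.mem_PX h.sub c3 h.gb.four hc.1))
    simpa only [mul_smul, c3, one_smul] using this
  · rw [← h4, ← S2.ncard_orb h.sr hB le_rfl (z := ⟨y, hy⟩) hyB, ← LQ.ncard_image]
    refine Set.ncard_le_ncard ?_
    rintro _ ⟨c, rfl⟩
    obtain ⟨τ, c3⟩ := exists_resX (α := Ω) c.2.2
    exact ⟨_, ⟨τ, h.mem_PX h.sub c3 h.gb.four c.2.1, rfl⟩, c3 _⟩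

theorem R3.ρfpf (h : R3 G m k Q B a z ρ η w t) {c : G} (hc : c ∈ Q) (e : ρ * c = c * ρ) : c = 1 :=
  h.fpfP (s := Fs Ω Q ∩ Fx Ω ρ) (by rw [h.five]; norm_num) (mem_Dx_iff.2 Set.inter_subset_right)
    (h.ncp h.oρ.symm.dvd) (le_Dx_iff.2 Set.inter_subset_left hc) (PE.of_mem h.pq hc) e

theorem R3.cent_M (h : R3 G m k Q B a z ρ η w t) {c : G} (hc : c ∈ Pz G 2 B) (e : ρ * c = c * ρ) :
    c ∈ RR Q B := by
  obtain ⟨b, b1, b2, b3, b4, -⟩ := h.exists_b Nat.prime_three (by norm_num) h.ps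
  exact h.cent_le (A := RR Q B) inf_le_left (fun c hc => conj_mem_RR' h.ηM h.ηB hc) ⟨b1, b2⟩
    (fun e => b3 (e ▸ Q.one_mem)) b4 hc e

theorem R3.ncard_out (h : R3 G m k Q B a z ρ η w t) : ((Fs Ω Q ∩ Fx Ω ρ) \ B).ncard = 4 := by
  have := Set.ncard_inter_add_ncard_sdiff_eq_ncard (Fs Ω Q ∩ Fx Ω ρ) B
  rw [Set.inter_assoc, Set.inter_comm _ B, h.hw, Set.inter_singleton_of_mem (h.sub h.wB),
    Set.ncard_singleton, h.five] at this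
  omega

theorem R3.orb_eq (h : R3 G m 4 Q B a z ρ η w t) {y : Ω} (hy : y ∈ (Fs Ω Q ∩ Fx Ω ρ) \ B) :
    orbit (RR Q B) y = (Fs Ω Q ∩ Fx Ω ρ) \ B := by
  obtain ⟨b, b1, b2, b3, b4, -⟩ := h.exists_b Nat.prime_three (by norm_num) h.ps
  have k3 : Nat.card (Pz G 2 B ⊓ centralizer ({ρ} : Set G) : Subgroup G) = 4 :=
    h.card_four inf_le_left (fun c hc => mem_centralizer_singleton_iff.1 hc.2)
      (fun c hc => ⟨mem_normalizer_conj (mem_normalizer_Pz h.ηB) hc.1, h.conj_cent hc.2⟩)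
      fun e0 => b3 (mem_bot.1 (e0.le ⟨b1, mem_centralizer_singleton_iff.2 b4.symm⟩) ▸ Q.one_mem)
  have h1 := card_le_ncard (Pz G 2 B ⊓ centralizer ({ρ} : Set G))
    (S := orbit (RR Q B) y ∩ ((Fs Ω Q ∩ Fx Ω ρ) \ B)) (x := y) (fun c hc => by
      have e := mem_centralizer_singleton_iff.1 hc.2
      have h2 : c • y ∈ orbit (RR Q B) y := ⟨⟨c, h.cent_M hc.1 e.symm⟩, rfl⟩
      have h3 := orbit_sub hy.1.1 hy.2 h2
      exact ⟨h2, ⟨h3.1, smul_mem_Fx e hy.1.2⟩, h3.2⟩)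
    fun c hc e => h.ρfpf (h.mem_Q h.gb h.sub hy.1.1 hy.2 hc.1 e)
      (mem_centralizer_singleton_iff.1 hc.2).symm
  rw [k3] at h1
  exact (Set.eq_of_subset_of_ncard_le Set.inter_subset_left
    ((h.v4'.2 y hy.1.1 hy.2).trans h1)).symm.trans
    (Set.eq_of_subset_of_ncard_le Set.inter_subset_right (h.ncard_out.trans_le h1))

theorem R3.B_eq (h : R3 G m 4 Q B a z ρ η w t) : B = {w, t, ρ • t, ρ • ρ • t} :=
  (Set.eq_of_subset_of_ncard_le h.UB ((h.card_gb h.gb).trans h.U4.symm).le).symm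

theorem R3.ηDB (h : R3 G m 4 Q B a z ρ η w t) : η ∈ Dx G B := h.B_eq ▸ h.ηD

theorem R3.conjM (h : R3 G m 4 Q B a z ρ η w t) {x : G} (hx : x ∈ Dx G B)
    (hM : x ∈ normalizer (Q : Set G)) (ox : orderOf x = 3) :
    ∃ d ∈ Dx G B, d ∈ normalizer (Q : Set G) ∧
      (d • ·) '' (Fs Ω Q ∩ Fx Ω x) = Fs Ω Q ∩ Fx Ω η := by
  have := Fact.mk Nat.prime_three
  obtain ⟨T, hT, h1⟩ := exists_isSylowIn_ge (H := Dx G B ⊓ normalizer (Q : Set G))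
    (PE.of_orderOf h.oη).isPGroup (zpowers_le.2 ⟨h.ηDB, h.ηM⟩)
  obtain ⟨d, hd, h2⟩ := hT.exists_cj_le (PE.of_orderOf ox).isPGroup (zpowers_le.2 ⟨hx, hM⟩)
  have := h.cyc h.gb.four Nat.prime_three (by norm_num) h.dvd3 hT.isPGroup (hT.le.trans inf_le_left)
  have h3 := Solv.PG.eq_of_card_eq_of_isCyclic h2 h1 (by
    rw [card_cj, Nat.card_zpowers, Nat.card_zpowers, ox, h.oη])
  refine ⟨d, hd.1, hd.2, ?_⟩
  rw [Set.image_inter (MulAction.injective d), ← Fs_zpowers, ← Fs_zpowers, ← h3, Fs_cj,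
    image_eq_of_mem fun x hx => smul_mem_Fs hd.2 hx]

theorem R3.exists_v (h : R3 G m 4 Q B a z ρ η w t) :
    ∃ v ∈ (Fs Ω Q ∩ Fx Ω ρ) \ B, Fs Ω Q ∩ Fx Ω η = insert v B := by
  obtain ⟨v, hv, h1⟩ := exists_fixed_of_not_dvd_ncard Nat.prime_three _
    (PE.of_orderOf h.oη).isPGroup ((Fs Ω Q ∩ Fx Ω ρ) \ B) (zpowers_smul_mem fun x hx =>
      ⟨⟨smul_mem_Fs h.ηM hx.1.1, smul_mem_Fx h.cm.symm hx.1.2⟩, LQ.smul_notMem h.ηB hx.2⟩)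
    (by rw [h.ncard_out]; norm_num)
  obtain ⟨V, hV1, hV⟩ := exists_sub_four (s := Fs Ω Q ∩ Fx Ω ρ) (by rw [h.five]; norm_num)
  obtain ⟨g, hg, e⟩ := h.imageM hV (h.card_gb h.gb) (hV1.trans Set.inter_subset_left) h.sub
  obtain ⟨d, -, -, h2⟩ := h.conjM (x := g * ρ * g⁻¹)
    (e ▸ conj_mem_Dx (mem_Dx_iff.2 (hV1.trans Set.inter_subset_right)))
    (mul_mem (mul_mem hg h.ρM) (inv_mem hg)) ((SemiconjBy.conj_mk g ρ).orderOf_eq.symm.trans h.oρ)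
  refine ⟨v, hv, (Set.eq_of_subset_of_ncard_le (Set.insert_subset
    (show v ∈ Fs Ω Q ∩ Fx Ω η from ⟨hv.1.1, h1 η (mem_zpowers η)⟩)
    (Set.subset_inter h.sub (mem_Dx_iff.1 h.ηDB))) ?_).symm⟩
  rw [← h2, ncard_smul, Fx_conj, ← image_eq_of_mem fun x hx => smul_mem_Fs hg hx,
    ← Set.image_inter (MulAction.injective g), ncard_smul, h.five, Set.ncard_insert_of_notMem hv.2,
    h.card_gb h.gb]

theorem R3.inter_eq (h : R3 G m 4 Q B a z ρ η w t) (hv : v ∈ (Fs Ω Q ∩ Fx Ω ρ) \ B)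
    (e : Fs Ω Q ∩ Fx Ω η = insert v B) : Fs Ω Q ∩ Fx Ω (ρ * η) ∩ Fx Ω η = {w, v} := by
  refine Set.Subset.antisymm (fun x hx => ?_) ?_
  · have h1 : ρ • x = x := by
      have := hx.1.2
      rwa [mem_Fx, mul_smul, hx.2] at this
    rcases e.le ⟨hx.1.1, hx.2⟩ with h2 | h2
    exacts [Or.inr h2, Or.inl (h.hw.le ⟨h2, h1⟩)]
  · have h1 : η • v = v := (e.ge (Or.inl rfl)).2
    rintro x (rfl | rfl)
    · exact ⟨⟨h.sub h.wB, by rw [mem_Fx, mul_smul, h.ηw, h.ρw]⟩, h.ηw⟩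
    · exact ⟨⟨hv.1.1, by rw [mem_Fx, mul_smul, h1, hv.1.2]⟩, h1⟩

theorem Fx_inv (g : G) : Fx Ω g⁻¹ = Fx Ω g := by
  ext x
  rw [mem_Fx, mem_Fx, inv_smul_eq_iff, eq_comm]

theorem R3.le_five (h : R3 G m 4 Q B a z ρ η w t) (hv : v ∈ (Fs Ω Q ∩ Fx Ω ρ) \ B)
    (e : Fs Ω Q ∩ Fx Ω η = insert v B) : (Fs Ω Q ∩ Fx Ω (ρ * η)).ncard ≤ 5 := by
  have h1 := (PE.of_orderOf h.oη).ncard_modEq Nat.prime_three (S := Fs Ω Q ∩ Fx Ω (ρ * η))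
    fun x hx => ⟨smul_mem_Fs h.ηM hx.1, smul_mem_Fx (by rw [← mul_assoc, h.cm]) hx.2⟩
  rw [h.inter_eq hv e, Set.ncard_pair fun e : w = v => hv.2 (e ▸ h.wB)] at h1
  have h2 := Set.ncard_le_ncard (Set.inter_subset_right (s := Fs Ω Q) (t := Fx Ω (ρ * η)))
  by_contra hc
  have h3 := h.Fx_eq h.o3 (by omega)
  have h4 := h.six
  unfold Nat.ModEq at h1
  omega

theorem R3.fix_v (h : R3 G m 4 Q B a z ρ η w t) (hv : v ∈ (Fs Ω Q ∩ Fx Ω ρ) \ B)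
    (e : Fs Ω Q ∩ Fx Ω η = insert v B) {p : ℕ} (hp : p.Prime) (h2 : p ≠ 2) (hm : ¬ p ∣ m) {x : G}
    (hx : x ∈ Pz G p B) : x • v = v := by
  have h3 : p ≠ 3 := fun e => hm (e ▸ h.dvd3)
  have h5 : 5 ≤ p := hp.five_le_of_ne_two_of_ne_three h2 h3
  have hwv : v ≠ w := fun e => hv.2 (e ▸ h.wB)
  have key : ∀ y : G, (Fs Ω Q ∩ Fx Ω y).ncard ≤ 5 → y • w = w → y • v = v → ∀ c ∈ Pz G p B,
      y * c = c * y → c ∈ stabilizer G v := by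
    intro y y1 y2 y3 c hc ec
    obtain ⟨c1, c2⟩ := (h.mem_Pz h.gb.four hp hm).1 hc
    have hM : c ∈ normalizer (Q : Set G) := centralizer_le_normalizer _ fun q hq => by
      obtain ⟨j, hj⟩ := (PE.of_mem h.pq hq).orderOf_eq Nat.prime_two
      exact (h.comm h.gb.four c1 (Pz_le 2 B (h.le_P h.sub hq)) (c2.coprime hp hm)
        (h.cp (PE.of_mem h.pq hq)) (c2.coprime hp fun e => h2 ((Nat.prime_dvd_prime_iff_eq hp
          Nat.prime_two).1 (hp.dvd_of_dvd_pow (hj ▸ e))))).symm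
    refine c2.smul_eq hp (S := (Fs Ω Q ∩ Fx Ω y) \ {w}) (fun x hx =>
      ⟨⟨smul_mem_Fs hM hx.1.1, smul_mem_Fx ec.symm hx.1.2⟩, fun e => hx.2 (smul_left_cancel c
        (e.trans (mem_Dx.1 c1 w h.wB).symm))⟩) ?_ v ⟨⟨hv.1.1, y3⟩, hwv⟩
    have := Set.ncard_sdiff_singleton_add_one (s := Fs Ω Q ∩ Fx Ω y) ⟨h.sub h.wB, y2⟩
    omega
  have e' : Fs Ω Q ∩ Fx Ω η⁻¹ = insert v B := by rw [Fx_inv, e]
  exact h.gen (H := stabilizer G v) (fun c hc => ⟨Pz_le p B hc,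
    ((h.mem_Pz h.gb.four hp hm).1 hc).2.coprime hp hm⟩) (mem_normalizer_Pz h.ps.st)
    (mem_normalizer_Pz h.ηB) (not_three_dvd hp h3 (h.isPGroup h.gb.four hp hm))
    (key ρ h.five.le h.ρw hv.1.2)
    (key _ (h.le_five hv e) ((h.inter_eq hv e).ge (Or.inl rfl)).1.2
      ((h.inter_eq hv e).ge (Or.inr rfl)).1.2)
    (key _ (h.inv.le_five hv e') ((h.inv.inter_eq hv e').ge (Or.inl rfl)).1.2
      ((h.inv.inter_eq hv e').ge (Or.inr rfl)).1.2) hx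

theorem R3.smul_v (h : R3 G m 4 Q B a z ρ η w t) (hv : v ∈ (Fs Ω Q ∩ Fx Ω ρ) \ B)
    (e : Fs Ω Q ∩ Fx Ω η = insert v B) {g : G} (hg : g ∈ Dx G B) (hM : g ∈ normalizer (Q : Set G)) :
    g • v ∈ orbit (RR Q B) v := by
  have hst : ∀ g ∈ Dx G B, ∀ x ∈ B, g • x ∈ B := fun g hg x hx => by rwa [mem_Dx.1 hg x hx]
  let S : Subgroup G :=
    { carrier := {g | g ∈ Dx G B ∧ g ∈ normalizer (Q : Set G) ∧ g • v ∈ orbit (RR Q B) v}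
      one_mem' := ⟨one_mem _, one_mem _, by rw [one_smul]; exact mem_orbit_self v⟩
      mul_mem' := by
        rintro g g' ⟨g1, g2, c, hc⟩ ⟨g1', g2', c', hc'⟩
        refine ⟨mul_mem g1 g1', mul_mem g2 g2', ⟨_, conj_mem_RR' g2 (hst g g1) c'.2⟩ * c, ?_⟩
        change (g * c' * g⁻¹ * c) • v = _
        rw [mul_smul, show (c : G) • v = _ from hc, conj_smul_smul, show (c' : G) • v = _ from hc',
          mul_smul]
      inv_mem' := by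
        rintro g ⟨g1, g2, c, hc⟩
        refine ⟨inv_mem g1, inv_mem g2, ⟨_, conj_mem_RR' (inv_mem g2) (hst _ (inv_mem g1))
          (inv_mem c.2)⟩, ?_⟩
        change (g⁻¹ * (c : G)⁻¹ * g⁻¹⁻¹) • v = _
        rw [inv_inv, mul_smul, ← show (c : G) • v = _ from hc, mul_smul, inv_smul_smul] }
  have hK : ∀ g ∈ Dx G B, g ∈ normalizer (Q : Set G) → Cp m g → g ∈ S := fun g g1 g2 g3 =>
    mem_of_forall_PE fun p hp i hi => ⟨pow_mem g1 i, pow_mem g2 i, by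
      by_cases h2 : p = 2
      · exact ⟨⟨_, mem_Pz_of (pow_mem g1 i) (h2 ▸ hi), pow_mem g2 i⟩, rfl⟩
      by_cases hm : p ∣ m
      · rw [(by_contra fun h1 => hi.not_coprime hp h1 hm (g3.pow i) : g ^ i = 1), one_smul]
        exact mem_orbit_self v
      · rw [h.fix_v hv e hp h2 hm (mem_Pz_of (pow_mem g1 i) hi)]
        exact mem_orbit_self v⟩
  have hη : η ∈ S := ⟨h.ηDB, h.ηM, by
    rw [(e.ge (Or.inl rfl)).2]; exact mem_orbit_self v⟩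
  have hz : z ∈ (Fs Ω Q ∩ Fx Ω ρ) \ B := ⟨⟨h.zF, h.ps.e1⟩, h.zB⟩
  have k1 : ∀ n ∈ Dx G B, n ∈ normalizer (Q : Set G) →
      (n * a * n⁻¹) • z ∈ orbit (RR Q B) z \ {z} := fun n n1 n2 =>
    ⟨⟨⟨_, conj_mem_RR' n2 (hst n n1) ⟨h.aP, h.aM⟩⟩, rfl⟩, fun e => h.aQ ((mem_normalizer_iff.1 n2 a).2
      (h.mem_Q h.gb h.sub h.zF h.zB (conj_mem_RR' n2 (hst n n1) ⟨h.aP, h.aM⟩).1 e))⟩
  have k2 : ∀ n ∈ Dx G B, n ∈ normalizer (Q : Set G) → ∀ n' ∈ Dx G B, n' ∈ normalizer (Q : Set G) →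
      (n * a * n⁻¹) • z = (n' * a * n'⁻¹) • z → Cp m (n⁻¹ * n') := fun n n1 n2 n' n1' n2' e => by
    refine by_contra fun hc => h.aQ (h.fpfQ h.gb.four h.sub (mul_mem (inv_mem n1) n1') hc
      (mul_mem (inv_mem n2) n2') h.aP ?_)
    have := mem_normalizer_conj' n2 (h.mem_Q h.gb h.sub h.zF h.zB (mul_mem (inv_mem
      (conj_mem_RR' n2 (hst n n1) ⟨h.aP, h.aM⟩).1) (conj_mem_RR' n2' (hst n' n1') ⟨h.aP, h.aM⟩).1)
      (by rw [mul_smul, ← e, inv_smul_smul]))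
    convert this using 1
    group
  have c1 := h.ncp h.oη.symm.dvd
  have nd : [(1 * a * 1⁻¹) • z, (η * a * η⁻¹) • z, (η⁻¹ * a * η⁻¹⁻¹) • z].Nodup := by
    simp only [List.nodup_cons, List.mem_cons, List.not_mem_nil, not_or, or_false,
      not_false_eq_true, List.nodup_nil, and_true]
    refine ⟨⟨fun e => c1 ?_, fun e => c1 ?_⟩, fun e => c1 ?_⟩
    · simpa using k2 1 (one_mem _) (one_mem _) η h.ηDB h.ηM e
    · simpa using (k2 1 (one_mem _) (one_mem _) _ (inv_mem h.ηDB) (inv_mem h.ηM) e).inv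
    · have := k2 _ h.ηDB h.ηM _ (inv_mem h.ηDB) (inv_mem h.ηM) e
      rwa [← inv_eq_sq h.inv.oη, inv_inv] at this
  have k3 : orbit (RR Q B) z \ {z} =
      {(1 * a * 1⁻¹) • z, (η * a * η⁻¹) • z, (η⁻¹ * a * η⁻¹⁻¹) • z} :=
    (Set.eq_of_subset_of_ncard_le (by
      rintro x (rfl | rfl | rfl)
      exacts [k1 1 (one_mem _) (one_mem _), k1 η h.ηDB h.ηM, k1 _ (inv_mem h.ηDB) (inv_mem h.ηM)])
      (by
        have := Set.ncard_sdiff_singleton_add_one (mem_orbit_self (M := RR Q B) z)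
        rw [h.orb_eq hz, h.ncard_out] at this
        rw [ncard_three nd, h.orb_eq hz]
        omega)).symm
  have k4 : ∀ n ∈ S, (g * a * g⁻¹) • z = (n * a * n⁻¹) • z → g ∈ S := fun n hn e =>
    (mul_mem_cancel_left (inv_mem hn)).1 (hK _ (mul_mem (inv_mem hn.1) hg)
      (mul_mem (inv_mem hn.2.1) hM) (k2 n hn.1 hn.2.1 g hg hM e.symm))
  rcases k3.le (k1 g hg hM) with e | e | e
  exacts [(k4 1 (one_mem _) e).2.2, (k4 η hη e).2.2, (k4 _ (inv_mem hη) e).2.2]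

theorem R3.out_eq (h : R3 G m 4 Q B a z ρ η w t) : Fs Ω Q \ B = (Fs Ω Q ∩ Fx Ω ρ) \ B := by
  refine Set.Subset.antisymm (fun y hy => ?_) (Set.sdiff_subset_sdiff_left Set.inter_subset_left)
  obtain ⟨v, hv, e⟩ := h.exists_v
  have h0 : Sc G m 4 Q B a y := { h.toSc with zF := hy.1, zB := hy.2 }
  obtain ⟨ρ', -, h1⟩ := h0.psi (r := 3) (by omega) ⊤ fun _ _ _ _ _ _ => mem_top _
  obtain ⟨η', w', t', h2⟩ := h0.r3 h1
  obtain ⟨v', hv', e'⟩ := h2.exists_v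
  obtain ⟨d, d1, d2, d3⟩ := h2.conjM h.ηDB h.ηM h.oη
  have h3 : d • v = v' := (e'.le (d3.le ⟨v, e.ge (Or.inl rfl), rfl⟩)).resolve_right
    (LQ.smul_notMem (fun x hx => by rwa [mem_Dx.1 d1 x hx]) hv.2)
  have h4 := h.smul_v hv e d1 d2
  rw [h3, ← orbit_eq_iff, h2.orb_eq hv', h.orb_eq hv] at h4
  exact h4.le ⟨⟨hy.1, h1.e1⟩, hy.2⟩

theorem R3.eight (h : R3 G m 4 Q B a z ρ η w t) : (Fs Ω Q).ncard = 8 := by
  have := Set.ncard_sdiff_add_ncard_of_subset h.sub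
  rw [h.out_eq, h.ncard_out, h.card_gb h.gb] at this
  omega

/-- The local configuration at an arbitrary set of four points. -/
theorem R3.v4 (h : R3 G m 4 Q B a z ρ η w t) (hU : U.ncard = 4) (hUΦ : U ⊆ Fs Ω Q) :
    (∀ c ∈ RR Q U, c * c ∈ Q) ∧ ∀ y ∈ Fs Ω Q \ U, orbit (RR Q U) y = Fs Ω Q \ U := by
  obtain ⟨a', ha⟩ := h.exists_r3 (h.gb4 hU) hUΦ ⊤ fun _ _ _ _ _ _ => mem_top _
  obtain ⟨z', hz, hzU⟩ := h.exists_out (h.gb4 hU)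
  obtain ⟨ρ', -, η', w', t', h1⟩ := ha z' hz hzU
  exact ⟨h1.v4'.1, fun y hy => by rw [h1.out_eq] at hy ⊢; exact h1.orb_eq hy⟩

end Cfsg.Lib.Fr4
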