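import Cfsg.Agent.Fr4.K4a
import Cfsg.Agent.S4220

/-!
# Four-fold transitive groups with a Frobenius four-point stabiliser: blocks of size four
-/

set_option autoImplicit false
set_option linter.unusedSectionVars false

namespace Cfsg.Lib.Fr4

open MulAction Subgroup Cfsg.Lib.Perm Cfsg.Lib.Trans

variable {G Ω : Type*} [Group G] [MulAction G Ω] [Finite G] [Finite Ω] {m k : ℕ}
  {s U B : Set Ω} {Q : Subgroup G} {a ρ η : G} {z w t v : Ω}

namespace R3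

theorem lift_b (h : R3 G m 4 Q B a z ρ η w t) (hU : U.ncard = 4) (hUΦ : U ⊆ Fs Ω Q)
    (hρ : ∀ x ∈ U, ρ • x ∈ U) {x y : Ω} (hx : x ∈ Fs Ω Q \ U) (hy : y ∈ Fs Ω Q \ U)
    (e1 : ρ • x = x) (e2 : ρ • y = y) :
    ∃ b ∈ RR Q U, ρ * b = b * ρ ∧ b * b = 1 ∧ b • x = y := by
  obtain ⟨h1, h2⟩ := h.v4 hU hUΦ
  obtain ⟨c, hc⟩ := (h2 x hx).ge hy
  have hc' : (c : G) • x = y := hc
  obtain ⟨b, b1, b2⟩ := h.exists_comm Nat.prime_three (by norm_num) h.ps.pe h.ρM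
    (h.conj_mem (h.gb4 hU) hUΦ hx.1 hx.2 c.2.1 hρ e1 (by rw [hc', e2]))
  have b3 : b ∈ RR Q U := (mul_mem_cancel_left (inv_mem c.2)).1 ⟨h.le_P hUΦ b1, le_normalizer b1⟩
  exact ⟨b, b3, b2, h.ρfpf (h1 b b3) (Commute.mul_right b2 b2).eq, by
    rw [← hc', ← inv_smul_eq_iff, ← mul_smul, hx.1 _ b1]⟩

theorem T4 (h : R3 G m k Q B a z ρ η w t) {x : Ω} (hx : ρ • x = x) :
    ({x, t, ρ • t, ρ • ρ • t} : Set Ω).ncard = 4 ∧
      ∀ y ∈ ({x, t, ρ • t, ρ • ρ • t} : Set Ω), ρ • y ∈ ({x, t, ρ • t, ρ • ρ • t} : Set Ω) := by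
  have h1 : ρ • t ≠ t := fun e => (List.nodup_cons.1 (List.nodup_cons.1 h.nd).2).1 (by simp [e])
  refine ⟨?_, ?_⟩
  · rw [Set.ncard_insert_of_notMem, ncard_three (List.nodup_cons.1 h.nd).2]
    rintro (rfl | rfl | rfl)
    · exact h1 hx
    · exact h1 (smul_left_cancel _ hx)
    · exact h1 (smul_left_cancel _ (smul_left_cancel _ hx))
  · rintro y (rfl | rfl | rfl | rfl) <;> simp [hx, smul3 h.oρ]

theorem T_sub (h : R3 G m k Q B a z ρ η w t) : ({t, ρ • t, ρ • ρ • t} : Set Ω) ⊆ B :=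
  (Set.subset_insert _ _).trans h.UB

theorem w_notMem (h : R3 G m k Q B a z ρ η w t) : w ∉ ({t, ρ • t, ρ • ρ • t} : Set Ω) := by
  simpa using (List.nodup_cons.1 h.nd).1

theorem notMem_T (h : R3 G m k Q B a z ρ η w t) {x y : Ω} (hy : y ∉ B) (h1 : y ≠ x) :
    y ∉ ({x, t, ρ • t, ρ • ρ • t} : Set Ω) := fun e => e.elim h1 fun e => hy (h.T_sub e)

theorem w_notMem' (h : R3 G m k Q B a z ρ η w t) {x : Ω} (hx : x ∉ B) :
    w ∉ ({x, t, ρ • t, ρ • ρ • t} : Set Ω) := fun e => e.elim (fun e => hx (e ▸ h.wB)) h.w_notMem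

theorem Fx_sub (h : R3 G m 4 Q B a z ρ η w t) : Fx Ω ρ ⊆ Fs Ω Q := by
  intro ω hω
  by_contra hc
  have h1 : Fx Ω ρ \ Fs Ω Q = {ω} := (Set.eq_of_subset_of_ncard_le (by
    rintro _ rfl; exact ⟨hω, hc⟩) (by
      have := Set.ncard_inter_add_ncard_sdiff_eq_ncard (Fx Ω ρ) (Fs Ω Q)
      rw [Set.inter_comm, h.five] at this
      have := h.six
      rw [Set.ncard_singleton]
      omega)).symm
  have key : ∀ c ∈ normalizer (Q : Set G), ρ * c = c * ρ → c • ω = ω := fun c hM e =>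
    h1.le ⟨smul_mem_Fx e.symm hω, LQ.smul_notMem (fun x hx => smul_mem_Fs hM hx) hc⟩
  obtain ⟨b, b1, b2, b3, b4, -⟩ := h.exists_b Nat.prime_three (by norm_num) h.ps
  obtain ⟨t1, t2⟩ := h.T4 h.ps.e1
  obtain ⟨c, c1, c2, -, c3⟩ := h.lift_b t1 (Set.insert_subset h.zF (h.T_sub.trans h.sub)) t2
    ⟨h.sub h.wB, h.w_notMem' h.zB⟩ ⟨h.azF, h.notMem_T h.azB h.az_ne⟩ h.ρw h.ps.e2
  have t3 := (h.T4 hω).1
  obtain ⟨u, hu, h2⟩ := exists_fixed_of_not_dvd_ncard Nat.prime_two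
    (RR Q ({ω, t, ρ • t, ρ • ρ • t} : Set Ω) ⊓ centralizer {ρ})
    (h.pg t3.ge).to_inf_left.to_inf_left (Fs Ω Q ∩ Fx Ω ρ) (fun g hg x hx =>
      ⟨smul_mem_Fs hg.1.2 hx.1, smul_mem_Fx (mem_centralizer_singleton_iff.1 hg.2) hx.2⟩)
    (by rw [h.five]; norm_num)
  have h3 := h2 b ⟨⟨mem_Pz_of (mem_Dx_iff.2 (Set.insert_subset (key b b2 b4)
    (h.T_sub.trans (mem_Dx_iff.1 (Pz_le 2 B b1))))) (h.pe h.gb.four b1), b2⟩,
    mem_centralizer_singleton_iff.2 b4.symm⟩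
  have h4 := h2 c ⟨⟨mem_Pz_of (mem_Dx_iff.2 (Set.insert_subset (key c c1.2 c2)
    ((Set.subset_insert _ _).trans (mem_Dx_iff.1 (Pz_le 2 _ c1.1))))) (h.pe t1.ge c1.1), c1.2⟩,
    mem_centralizer_singleton_iff.2 c2.symm⟩
  rw [h.hw.le ⟨(h.Fx_inter h.gb h.sub b1 b3).le ⟨hu.1, h3⟩, hu.2⟩, c3] at h4
  exact h.azB (h4 ▸ h.wB)

theorem Fx_five (h : R3 G m 4 Q B a z ρ η w t) : (Fx Ω ρ).ncard = 5 := by
  rw [← h.five, Set.inter_eq_right.2 h.Fx_sub]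

theorem Fxη (h : R3 G m 4 Q B a z ρ η w t) (hv : v ∉ B) (e : Fs Ω Q ∩ Fx Ω η = insert v B) :
    Fx Ω η = insert v B := by
  have h1 : insert v B ⊆ Fx Ω η := e.ge.trans Set.inter_subset_right
  have h2 : (insert v B).ncard = 5 := by rw [Set.ncard_insert_of_notMem hv, h.card_gb h.gb]
  refine (Set.eq_of_subset_of_ncard_le h1 ?_).symm
  rw [h.Fx_eq h.oη (by have := Set.ncard_le_ncard h1; omega), h.Fx_five, h2]

theorem exists_conj (h : R3 G m 4 Q B a z ρ η w t) :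
    ∃ g ∈ normalizer (Q : Set G), g * (ρ * η) * g⁻¹ = (ρ * η⁻¹)⁻¹ := by
  obtain ⟨v, hv, e⟩ := h.exists_v
  have hO := h.out_eq
  have ηv : η • v = v := (e.ge (Or.inl rfl)).2
  have nd := h.nd
  simp only [List.nodup_cons, List.mem_cons, List.not_mem_nil, not_or] at nd
  set V : Set Ω := insert (ρ • ρ • t) ((Fs Ω Q \ B) \ {v}) with hV
  have hρρ := h.ps.st _ (h.ps.st _ h.tB)
  have h1 : V.ncard = 4 := by
    have := Set.ncard_sdiff_singleton_add_one hv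
    rw [hV, Set.ncard_insert_of_notMem fun e => e.1.2 hρρ, hO, this, h.ncard_out]
  have h2 : V ⊆ Fs Ω Q := Set.insert_subset (h.sub hρρ) fun x hx => hx.1.1
  have h3 : Fs Ω Q \ V = {w, t, ρ • t, v} := by
    refine Set.Subset.antisymm (fun x hx => ?_) ?_
    · by_cases hxB : x ∈ B
      · rcases h.B_eq.le hxB with e | e | e | e
        exacts [Or.inl e, Or.inr (Or.inl e), Or.inr (Or.inr (Or.inl e)), absurd (Or.inl e) hx.2]
      · exact Or.inr (Or.inr (Or.inr (by_contra fun e => hx.2 (Or.inr ⟨⟨hx.1, hxB⟩, e⟩))))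
    · rintro x (rfl | rfl | rfl | rfl)
      · exact ⟨h.sub h.wB, fun e => e.elim nd.1.2.2.1 fun e => e.1.2 h.wB⟩
      · exact ⟨h.sub h.tB, fun e => e.elim nd.2.1.2.1 fun e => e.1.2 h.tB⟩
      · exact ⟨h.sub (h.ps.st _ h.tB), fun e => e.elim nd.2.2.1.1 fun e => e.1.2 (h.ps.st _ h.tB)⟩
      · exact ⟨hv.1.1, fun e => e.elim (fun e => hv.2 (e ▸ hρρ)) fun e => e.2 rfl⟩
  obtain ⟨h4, h5⟩ := h.v4 h1 h2
  obtain ⟨⟨c, hc⟩, c1⟩ := (h5 t (h3.ge (by simp))).ge (h3.ge (show ρ • t ∈ _ by simp))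
  replace c1 : c • t = ρ • t := c1
  have cc : ∀ x ∈ Fs Ω Q, c • c • x = x := fun x hx => by rw [← mul_smul, hx _ (h4 c hc)]
  have c2 : c • ρ • t = t := by rw [← c1, cc t (h.sub h.tB)]
  have cV := mem_Dx.1 (Pz_le 2 V hc.1)
  have c3 : c • w = v := by
    have h6 := h3.ge (show w ∈ _ by simp)
    rcases h3.le (orbit_sub h6.1 h6.2 ⟨⟨c, hc⟩, rfl⟩) with e | e | e | e
    · have := h.sub h.tB c (h.mem_Q (h.gb4 h1) h2 h6.1 h6.2 hc.1 e)
      exact absurd (this.symm.trans c1) nd.2.1.1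
    · exact absurd (smul_left_cancel c (e.trans c2.symm)) nd.1.2.1
    · exact absurd (smul_left_cancel c (e.trans c1.symm)) nd.1.1
    · exact e
  have c4 : c • v = w := by rw [← c3, cc w (h.sub h.wB)]
  have c5 : c • ρ • ρ • t = ρ • ρ • t := cV _ (Or.inl rfl)
  have cm' : ∀ x : Ω, η • ρ • x = ρ • η • x := fun x => by rw [← mul_smul, ← h.cm, mul_smul]
  have hM : (ρ * η⁻¹)⁻¹ ∈ normalizer (Q : Set G) := inv_mem (mul_mem h.ρM (inv_mem h.ηM))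
  obtain ⟨d, hd, h6⟩ := conj3 (h.eq_one (s := Fs Ω Q) (by rw [h.eight]; norm_num))
    ((PE.of_orderOf h.o3).conj c) (PE.of_orderOf h.inv.o3).inv (fun x hx => smul_mem_Fs hM hx) (by
      intro x hx
      obtain ⟨y, hy, rfl⟩ := (image_eq_of_mem fun x hx => smul_mem_Fs hc.2 hx).ge hx
      rw [conj_smul_smul, mul_inv_rev, inv_inv, inv_eq_sq h.oρ, mul_smul, mul_smul, mul_smul]
      beta_reduce
      by_cases hyV : y ∈ V
      · rcases hyV with rfl | hyV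
        · simp only [cm', h.ηt, smul3 h.oρ, c1, c5]
        · have h7 : η • y ∈ (Fs Ω Q \ B) \ {v} := ⟨⟨smul_mem_Fs h.ηM hy,
            LQ.smul_notMem h.ηB hyV.1.2⟩, fun e => hyV.2 (smul_left_cancel η (e.trans ηv.symm))⟩
          have h8 : ρ • y = y := (hO.le hyV.1).1.2
          have h9 : ρ • η • y = η • y := (hO.le h7.1).1.2
          rw [cV y (Or.inr hyV), h9, cV _ (Or.inr h7), h8, h8]
      · have h7 : ρ • v = v := hv.1.2
        rcases h3.le ⟨hy, hyV⟩ with rfl | rfl | rfl | rfl <;>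
          simp only [cm', h.ηt, h.ηw, h.ρw, ηv, h7, smul3 h.oρ, c1, c2, c3, c4, c5])
  exact ⟨d * c, mul_mem (h.mem_M h.gb h.sub (fun x hx => by rwa [mem_Dx.1 hd x (h.sub hx)]) h.zF h.zB
    (by rw [mem_Dx.1 hd z h.zF]; exact h.zF)) hc.2, by rw [← h6]; group⟩

theorem exists_q (h : R3 G m 4 Q B a z ρ η w t) (hQ : Q ≠ ⊥) :
    ∃ q ∈ Q, q ≠ 1 ∧ ρ * η * q = q * (ρ * η) := by
  by_contra hc
  push Not at hc
  obtain ⟨g, hg, e⟩ := h.exists_conj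
  refine hQ (eq_bot_iff.2 (h.genP (h.le_P h.sub) h.ρM h.ηM (fun c h1 ec => h.ρfpf h1 ec)
    (fun c h1 ec => by_contra fun h2 => hc c h1 h2 ec) fun c h1 ec => by_contra fun h2 => ?_))
  refine hc _ (mem_normalizer_conj (inv_mem hg) h1) (mt conj_eq_one_iff.1 h2) ?_
  calc _ = g⁻¹ * (g * (ρ * η) * g⁻¹ * c) * g := by group
    _ = _ := by rw [e, (Commute.inv_left ec).eq, ← e]; group

theorem Fx_two (h : R3 G m 4 Q B a z ρ η w t) (hQ : Q ≠ ⊥) (hv : v ∈ (Fs Ω Q ∩ Fx Ω ρ) \ B)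
    (e : Fs Ω Q ∩ Fx Ω η = insert v B) : Fx Ω (ρ * η) = {w, v} := by
  have h1 : Fx Ω (ρ * η) ∩ Fx Ω η = {w, v} := by
    rw [← h.inter_eq hv e, Set.inter_right_comm, e, ← h.Fxη hv.2 e, Set.inter_comm]
  have h2 : ({w, v} : Set Ω).ncard = 2 := Set.ncard_pair fun e : w = v => hv.2 (e ▸ h.wB)
  have cm : η * (ρ * η) = ρ * η * η := by rw [← mul_assoc, h.cm]
  have h3 := (PE.of_orderOf h.oη).ncard_modEq Nat.prime_three (S := Fx Ω (ρ * η))
    fun x hx => smul_mem_Fx cm hx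
  have h4 : ({w, v} : Set Ω) ⊆ Fx Ω (ρ * η) := h1.ge.trans Set.inter_subset_left
  refine (Set.eq_of_subset_of_ncard_le h4 (by_contra fun hc => ?_)).symm
  rw [h1, h2, Nat.ModEq] at h3
  have h5 := (h.Fx_eq h.o3 (by omega)).trans h.Fx_five
  have hwv : ({w, v} : Set Ω) ⊆ Fs Ω Q := Set.pair_subset (h.sub h.wB) hv.1.1
  set A : Subgroup G := Q ⊓ centralizer {ρ * η}
  have hA : ∀ c ∈ A, c * (ρ * η) = ρ * η * c := fun c hc => mem_centralizer_singleton_iff.1 hc.2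
  have hst : ∀ c ∈ A, ∀ x ∈ Fx Ω (ρ * η) \ {w, v}, c • x ∈ Fx Ω (ρ * η) \ {w, v} :=
    fun c hc x hx => ⟨smul_mem_Fx (hA c hc) hx.1,
      LQ.smul_notMem (fun y hy => by rwa [hwv hy c hc.1]) hx.2⟩
  have h6 : (Fx Ω (ρ * η) \ {w, v}).ncard = 3 := by rw [Set.ncard_sdiff h4, h5, h2]
  obtain ⟨y, hy, h7⟩ := exists_fixed_of_not_dvd_ncard Nat.prime_two A h.pq.to_inf_left _ hst
    (by omega)
  have h8 := Set.ncard_sdiff_singleton_add_one hy
  obtain ⟨x, hx⟩ := (Set.ncard_pos (s := (Fx Ω (ρ * η) \ {w, v}) \ {y})).1 (by omega)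
  have h9 : (insert x (insert y ({w, v} : Set Ω))).ncard = 4 := by
    rw [Set.ncard_insert_of_notMem fun e => e.elim hx.2 hx.1.2, Set.ncard_insert_of_notMem hy.2, h2]
  have h10 := card_le_ncard A (S := (Fx Ω (ρ * η) \ {w, v}) \ {y}) (x := x) (fun c hc =>
    ⟨hst c hc x hx.1, fun e => hx.2 (smul_left_cancel c (e.trans (h7 c hc).symm))⟩)
    fun c hc e => h.fpfP h9.ge (mem_Dx_iff.2 (Set.insert_subset hx.1.1 (Set.insert_subset hy.1 h4)))
      (h.ncp h.o3.symm.dvd) (mem_Dx_iff.2 (Set.insert_subset e (Set.insert_subset (h7 c hc)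
        fun y hy => hwv hy c hc.1))) (PE.of_mem h.pq hc.1) (hA c hc).symm
  have e' := mem_centralizer_singleton_iff.2 cm
  have h11 := dvd_card_sub_one Nat.prime_three h.oη (A := A) (fun c hc =>
    ⟨mem_normalizer_conj h.ηM hc.1,
      Subgroup.mul_mem _ (Subgroup.mul_mem _ e' hc.2) (Subgroup.inv_mem _ e')⟩)
    fun c hc e => h.ηfpfP (h.le_P h.sub hc.1) e
  obtain ⟨q, q1, q2, q3⟩ := h.exists_q hQ
  have h12 : Nat.card A ≠ 1 := fun e =>
    q2 (mem_bot.1 ((card_eq_one.1 e).le ⟨q1, mem_centralizer_singleton_iff.2 q3.symm⟩))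
  have h13 : 0 < Nat.card A := Nat.card_pos
  omega

theorem P_le (h : R3 G m 4 Q B a z ρ η w t) (hQ : Q ≠ ⊥) :
    Pz G 2 B ≤ normalizer (Q : Set G) := by
  obtain ⟨v, hv, e⟩ := h.exists_v
  have key : ∀ x : G, Fx Ω x = {w, v} → ∀ c ∈ Pz G 2 B, x * c = c * x →
      c ∈ normalizer (Q : Set G) := fun x hx c hc ec =>
    le_normalizer (h.mem_Q h.gb h.sub hv.1.1 hv.2 hc ((hx.le (smul_mem_Fx ec.symm
      (hx.ge (Or.inr rfl)))).resolve_left fun e => hv.2 (smul_left_cancel c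
        (e.trans (mem_Dx.1 (Pz_le 2 B hc) w h.wB).symm) ▸ h.wB)))
  exact h.genP le_rfl (mem_normalizer_Pz h.ps.st) (mem_normalizer_Pz h.ηB)
    (fun c hc ec => (h.cent_M hc ec).2) (key _ (h.Fx_two hQ hv e))
    (key _ (h.inv.Fx_two hQ hv (by rw [Fx_inv, e])))

theorem phi_one (h : R3 G m 4 Q B a z ρ η w t) {τ : G} (hτ : τ ∈ RR Q B) (hQ : τ ∉ Q)
    (h2 : τ * τ = 1) : (Fx Ω τ).ncard ≡ 1 [MOD 3] := by
  have hO := h.out_eq
  have h4 : (Fs Ω Q \ B).ncard = 4 := hO ▸ h.ncard_out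
  have ττ : ∀ x : Ω, τ • τ • x = x := fun x => by rw [← mul_smul, h2, one_smul]
  have hst : ∀ x ∈ Fs Ω Q \ B, τ • x ∈ Fs Ω Q \ B := fun x hx => orbit_sub hx.1 hx.2 ⟨⟨τ, hτ⟩, rfl⟩
  have hne : ∀ x ∈ Fs Ω Q \ B, τ • x ≠ x := fun x hx e =>
    hQ (h.mem_Q h.gb h.sub hx.1 hx.2 hτ.1 e)
  have hz : z ∈ Fs Ω Q \ B := ⟨h.zF, h.zB⟩
  have hρ : ∀ x ∈ Fs Ω Q \ B, ρ • x = x := fun x hx => (hO.le hx).1.2
  obtain ⟨x, hx, h1⟩ := exists_mem_notMem (s := {z, τ • z}) (t := Fs Ω Q \ B) (by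
    rw [Set.ncard_pair (hne z hz).symm]; omega)
  simp only [Set.mem_insert_iff, Set.mem_singleton_iff, not_or] at h1
  obtain ⟨t1, t2⟩ := h.T4 (hρ x hx)
  have t3 := Set.insert_subset hx.1 (h.T_sub.trans h.sub)
  obtain ⟨b, b1, b2, b3, b4⟩ := h.lift_b t1 t3 t2 ⟨hz.1, h.notMem_T hz.2 (Ne.symm h1.1)⟩
    ⟨(hst z hz).1, h.notMem_T (hst z hz).2 (Ne.symm h1.2)⟩ (hρ z hz) (hρ _ (hst z hz))
  have bb : ∀ x : Ω, b • b • x = x := fun x => by rw [← mul_smul, b3, one_smul]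
  have bQ : b ∉ Q := fun e => hne z hz (b4 ▸ hz.1 b e)
  have bx : b • x = x := mem_Dx.1 (Pz_le 2 _ b1.1) x (Or.inl rfl)
  have hw := h.w_notMem' hx.2
  have nd : [z, τ • z, x, τ • x].Nodup := by
    simp only [List.nodup_cons, List.mem_cons, List.not_mem_nil, not_or, or_false,
      not_false_eq_true, List.nodup_nil, and_true, smul_left_cancel_iff]
    exact ⟨⟨(hne z hz).symm, Ne.symm h1.1, fun e => h1.2 (by rw [e, ττ])⟩,
      ⟨Ne.symm h1.2, Ne.symm h1.1⟩, (hne x hx).symm⟩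
  have h3 : Fs Ω Q \ B = {z, τ • z, x, τ • x} := (Set.eq_of_subset_of_ncard_le (by
    rintro y (rfl | rfl | rfl | rfl)
    exacts [hz, hst _ hz, hx, hst _ hx]) (h4.trans (ncard_four nd).symm).le).symm
  have bw : b • w = τ • x := by
    have h5 : b • w ∈ Fs Ω Q \ {x, t, ρ • t, ρ • ρ • t} := orbit_sub (h.sub h.wB) hw ⟨⟨b, b1⟩, rfl⟩
    have h6 : b • w ∉ B := fun e => (h.B_eq.le e).elim
      (fun e => bQ (h.mem_Q (h.gb4 t1) t3 (h.sub h.wB) hw b1.1 e)) fun e => h5.2 (Or.inr e)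
    rcases h3.le ⟨h5.1, h6⟩ with e | e | e | e
    · refine absurd h.wB ?_
      rw [← bb w, e, b4]
      exact (hst z hz).2
    · exact absurd (smul_left_cancel b (e.trans b4.symm) ▸ h.wB) h.zB
    · exact absurd (Or.inl e) h5.2
    · exact e
  have τw : τ • w = w := mem_Dx.1 (Pz_le 2 B hτ.1) w h.wB
  have s1 : (τ * b) • w = x := by rw [mul_smul, bw, ττ]
  have h5 : 3 ∣ orderOf (τ * b) := by
    by_contra hc
    have := smul_eq_of_pow (g := τ * b) (x := w) (n := 3) (by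
      rw [pow_three, mul_smul (τ * b), mul_smul (τ * b), s1, mul_smul τ b x, bx, mul_smul, ← bw, bb,
        τw])
      ((Nat.Prime.coprime_iff_not_dvd Nat.prime_three).2 hc)
    exact hx.2 ((s1.symm.trans this) ▸ h.wB)
  have h6 : τ * b ∈ Dx G ({z, t, ρ • t, ρ • ρ • t} : Set Ω) := mem_Dx_iff.2 (Set.insert_subset
    (by rw [mem_Fx, mul_smul, b4, ττ]) fun y hy => by
      rw [mem_Fx, mul_smul, mem_Dx.1 (Pz_le 2 _ b1.1) y (Or.inr hy),
        mem_Dx.1 (Pz_le 2 B hτ.1) y (h.T_sub hy)])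
  obtain ⟨g, hg⟩ := exists_conj_of_odd h2 b3
    (h.odd.of_dvd_nat (h.dvd (h.T4 h.ps.e1).1.ge h6 (h.ncp h5)))
  rw [← ncard_Fx_conj g, hg]
  have h7 := h.ps.pe.ncard_modEq Nat.prime_three (S := Fx Ω b) fun x hx => smul_mem_Fx b2 hx
  have h8 : Fx Ω b ∩ Fx Ω ρ = {x} := Set.Subset.antisymm (fun y hy =>
    ((h.Fx_inter (h.gb4 t1) t3 b1.1 bQ).le ⟨h.Fx_sub hy.2, hy.1⟩).resolve_right fun e =>
      h.w_notMem (h.hw.le ⟨h.T_sub e, hy.2⟩ ▸ e)) (by rintro _ rfl; exact ⟨bx, hρ _ hx⟩)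
  rwa [h8, Set.ncard_singleton] at h7

theorem phi_one' (h : R3 G m 4 Q B a z ρ η w t) (hQ : Q ≠ ⊥) {τ : G} (h2 : τ * τ = 1)
    (h4 : 4 ≤ (Fs Ω Q ∩ Fx Ω τ).ncard) (hτ : τ ∉ Q) : (Fx Ω τ).ncard ≡ 1 [MOD 3] := by
  obtain ⟨V, hV1, hV⟩ := exists_sub_four h4
  obtain ⟨g, hg, e⟩ := h.imageM hV (h.card_gb h.gb) (hV1.trans Set.inter_subset_left) h.sub
  have h1 : g * τ * g⁻¹ ∈ Pz G 2 B := mem_Pz_of
    (e ▸ conj_mem_Dx (mem_Dx_iff.2 (hV1.trans Set.inter_subset_right))) ((PE.of_sq h2).conj g)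
  rw [← ncard_Fx_conj g]
  exact h.phi_one ⟨h1, h.P_le hQ h1⟩ (fun e => hτ ((mem_normalizer_iff.1 hg τ).2 e))
    (by rw [conj_mul, h2, mul_one, mul_inv_cancel])

theorem eq_bot (h : R3 G m 4 Q B a z ρ η w t) : Q = ⊥ := by
  by_contra hQ
  obtain ⟨v, hv, e⟩ := h.exists_v
  obtain ⟨q, q1, q2, q3⟩ := h.exists_q hQ
  obtain ⟨j, hj⟩ := (PE.of_mem h.pq q1).exists_pow Nat.prime_two q2
  have a1 := pow_mem q1 j
  have a3 : ρ * η * q ^ j = q ^ j * (ρ * η) := (Commute.pow_right q3 j).eq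
  generalize q ^ j = c at hj a1 a3
  have c2 : c * c = 1 := by rw [← pow_two, ← hj, pow_orderOf_eq_one]
  have cc : ∀ x : Ω, c • c • x = x := fun x => by rw [← mul_smul, c2, one_smul]
  have h1 := (PE.of_orderOf h.o3).ncard_modEq Nat.prime_three (S := Fx Ω c)
    fun x hx => smul_mem_Fx a3 hx
  rw [h.Fx_two hQ hv e, Set.inter_eq_right.2 (Set.pair_subset (s := Fx Ω c) (h.sub h.wB c a1)
    (hv.1.1 c a1)),
    Set.ncard_pair fun e : w = v => hv.2 (e ▸ h.wB)] at h1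
  obtain ⟨y, hy⟩ : ∃ y : Ω, c • y ≠ y := by
    by_contra hc
    push Not at hc
    rw [h.faith c hc, orderOf_one] at hj
    omega
  have cw : c • w = w := h.sub h.wB c a1
  have ct : c • t = t := h.sub h.tB c a1
  have nd := h.nd
  simp only [List.nodup_cons, List.mem_cons, List.not_mem_nil, not_or] at nd
  obtain ⟨g, e1, e2, e3, e4⟩ := map4' h.tr (a := w) (b := t) (c := y) (d := c • y) (by
    simp only [List.nodup_cons, List.mem_cons, List.not_mem_nil, not_or, or_false,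
      not_false_eq_true, List.nodup_nil, and_true]
    exact ⟨⟨nd.1.1, fun e => hy (e ▸ cw), fun e => hy (by rw [← cc y, ← e, cw, cw])⟩,
      ⟨fun e => hy (e ▸ ct), fun e => hy (by rw [← cc y, ← e, ct, ct])⟩, hy.symm⟩) h.nd
  obtain ⟨μ, hμ, f1, f2, f3, f4⟩ := h.map4M h.nd (a' := w) (b' := t) (c' := ρ • ρ • t) (d' := ρ • t)
    (List.Perm.nodup (.cons _ (.cons _ (.swap _ _ _))) h.nd) (h.UB.trans h.sub) (by
      rw [Set.pair_comm]; exact h.UB.trans h.sub)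
  obtain ⟨i, h2, h3⟩ := exists_PE_part (B := B) Nat.prime_two (c := μ) (e := 1) (by
    intro x hx
    rw [pow_one, pow_two, mul_smul]
    rcases h.B_eq.le hx with rfl | rfl | rfl | rfl <;> simp only [f1, f2, f3, f4])
  have h4 : ∀ x ∈ B, μ ^ i • x ∈ B := fun x hx => by
    rw [h3 x hx, h.B_eq]
    rcases h.B_eq.le hx with rfl | rfl | rfl | rfl <;> simp [f1, f2, f3, f4]
  obtain ⟨d, -, h5, h6⟩ := sylow_coset Nat.prime_two (h.PE_mul h.gb.four Nat.prime_two h.not_two) h2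
    ((PE.of_sq c2).conj g) (mem_normalizer_Dx h4) (mem_Dx.2 fun x hx => by
      obtain ⟨u, hu, rfl⟩ := (image_eq_of_mem h4).ge hx
      beta_reduce
      rw [mul_smul, inv_smul_smul, h3 u hu]
      rcases h.B_eq.le hu with rfl | rfl | rfl | rfl
      · nth_rewrite 1 [← e1]; rw [conj_smul_smul, cw, e1, f1]
      · nth_rewrite 1 [← e2]; rw [conj_smul_smul, ct, e2, f2]
      · nth_rewrite 1 [← e3]; rw [conj_smul_smul, e4, f3]
      · nth_rewrite 1 [← e4]; rw [conj_smul_smul, cc, e3, f4])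
  rw [← ncard_Fx_conj g, ← ncard_Fx_conj d] at h1
  have τ2 : d * (g * c * g⁻¹) * d⁻¹ * (d * (g * c * g⁻¹) * d⁻¹) = 1 := by
    rw [conj_mul, conj_mul, c2]; group
  generalize d * (g * c * g⁻¹) * d⁻¹ = τ at h1 h5 h6 τ2
  have τM : τ ∈ normalizer (Q : Set G) :=
    (mul_mem_cancel_right (inv_mem (pow_mem hμ i))).1 (h.P_le hQ (mem_Pz_of h5 h6))
  have τμ : ∀ x ∈ B, τ • x = μ • x := fun x hx => by
    have := mem_Dx.1 h5 _ (h4 x hx)
    rwa [mul_smul, inv_smul_smul, h3 x hx] at this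
  have τB : ∀ x ∈ B, τ • x ∈ B := fun x hx => by rw [τμ x hx, ← h3 x hx]; exact h4 x hx
  have ρt := h.ps.st _ h.tB
  have τw : τ • w = w := (τμ w h.wB).trans f1
  have τt : τ • t = t := (τμ t h.tB).trans f2
  have τ3 : τ • ρ • t ≠ ρ • t := by rw [τμ _ ρt, f3]; exact Ne.symm nd.2.2.1.1
  have hO := h.out_eq
  have h7 : (Fs Ω Q \ B).ncard = 4 := hO ▸ h.ncard_out
  have τO : ∀ x ∈ Fs Ω Q \ B, τ • x ∈ Fs Ω Q \ B := fun x hx =>
    ⟨smul_mem_Fs τM hx.1, LQ.smul_notMem τB hx.2⟩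
  obtain ⟨x, hx, τx⟩ : ∃ x ∈ Fs Ω Q \ B, τ • x = x := by
    by_contra hc
    push Not at hc
    have hz : z ∈ Fs Ω Q \ B := ⟨h.zF, h.zB⟩
    obtain ⟨b, b1, -, b3, b4⟩ := h.lift_b (h.card_gb h.gb) h.sub h.ps.st hz (τO z hz) h.ps.e1
      (hO.le (τO z hz)).1.2
    have bB := mem_Dx.1 (Pz_le 2 B b1.1)
    have k1 : ∀ x ∈ Fs Ω Q \ B, (b * τ) • x = x := fun x hx => by
      rw [mul_smul, ← S2.agree h7 b3 τ2 (fun x hx => orbit_sub hx.1 hx.2 ⟨⟨b, b1⟩, rfl⟩) τO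
        (fun x hx e => hc z hz (b4 ▸ hz.1 b (h.mem_Q h.gb h.sub hx.1 hx.2 b1.1 e))) hc hz b4 hx,
        ← mul_smul, b3, one_smul]
    have k2 := h.mem_Q (h.gb4 h7) Set.sdiff_subset (h.sub h.wB) (fun e => e.2 h.wB)
      (mem_Pz_of (mem_Dx.2 k1) (PE.mul_of_norm Nat.prime_two (h.pg h.gb.four) (PE.of_sq τ2)
        (mem_normalizer_Pz τB) b1.1)) (by rw [mul_smul, τw, bB w h.wB])
    have k3 := h.sub ρt _ k2
    rw [mul_smul, bB _ (τB _ ρt)] at k3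
    exact τ3 k3
  have h8 := (PE.of_sq τ2).ncard_modEq Nat.prime_two (S := Fs Ω Q) fun x hx => smul_mem_Fs τM hx
  have h9 : 3 ≤ (Fs Ω Q ∩ Fx Ω τ).ncard := by
    rw [← ncard_three (a := x) (b := w) (c := t) (by
      simp only [List.nodup_cons, List.mem_cons, List.not_mem_nil, not_or, or_false,
        not_false_eq_true, List.nodup_nil, and_true]
      exact ⟨⟨fun e => hx.2 (e ▸ h.wB), fun e => hx.2 (e ▸ h.tB)⟩, nd.1.1⟩)]
    refine Set.ncard_le_ncard ?_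
    rintro y (rfl | rfl | rfl)
    exacts [⟨hx.1, τx⟩, ⟨h.sub h.wB, τw⟩, ⟨h.sub h.tB, τt⟩]
  rw [h.eight, Nat.ModEq] at h8
  have h10 := h.phi_one' hQ τ2 (by omega) fun e => τ3 (h.sub ρt τ e)
  unfold Nat.ModEq at h1 h10
  omega

end R3

theorem LQ.isoA8 (h : LQ G Ω m 4 Q) : Nonempty (G ≃* alternatingGroup (Fin 8)) := by
  classical
  have := Fintype.ofFinite Ω
  obtain ⟨B, hB, hBΦ⟩ := h.exists_blk
  obtain ⟨a, ha⟩ := h.exists_r3 hB hBΦ ⊤ fun _ _ _ _ _ _ => mem_top _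
  obtain ⟨z, hz, hzB⟩ := h.exists_out hB
  obtain ⟨ρ, -, η, w, t, h1⟩ := ha z hz hzB
  have h8 := h1.eight
  obtain rfl := h1.eq_bot
  rw [show Fs Ω (⊥ : Subgroup G) = Set.univ from Set.eq_univ_of_forall fun x q hq => by
    rw [mem_bot.1 hq, one_smul], Set.ncard_univ, Nat.card_eq_fintype_card] at h8
  have hinj : Function.Injective (toPermHom G Ω) :=
    (injective_iff_map_eq_one _).2 fun g hg => h.faith g fun x => DFunLike.congr_fun hg x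
  have h2 := Cfsg.Agent.S4220.result (toPermHom G Ω).range (k := 1) (p := 5) (r := 3) Nat.prime_five
    h8 le_rfl (by norm_num) (by norm_num) (by norm_num) (tr4_of fun a b c d a' b' c' d' n1 n2 => by
      obtain ⟨g, hg⟩ := map4' h.tr n1 n2
      exact ⟨⟨_, g, rfl⟩, hg⟩)
  have : Nontrivial Ω := Fintype.one_lt_card_iff_nontrivial.1 (by omega)
  have h3 : (toPermHom G Ω).range.index ∣ 2 :=
    alternatingGroup.index_eq_two (α := Ω) ▸ index_dvd_of_le h2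
  have h4 : (toPermHom G Ω).range = alternatingGroup Ω := by
    refine Equiv.Perm.eq_alternatingGroup_of_index_eq_two
      (((Nat.dvd_prime Nat.prime_two).1 h3).resolve_left fun e => ?_)
    obtain ⟨x, y, hxy⟩ := exists_pair_ne Ω
    obtain ⟨g, hg⟩ := (index_eq_one.1 e).ge (mem_top (Equiv.swap x y))
    have h5 : ∀ u, g • u = Equiv.swap x y u := fun u => DFunLike.congr_fun hg u
    have h6 : 6 ≤ (Fx Ω g).ncard := by
      have h7 := Set.ncard_add_ncard_compl ({x, y} : Set Ω)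
      have h9 : (({x, y} : Set Ω)ᶜ).ncard ≤ (Fx Ω g).ncard := Set.ncard_le_ncard fun u hu => by
        simp only [Set.mem_compl_iff, Set.mem_insert_iff, Set.mem_singleton_iff, not_or] at hu
        rw [mem_Fx, h5, Equiv.swap_apply_of_ne_of_ne hu.1 hu.2]
      rw [Set.ncard_pair hxy, Nat.card_eq_fintype_card] at h7
      omega
    have := h.sr_bot.fix g (fun e => hxy (by simpa [e] using h5 x))
      (PE.of_sq (hinj (by rw [map_mul, hg, Equiv.swap_mul_self, map_one]))) (by omega)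
    omega
  exact ⟨((MonoidHom.ofInjective hinj).trans (MulEquiv.subgroupCongr h4)).trans
    (Fintype.equivFinOfCardEq h8).altCongrHom⟩

end Cfsg.Lib.Fr4
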