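import Cfsg.Agent.Fr4.SR0
import Cfsg.Agent.Solv.HaradaTools

/-!
# The local configuration with blocks of size four or seven
-/

set_option autoImplicit false

namespace Cfsg.Lib.Fr4

open MulAction Subgroup Cfsg.Lib.Perm Cfsg.Lib.Trans

variable {X Φ : Type*} [Group X] [MulAction X Φ] [Finite X] [Finite Φ] {k : ℕ}

namespace S2

/-- The setwise stabiliser. -/
def St (X : Type*) {Φ : Type*} [Group X] [MulAction X Φ] (B : Set Φ) : Subgroup X where
  carrier := {g | ∀ w, g • w ∈ B ↔ w ∈ B}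
  one_mem' := fun w => by rw [one_smul]
  mul_mem' := fun {a b} ha hb w => by rw [mul_smul, ha, hb]
  inv_mem' := fun {a} ha w => by rw [← ha, smul_inv_smul]

/-- The stabiliser of `C` in the group of central involutions at `B`. -/
def Vv (X : Type*) {Φ : Type*} [Group X] [MulAction X Φ] (B C : Set Φ) : Subgroup X :=
  Om (Pz X 2 B) ⊓ St X C

variable {B C C' S T : Set Φ} {a g r s t : X} {p z : Φ}

section
omit [Finite X] [Finite Φ]

theorem sq_smul (h2 : t * t = 1) (w : Φ) : t • t • w = w := by rw [← mul_smul, h2, one_smul]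

theorem mem_St_of_sq (h2 : t * t = 1) (h : ∀ w ∈ B, t • w ∈ B) : t ∈ St X B :=
  fun w => ⟨fun hw => sq_smul h2 w ▸ h _ hw, h w⟩

theorem Dx_le_St : Dx X B ≤ St X B := fun g hg w =>
  ⟨fun hw => (smul_left_cancel g (mem_Dx.1 hg _ hw)) ▸ hw, fun hw => (mem_Dx.1 hg w hw).symm ▸ hw⟩

theorem Pz_le_Dx : Pz X 2 B ≤ Dx X B := (closure_le _).2 fun _ h => h.1

theorem Om_le_self {R : Subgroup X} : Om R ≤ R := fun _ h => h.1

theorem Vv_le_Pz : Vv X B C ≤ Pz X 2 B := fun _ h => h.1.1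

theorem mem_St_Fx (hc : g * t = t * g) : g ∈ St X (Fx Φ t) := fun w => by
  rw [mem_Fx, mem_Fx, ← mul_smul, ← hc, mul_smul, smul_left_cancel_iff]

theorem pe_of_sq (h2 : t * t = 1) : PE 2 t := ⟨1, by rw [pow_one, pow_two, h2]⟩

theorem comm_of_sq (h2 : t * t = 1) (hy : r * t * r⁻¹ * t⁻¹ * (r * t * r⁻¹ * t⁻¹) = 1) :
    r * t * r⁻¹ * t⁻¹ * t = t * (r * t * r⁻¹ * t⁻¹) := by
  have h1 : t⁻¹ = t := inv_eq_of_mul_eq_one_right h2
  calc r * t * r⁻¹ * t⁻¹ * t = t * t * (r * t * r⁻¹) := by rw [h2]; group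
    _ = t * (r * t⁻¹ * r⁻¹ * t⁻¹)⁻¹ := by group
    _ = t * (r * t * r⁻¹ * t⁻¹) := by
      congr 1
      nth_rewrite 1 [h1]
      exact inv_eq_of_mul_eq_one_right hy

end

omit [Finite X] in
theorem four_eq (h4 : S.ncard = 4) {a b c d e : Φ} (ha : a ∈ S) (hb : b ∈ S) (hc : c ∈ S)
    (hd : d ∈ S) (he : e ∈ S) (ab : a ≠ b) (ac : a ≠ c) (bc : b ≠ c) (ad : a ≠ d) (bd : b ≠ d)
    (cd : c ≠ d) (ae : a ≠ e) (be : b ≠ e) (ce : c ≠ e) : d = e := by
  by_contra de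
  have h1 : ({a, b, c, d, e} : Set Φ).ncard ≤ S.ncard :=
    Set.ncard_le_ncard (by simp [Set.insert_subset_iff, *])
  rw [Set.ncard_insert_of_notMem (by simp [*]), Set.ncard_insert_of_notMem (by simp [*]),
    Set.ncard_insert_of_notMem (by simp [*]), Set.ncard_pair de] at h1
  omega

omit [Finite X] in
/-- Fixed point free involutions on four points which agree somewhere agree everywhere. -/
theorem agree (h4 : S.ncard = 4) (s2 : s * s = 1) (t2 : t * t = 1) (sS : ∀ w ∈ S, s • w ∈ S)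
    (tS : ∀ w ∈ S, t • w ∈ S) (sf : ∀ w ∈ S, s • w ≠ w) (tf : ∀ w ∈ S, t • w ≠ w) (hp : p ∈ S)
    (e : s • p = t • p) {u : Φ} (hu : u ∈ S) : s • u = t • u := by
  by_cases h1 : p = u
  · rwa [← h1]
  by_cases h2 : s • p = u
  · rw [← h2, sq_smul s2, e, sq_smul t2]
  refine four_eq h4 hp (sS p hp) hu (sS u hu) (tS u hu) (sf p hp).symm h1 h2 ?_ ?_ (sf u hu).symm
    ?_ ?_ (tf u hu).symm
  · exact fun h => h2 (by rw [h, sq_smul s2])
  · exact fun h => h1 (smul_left_cancel s h)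
  · exact fun h => h2 (by rw [e, h, sq_smul t2])
  · exact fun h => h1 (smul_left_cancel t (e ▸ h))

theorem cover {α β : Type*} [Finite α] [Finite β] {S : Set α} {I : Set β} (f : β → Set α) {n : ℕ}
    (hf : ∀ i ∈ I, (f i).ncard ≤ n) (hS : ∀ x ∈ S, ∃ i ∈ I, x ∈ f i) : S.ncard ≤ I.ncard * n := by
  classical
  have h1 : S ⊆ ((Set.toFinite I).toFinset.biUnion fun i => (Set.toFinite (f i)).toFinset :
      Finset α) := fun x hx => by simpa using hS x hx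
  refine (Set.ncard_le_ncard h1).trans ?_
  rw [Set.ncard_coe_finset, Set.ncard_eq_toFinset_card I]
  exact Finset.card_biUnion_le_card_mul _ _ _ fun i hi => by
    rw [← Set.ncard_eq_toFinset_card]; exact hf i (by simpa using hi)

theorem conj_Pz (h : SR X Φ k) (hB : Blk X B) (ht : t ∈ St X B) (hr : r ∈ Pz X 2 B) :
    t * r * t⁻¹ ∈ Pz X 2 B := by
  obtain ⟨h1, j, hj⟩ := (h.mem_Pz hB.1).1 hr
  refine (h.mem_Pz hB.1).2 ⟨mem_Dx.2 fun x hx => ?_, j, by rw [conj_pow, hj]; group⟩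
  rw [mul_smul, mul_smul, mem_Dx.1 h1 _ ((inv_mem ht x).2 hx), smul_inv_smul]

theorem conj_Om (h : SR X Φ k) (hB : Blk X B) (ht : t ∈ St X B) (ha : a ∈ Om (Pz X 2 B)) :
    t * a * t⁻¹ ∈ Om (Pz X 2 B) := by
  refine ⟨conj_Pz h hB ht ha.1, by rw [conj_mul, ha.2.1]; group, fun u hu => ?_⟩
  calc u * (t * a * t⁻¹) = t * (t⁻¹ * u * t⁻¹⁻¹ * a) * t⁻¹ := by group
    _ = t * a * t⁻¹ * u := by rw [ha.2.2 _ (conj_Pz h hB (inv_mem ht) hu)]; group

theorem free (h : SR X Φ k) (hB : Blk X B) (hr : r ∈ Pz X 2 B) (hz : z ∉ B) (e : r • z = z) :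
    r = 1 := by
  by_contra h1
  exact hz (h.fx_eq hB hr h1 ▸ mem_Fx.2 e)

theorem inj (h : SR X Φ k) (hB : Blk X B) (hr : r ∈ Pz X 2 B) (hs : s ∈ Pz X 2 B) (hz : z ∉ B)
    (e : r • z = s • z) : r = s :=
  inv_mul_eq_one.1 (free h hB (mul_mem (inv_mem hr) hs) hz (by rw [mul_smul, ← e, inv_smul_smul]))

theorem ncard_orb (h : SR X Φ k) (hB : Blk X B) {V : Subgroup X} (hV : V ≤ Pz X 2 B) (hz : z ∉ B) :
    ((fun v : X => v • z) '' (V : Set X)).ncard = Nat.card V := by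
  rw [Set.InjOn.ncard_image fun _ ha _ hb e => inj h hB (hV ha) (hV hb) hz e]
  rfl

theorem exists_blk' (h : SR X Φ k) (hT : T.ncard = 3) (hz : z ∉ T) :
    ∃ C, Blk X C ∧ T ⊆ C ∧ z ∈ C := by
  obtain ⟨C, hC, hs⟩ := h.exists_blk (s := insert z T) (by rw [Set.ncard_insert_of_notMem hz, hT])
  exact ⟨C, hC, (Set.subset_insert _ _).trans hs, hs (Set.mem_insert _ _)⟩

theorem blk_eq' (h : SR X Φ k) (hB : Blk X B) (hC : Blk X C) (hT : T.ncard = 3) (h1 : T ⊆ B)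
    (h2 : T ⊆ C) (hz : z ∉ T) (h3 : z ∈ B) (h4 : z ∈ C) : B = C := by
  refine h.blk_eq hB hC (le_trans ?_ (Set.ncard_le_ncard (s := insert z T)
    (Set.insert_subset ⟨h3, h4⟩ (Set.subset_inter h1 h2))))
  rw [Set.ncard_insert_of_notMem hz, hT]

theorem inter_eq (h : SR X Φ k) (hB : Blk X B) (hC : Blk X C) (hT : T.ncard = 3) (h1 : T ⊆ B)
    (h2 : T ⊆ C) (hne : B ≠ C) : B ∩ C = T := by
  refine Set.Subset.antisymm (fun z hz => ?_) (Set.subset_inter h1 h2)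
  by_contra h3
  exact hne (blk_eq' h hB hC hT h1 h2 h3 hz.1 hz.2)

theorem exists_not_mem (h : SR X Φ k) (hB : Blk X B) : ∃ z, z ∉ B := by
  by_contra! h1
  have := h.card_blk hB
  rw [Set.eq_univ_of_forall h1, Set.ncard_univ] at this
  exact h.lt.ne' this

section Seven
variable (h : SR X Φ 7) (h16 : ∀ B : Set Φ, Blk X B → Nat.card (Om (Pz X 2 B)) = 16)
include h

theorem ncard_diff (hC : Blk X C) (h3 : (B ∩ C).ncard = 3) : (C \ B).ncard = 4 := by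
  have := Set.ncard_inter_add_ncard_sdiff_eq_ncard C B
  rw [Set.inter_comm, h3, h.card_blk hC] at this
  omega

omit [Finite X] [Finite Φ] h in
theorem orb_subset (hp : p ∈ C \ B) : (fun v : X => v • p) '' (Vv X B C : Set X) ⊆ C \ B := by
  rintro _ ⟨v, hv, rfl⟩
  exact ⟨(hv.2 p).2 hp.1, fun hb => hp.2 ((Dx_le_St (Pz_le_Dx hv.1.1) p).1 hb)⟩

theorem reg (hB : Blk X B) (hC : Blk X C) (h3 : (B ∩ C).ncard = 3)
    (h4 : Nat.card (Vv X B C) = 4) (hp : p ∈ C \ B) (hz : z ∈ C \ B) :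
    ∃ v ∈ Vv X B C, v • p = z := by
  have := Set.eq_of_subset_of_ncard_le (orb_subset hp) (by
    rw [ncard_diff h hC h3, ncard_orb h hB Vv_le_Pz hp.2, h4])
  rw [← this] at hz
  exact hz

include h16

theorem Vv_eq (hB : Blk X B) (hC : Blk X C) (h3 : (B ∩ C).ncard = 3) (ht : t ∈ Vv X C B)
    (h1 : t ≠ 1) :
    Nat.card (Vv X B C) = 4 ∧ centralizer ({t} : Set X) ⊓ Om (Pz X 2 B) = Vv X B C := by
  have e1 : centralizer ({t} : Set X) ⊓ Om (Pz X 2 B) ≤ Vv X B C := fun v hv =>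
    ⟨hv.2, h.fx_eq hC ht.1.1 h1 ▸ mem_St_Fx (mem_centralizer_singleton_iff.1 hv.1)⟩
  have e2 := Solv.PG.card_le_mul_card_centralizer (H := Om (Pz X 2 B))
    (S := centralizer ({t} : Set X) ⊓ Om (Pz X 2 B)) (v := t) fun x hx => by
      have h2 : x * t * x⁻¹ * t⁻¹ ∈ Om (Pz X 2 B) := by
        simpa [mul_assoc] using mul_mem hx (conj_Om h hB ht.2 (inv_mem hx))
      exact ⟨mem_centralizer_singleton_iff.2 (comm_of_sq ht.1.2.1 h2.2.1), h2⟩
  obtain ⟨p, hp⟩ := Set.nonempty_of_ncard_ne_zero (s := C \ B) (by rw [ncard_diff h hC h3]; omega)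
  have e3 := Set.ncard_le_ncard (orb_subset (X := X) hp)
  rw [ncard_diff h hC h3, ncard_orb h hB Vv_le_Pz hp.2] at e3
  have e4 := Subgroup.card_le_of_le e1
  rw [h16 B hB] at e2
  have e5 : 4 ≤ Nat.card (centralizer ({t} : Set X) ⊓ Om (Pz X 2 B) : Subgroup X) := by nlinarith
  exact ⟨by omega, eq_of_le_of_card_ge e1 (by omega)⟩

theorem exists_Vv (hB : Blk X B) (hC : Blk X C) (h3 : (B ∩ C).ncard = 3) :
    ∃ v ∈ Vv X B C, v ≠ 1 := by
  by_contra! h0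
  obtain ⟨x, y, w, xy, xw, yw, e⟩ := Set.ncard_eq_three.1 h3
  have hx : x ∈ B ∩ C := e ▸ by simp
  have hy : y ∈ B ∩ C := e ▸ by simp
  have hw : w ∈ B ∩ C := e ▸ by simp
  obtain ⟨z, hz⟩ := Set.nonempty_of_ncard_ne_zero (s := C \ B) (by rw [ncard_diff h hC h3]; omega)
  have h3' : ∀ u ∈ B \ C, ({x, y, u} : Set Φ).ncard = 3 ∧ z ∉ ({x, y, u} : Set Φ) := fun u hu =>
    ⟨Set.ncard_eq_three.2 ⟨x, y, u, xy, fun e => hu.2 (e ▸ hx.2), fun e => hu.2 (e ▸ hy.2), rfl⟩,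
      fun hh => hz.2 ((by simp [Set.insert_subset_iff, hx.1, hy.1, hu.1] :
        ({x, y, u} : Set Φ) ⊆ B) hh)⟩
  choose! D hD using fun u (hu : u ∈ B \ C) => exists_blk' h (h3' u hu).1 (h3' u hu).2
  have key := cover (S := (fun v : X => v • z) '' (Om (Pz X 2 B) : Set X) \ {z}) (I := B \ C)
    (fun u => D u \ insert z {x, y, u}) (n := 3) (fun u hu => ?_) ?_
  · have h1 := Set.ncard_sdiff_singleton_add_one
      (s := (fun v : X => v • z) '' (Om (Pz X 2 B) : Set X)) (a := z) ⟨1, one_mem _, one_smul _ _⟩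
    rw [ncard_orb h hB Om_le_self hz.2, h16 B hB] at h1
    rw [ncard_diff h hB (Set.inter_comm B C ▸ h3)] at key
    omega
  · rw [Set.ncard_sdiff (Set.insert_subset (hD u hu).2.2 (hD u hu).2.1), h.card_blk (hD u hu).1,
      Set.ncard_insert_of_notMem (h3' u hu).2, (h3' u hu).1]
  · rintro _ ⟨⟨a, ha, rfl⟩, hne⟩
    have h1 : a ≠ 1 := fun e => hne (by simp [e])
    obtain ⟨B', hB', hx', hy', hz', haz, hst, hle, hmod, -⟩ :=
      h.pair hB ha.1 h1 ha.2.1 hz.2 hx.1 hy.1 xy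
    obtain ⟨u, hu, hu'⟩ : ∃ u ∈ B ∩ B', u ∉ ({x, y} : Set Φ) := by
      refine Set.not_subset.1 fun hs => ?_
      have h2 := Set.Subset.antisymm hs (by simp [Set.insert_subset_iff, hx.1, hy.1, hx', hy'])
      rw [h2, Set.ncard_pair xy] at hmod
      omega
    have huC : u ∉ C := fun hc => by
      have h2 : u ∈ ({x, y, w} : Set Φ) := e ▸ ⟨hu.1, hc⟩
      have h5 : u = w := by simp only [Set.mem_insert_iff, Set.mem_singleton_iff] at h2 hu'; tauto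
      have h4 : B' = C := blk_eq' h hB' hC h3
        (e ▸ by simp [Set.insert_subset_iff, hx', hy', ← h5, hu.2])
        Set.inter_subset_right (fun hh => hz.2 hh.1) hz' hz.1
      exact h1 (h0 a ⟨ha, h4 ▸ mem_St_of_sq ha.2.1 hst⟩)
    have huI : u ∈ B \ C := ⟨hu.1, huC⟩
    have h4 : B' = D u := blk_eq' h hB' (hD u huI).1 (h3' u huI).1
      (by simp [Set.insert_subset_iff, hx', hy', hu.2]) (hD u huI).2.1 (h3' u huI).2 hz'
      (hD u huI).2.2
    refine ⟨u, huI, h4 ▸ haz, fun hh => ?_⟩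
    rcases hh with hh | hh
    · exact hne hh
    · exact hz.2 ((Dx_le_St (Pz_le_Dx ha.1) z).1
        ((by simp [Set.insert_subset_iff, hx.1, hy.1, hu.1] : ({x, y, u} : Set Φ) ⊆ B) hh))

theorem card_Vv (hB : Blk X B) (hC : Blk X C) (h3 : (B ∩ C).ncard = 3) :
    Nat.card (Vv X B C) = 4 := by
  obtain ⟨t, ht, h1⟩ := exists_Vv h h16 hC hB (Set.inter_comm B C ▸ h3)
  exact (Vv_eq h h16 hB hC h3 ht h1).1

theorem Vv_le (hc : ∀ B : Set Φ, Blk X B → ∀ g ∈ Dx X B, ∀ a ∈ Om (Pz X 2 B), g * a = a * g)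
    (hB : Blk X B) (hC : Blk X C) (hC' : Blk X C') (h3 : (B ∩ C).ncard = 3)
    (e : B ∩ C = B ∩ C') : Vv X B C ≤ Vv X B C' := by
  have h3' : (C ∩ B).ncard = 3 := Set.inter_comm B C ▸ h3
  have h3'' : (C' ∩ B).ncard = 3 := Set.inter_comm B C' ▸ e ▸ h3
  have e' : B \ C = B \ C' := by rw [← Set.sdiff_self_inter, e, Set.sdiff_self_inter]
  obtain ⟨p, q, hp, hq, hpq⟩ := (Set.one_lt_ncard_iff (s := B \ C)).1
    (by rw [ncard_diff h hB h3']; omega)
  obtain ⟨t, ht, e1⟩ := reg h hC hB h3' (card_Vv h h16 hC hB h3') hp hq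
  obtain ⟨s, hs, e2⟩ := reg h hC' hB h3'' (card_Vv h h16 hC' hB h3'') (e' ▸ hp) (e' ▸ hq)
  have t1 : t ≠ 1 := fun e => hpq (by simpa [e] using e1)
  have s1 : s ≠ 1 := fun e => hpq (by simpa [e] using e2)
  have hD : t⁻¹ * s ∈ Dx X B := mem_Dx.2 fun u hu => by
    rw [mul_smul, inv_smul_eq_iff]
    by_cases huC : u ∈ C
    · have huC' : u ∈ B ∩ C' := e ▸ ⟨hu, huC⟩
      rw [mem_Dx.1 (Pz_le_Dx ht.1.1) u huC, mem_Dx.1 (Pz_le_Dx hs.1.1) u huC'.2]
    · exact agree (ncard_diff h hB h3') hs.1.2.1 ht.1.2.1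
        (fun w hw => e' ▸ orb_subset (e' ▸ hw) ⟨s, hs, rfl⟩)
        (fun w hw => orb_subset hw ⟨t, ht, rfl⟩)
        (fun w hw hh => s1 (free h hC' hs.1.1 (e' ▸ hw).2 hh))
        (fun w hw hh => t1 (free h hC ht.1.1 hw.2 hh)) hp (e2.trans e1.symm) ⟨hu, huC⟩
  rw [← (Vv_eq h h16 hB hC h3 ht t1).2, ← (Vv_eq h h16 hB hC' (e ▸ h3) hs s1).2]
  refine fun v hv => ⟨mem_centralizer_singleton_iff.2 ?_, hv.2⟩
  calc v * s = v * t * (t⁻¹ * s) := by group
    _ = t * (t⁻¹ * s * v) := by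
      rw [mem_centralizer_singleton_iff.1 hv.1, hc B hB _ hD v hv.2, mul_assoc]
    _ = s * v := by group

theorem ncard_compl
    (hc : ∀ B : Set Φ, Blk X B → ∀ g ∈ Dx X B, ∀ a ∈ Om (Pz X 2 B), g * a = a * g)
    (hB : Blk X B) : Bᶜ.ncard = 16 := by
  obtain ⟨T, hTB, hT⟩ := Set.exists_subset_card_eq (s := B) (n := 3) (by rw [h.card_blk hB]; omega)
  obtain ⟨z, hz⟩ := exists_not_mem h hB
  obtain ⟨C, hC, hTC, hzC⟩ := exists_blk' h hT fun hh => hz (hTB hh)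
  have e := inter_eq h hB hC hT hTB hTC fun e => hz (e ▸ hzC)
  have h3 : (B ∩ C).ncard = 3 := e ▸ hT
  have h3' : (C ∩ B).ncard = 3 := Set.inter_comm B C ▸ h3
  obtain ⟨v, hv, v1⟩ := exists_Vv h h16 hB hC h3
  have key := cover (S := (B ∪ C)ᶜ) (I := (Vv X C B : Set X) \ {1}) (fun s => Fx Φ (v * s) \ T)
    (n := 4) (fun s hs => ?_) fun u hu => ?_
  · have h1 := Set.ncard_sdiff_singleton_add_one (s := (Vv X C B : Set X)) (a := 1) (one_mem _)
    have h2 : (Vv X C B : Set X).ncard = 4 := card_Vv h h16 hC hB h3'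
    have h4 := Set.ncard_union_add_ncard_inter B C
    have h5 := Set.ncard_add_ncard_compl (B ∪ C)
    have h6 := Set.ncard_add_ncard_compl B
    have h7 : ((fun v : X => v • z) '' (Om (Pz X 2 B) : Set X)).ncard ≤ Bᶜ.ncard :=
      Set.ncard_le_ncard (by
        rintro _ ⟨a, ha, rfl⟩ hh
        exact hz ((Dx_le_St (Pz_le_Dx ha.1) z).1 hh))
    rw [ncard_orb h hB Om_le_self hz, h16 B hB] at h7
    rw [h3, h.card_blk hB, h.card_blk hC] at h4
    rw [h.card_blk hB] at h6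
    have h8 : ((Vv X C B : Set X) \ {1}).ncard = 3 := by omega
    rw [h8] at key
    omega
  · have hvs : v * s = s * v :=
      mem_centralizer_singleton_iff.1 ((Vv_eq h h16 hB hC h3 hs.1 hs.2).2.ge hv).1
    have h1 : v * s ≠ 1 := fun e => hz (by
      rw [← h.fx_eq hB hv.1.1 v1, eq_inv_of_mul_eq_one_left e]
      exact mem_Dx.1 (Pz_le_Dx (inv_mem hs.1.1.1)) z hzC)
    have h2 : PE 2 (v * s) := pe_of_sq (by
      calc v * s * (v * s) = v * (s * v) * s := by group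
        _ = v * v * (s * s) := by rw [← hvs]; group
        _ = 1 := by rw [hv.1.2.1, hs.1.1.2.1, one_mul])
    have h4 : T ⊆ Fx Φ (v * s) := fun u hu => by
      rw [mem_Fx, mul_smul, mem_Dx.1 (Pz_le_Dx hs.1.1.1) u (hTC hu),
        mem_Dx.1 (Pz_le_Dx hv.1.1) u (hTB hu)]
    have h5 := h.fix _ h1 h2
    rw [Set.ncard_sdiff h4, hT]
    omega
  · have huB : u ∉ B := fun hh => hu (Or.inl hh)
    have huC : u ∉ C := fun hh => hu (Or.inr hh)
    obtain ⟨D, hD, hTD, huD⟩ := exists_blk' h hT fun hh => huB (hTB hh)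
    have e1 := inter_eq h hB hD hT hTB hTD fun e => huB (e ▸ huD)
    have e2 := inter_eq h hC hD hT hTC hTD fun e => huC (e ▸ huD)
    have hvD := Vv_le h h16 hc hB hC hD h3 (e.trans e1.symm) hv
    obtain ⟨s, hs, es⟩ := reg h hC hD (e2 ▸ hT) (card_Vv h h16 hC hD (e2 ▸ hT)) ⟨huD, huC⟩
      (z := v • u) ⟨(hvD.2 u).2 huD, fun hh => huC ((hv.2 u).1 hh)⟩
    refine ⟨s, ⟨Vv_le h h16 hc hC hD hB (e2 ▸ hT) (e2.trans (Set.inter_comm B C ▸ e).symm) hs,
      fun e => v1 (free h hB hv.1.1 huB ?_)⟩, ?_, fun hh => huB (hTB hh)⟩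
    · rw [← es, show s = 1 from e, one_smul]
    · rw [mem_Fx, mul_smul, es, sq_smul hv.1.2.1]

end Seven

end S2

open S2

theorem SR.tr4 (h : SR X Φ 4) : IsMultiplyPretransitive X Φ 4 := by
  have := Fintype.ofFinite Φ
  refine isMultiplyPretransitive_of_forall_fix_card (k := 3) (Nat.card_eq_fintype_card (α := Φ) ▸ h.lt)
    fun s hs x y hx hy => ?_
  obtain ⟨g, hg, e⟩ := gleason_step Nat.prime_two (Dx X (s : Set Φ)) (s : Set Φ)ᶜ (Set.toFinite _)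
    (fun g hg u hu hh => hu ((Dx_le_St hg u).1 hh)) (fun u hu => by
      obtain ⟨C, hC, h1, h2⟩ := exists_blk' h (T := (s : Set Φ)) (z := u)
        (by rw [Set.ncard_coe_finset, hs]) (fun hh => hu hh)
      obtain ⟨a, ha, a1⟩ := h.exists_om hC
      refine ⟨Pz X 2 C, Pz_le_Dx.trans (fixingSubgroup_antitone _ _ h1), h.isPGroup hC.1,
        fun g hg => mem_Dx.1 (Pz_le_Dx hg) u h2, fun v hv hf => ?_⟩
      have h3 : v ∈ C := h.fx_eq hC ha.1 a1 ▸ mem_Fx.2 (hf a ha.1)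
      have h4 : insert u (s : Set Φ) = C := Set.eq_of_subset_of_ncard_le (Set.insert_subset h2 h1)
        (by rw [h.card_blk hC, Set.ncard_insert_of_notMem hu, Set.ncard_coe_finset, hs])
      rw [← h4] at h3
      exact h3.resolve_right hv) (x := x) (y := y) hx hy
  exact ⟨g, mem_Dx.1 hg, e⟩

theorem SR.V4 (h : SR X Φ 4) {B : Set Φ} (hB : Blk X B) (h3 : 2 < Nat.card (Om (Pz X 2 B))) :
    Nat.card (Pz X 2 B) = 4 ∧ ∀ a ∈ Pz X 2 B, a * a = 1 := by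
  obtain ⟨a, ha, a1⟩ := h.exists_om hB
  obtain ⟨z, hz⟩ := exists_not_mem h hB
  obtain ⟨x, y, hx, hy, xy⟩ := (Set.one_lt_ncard_iff (s := B)).1 (by rw [h.card_blk hB]; omega)
  obtain ⟨C, hC, hx', hy', hz', haz, -, -, -, t, ht, t1, -, htB⟩ :=
    h.pair hB ha.1 a1 ha.2.1 hz hx hy xy
  have t2 := ht.2.1
  have hSt : t ∈ St X B := mem_St_of_sq t2 htB
  have hout : ∀ r ∈ Pz X 2 B, r • z ∉ B := fun r hr hh => hz ((Dx_le_St (Pz_le_Dx hr) z).1 hh)
  have hcen : ∀ r ∈ Pz X 2 B, r * t = t * r → r = 1 ∨ r = a := fun r hr hc => by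
    by_cases e : r • z = z
    · exact Or.inl (free h hB hr hz e)
    refine Or.inr (inj h hB hr ha.1 hz (four_eq (h.card_blk hC) hx' hy' hz' ?_ haz xy
      (fun e => hz (e ▸ hx)) (fun e => hz (e ▸ hy)) (fun e => hout r hr (e ▸ hx))
      (fun e => hout r hr (e ▸ hy)) (Ne.symm e) (fun e => hout a ha.1 (e ▸ hx))
      (fun e => hout a ha.1 (e ▸ hy)) fun e => a1 (free h hB ha.1 hz e.symm)))
    exact (h.fx_eq hC ht.1 t1 ▸ mem_St_Fx hc z).2 hz'
  have hcm : ∀ r, r * t * r⁻¹ * t⁻¹ ∈ Om (Pz X 2 B) → r * t = t * r ∨ r * t * r⁻¹ = a * t :=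
    fun r hr => (hcen _ hr.1 (comm_of_sq t2 hr.2.1)).imp
      (fun e => mul_inv_eq_iff_eq_mul.1 (mul_inv_eq_one.1 e))
      fun e => mul_inv_eq_iff_eq_mul.1 e
  have hA : ∀ r ∈ Om (Pz X 2 B), r * t * r⁻¹ * t⁻¹ ∈ Om (Pz X 2 B) := fun r hr => by
    simpa [mul_assoc] using mul_mem hr (conj_Om h hB hSt (inv_mem hr))
  obtain ⟨b, hb, hb'⟩ : ∃ b ∈ (Om (Pz X 2 B) : Set X), b ∉ ({1, a} : Set X) :=
    Set.not_subset.1 fun hs => by
      have := Set.ncard_le_ncard hs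
      rw [Set.ncard_pair a1.symm] at this
      exact h3.not_ge this
  have eb : b * t * b⁻¹ = a * t := (hcm b (hA b hb)).resolve_left fun e => hb' (hcen b hb.1 e)
  have key : ∀ r ∈ Pz X 2 B, r * t * r⁻¹ * t⁻¹ ∈ Om (Pz X 2 B) → r ∈ ({1, a, b, b * a} : Set X) :=
    fun r hr hh => by
      rcases hcm r hh with e | e
      · rcases hcen r hr e with rfl | rfl <;> simp
      · have h1 : b⁻¹ * r * t = t * (b⁻¹ * r) := by
          calc b⁻¹ * r * t = b⁻¹ * (r * t * r⁻¹) * r := by group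
            _ = t * (b⁻¹ * r) := by rw [e, ← eb]; group
        rcases hcen _ (mul_mem (inv_mem hb.1) hr) h1 with e | e
        · simp [inv_mul_eq_one.1 e]
        · simp [inv_mul_eq_iff_eq_mul.1 e]
  have hsub : ({1, a, b, b * a} : Set X) ⊆ Om (Pz X 2 B) := by
    simp only [Set.insert_subset_iff, Set.singleton_subset_iff]
    exact ⟨one_mem _, ha, hb, mul_mem hb ha⟩
  have hnR : zpowers t ≤ normalizer (Pz X 2 B : Set X) :=
    zpowers_le.2 (mem_normalizer_of_cj_le (cj_le_iff.2 fun r hr => conj_Pz h hB hSt hr))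
  have hnA : zpowers t ≤ normalizer (Om (Pz X 2 B) : Set X) :=
    zpowers_le.2 (mem_normalizer_of_cj_le (cj_le_iff.2 fun r hr => conj_Om h hB hSt hr))
  have hzt : ∀ u ∈ zpowers t, u ∈ Pz X 2 B → u = 1 := fun u hu hR =>
    free h hB hR hz (mem_Dx.1 (Pz_le_Dx ((zpowers_le.2 ht.1) hu)) z hz')
  have hRA : Pz X 2 B = Om (Pz X 2 B) := by
    refine le_antisymm ?_ Om_le_self
    by_contra hn
    have hlt : Om (Pz X 2 B) ⊔ zpowers t < Pz X 2 B ⊔ zpowers t :=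
      lt_of_le_of_ne (sup_le_sup_right Om_le_self _) fun e => hn fun r hr => by
        obtain ⟨c, hc, u, hu, rfl⟩ := (Solv.mem_sup_of_le_normalizer hnA).1 (e.ge (mem_sup_left hr))
        rwa [hzt u hu (by simpa using mul_mem (inv_mem hc.1) hr), mul_one]
    have := Fact.mk Nat.prime_two
    obtain ⟨n, hn1, hn2⟩ := SetLike.exists_of_lt (lt_inf_normalizer (IsPGroup.to_sup_of_normal_left'
      (h.isPGroup hB.1) ((h.isPGroup hC.1).to_le (zpowers_le.2 ht.1)) hnR) hlt)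
    obtain ⟨r, hr, u, hu, rfl⟩ := (Solv.mem_sup_of_le_normalizer hnR).1 hn1.1
    have hr' : r ∈ normalizer ((Om (Pz X 2 B) ⊔ zpowers t : Subgroup X) : Set X) := by
      simpa using mul_mem (mem_inf.1 hn1).2 (inv_mem (le_normalizer (mem_sup_right hu)))
    obtain ⟨c, hc, v, hv, e⟩ := (Solv.mem_sup_of_le_normalizer hnA).1 (mul_mem
      (mem_normalizer_conj hr' (mem_sup_right (mem_zpowers t))) (inv_mem (mem_sup_right (mem_zpowers t))))
    have h1 : r * t * r⁻¹ * t⁻¹ ∈ Pz X 2 B := by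
      simpa [mul_assoc] using mul_mem hr (conj_Pz h hB hSt (inv_mem hr))
    rw [hzt v hv (by simpa using mul_mem (inv_mem hc.1) (e.symm ▸ h1 : c * v ∈ _)), mul_one] at e
    exact hn2 (mul_mem (mem_sup_left (hsub (key r hr (e ▸ hc)))) (mem_sup_right hu))
  refine ⟨?_, fun r hr => (hRA.le hr).2.1⟩
  have h1 : (Om (Pz X 2 B) : Set X).ncard ≤ 4 :=
    (Set.ncard_le_ncard fun r hr => key r hr.1 (hA r hr)).trans ((Set.ncard_insert_le _ _).trans (Nat.succ_le_succ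
      ((Set.ncard_insert_le _ _).trans (Nat.succ_le_succ ((Set.ncard_insert_le _ _).trans (by simp))))))
  have h2 : 2 ∣ Nat.card (Om (Pz X 2 B)) := by
    have := orderOf_dvd_natCard _ ha
    rwa [orderOf_eq_prime (by rw [pow_two, ha.2.1]) a1] at this
  change Nat.card (Om (Pz X 2 B)) ≤ 4 at h1
  rw [hRA]
  omega

theorem SR.card23 (h : SR X Φ 7) (_faith : ∀ g : X, (∀ x : Φ, g • x = x) → g = 1)
    (hc : ∀ B : Set Φ, Blk X B → ∀ g ∈ Dx X B, ∀ a ∈ Om (Pz X 2 B), g * a = a * g)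
    (h16 : ∀ B : Set Φ, Blk X B → Nat.card (Om (Pz X 2 B)) = 16) :
    Nat.card Φ = 23 ∧ IsMultiplyPretransitive X Φ 4 := by
  have h23 : Nat.card Φ = 23 := by
    obtain ⟨s, -, hs⟩ := Set.exists_subset_card_eq (s := (Set.univ : Set Φ)) (n := 4)
      (by have := h.lt; rw [Set.ncard_univ]; omega)
    obtain ⟨B, hB, -⟩ := h.exists_blk hs
    rw [← Set.ncard_add_ncard_compl B, h.card_blk hB, ncard_compl h h16 hc hB]
  have := Fintype.ofFinite Φ
  refine ⟨h23, isMultiplyPretransitive_of_forall_fix_card (k := 3)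
    (by rw [← Nat.card_eq_fintype_card, h23]; omega) fun s hs x y hx hy => ?_⟩
  have hT : (s : Set Φ).ncard = 3 := by rw [Set.ncard_coe_finset, hs]
  obtain ⟨C, hC, h1, hxC⟩ := exists_blk' h hT hx
  obtain ⟨D, hD, h2, hyD⟩ := exists_blk' h hT hy
  obtain ⟨u, hu⟩ := Set.nonempty_of_ncard_ne_zero (s := (C ∪ D)ᶜ) (by
    have h3 := Set.ncard_add_ncard_compl (C ∪ D)
    have h4 := Set.ncard_union_le C D
    rw [h.card_blk hC, h.card_blk hD] at h4
    omega)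
  obtain ⟨B, hB, h3, huB⟩ := exists_blk' h hT (z := u) fun hh => hu (Or.inl (h1 hh))
  have hxB : x ∉ B := fun hh => hu (Or.inl (blk_eq' h hB hC hT h3 h1 hx hh hxC ▸ huB))
  have hyB : y ∈ Bᶜ := fun hh => hu (Or.inr (blk_eq' h hB hD hT h3 h2 hy hh hyD ▸ huB))
  have e : (fun v : X => v • x) '' (Om (Pz X 2 B) : Set X) = Bᶜ :=
    Set.eq_of_subset_of_ncard_le (by
      rintro _ ⟨a, ha, rfl⟩ hh
      exact hxB ((Dx_le_St (Pz_le_Dx ha.1) x).1 hh))
      (by rw [ncard_compl h h16 hc hB, ncard_orb h hB Om_le_self hxB, h16 B hB])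
  obtain ⟨a, ha, e⟩ := e.ge hyB
  exact ⟨a, fun w hw => mem_Dx.1 (Pz_le_Dx ha.1) w (h3 hw), e⟩

end Cfsg.Lib.Fr4
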