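import Cfsg.Agent.Fr4.R3
import Cfsg.Agent.Fr4.SR2
import Cfsg.Agent.S0413
import Cfsg.Agent.S1664

/-!
# Four-fold transitive groups with a Frobenius four-point stabiliser: blocks of size seven
-/

set_option autoImplicit false
set_option linter.unusedSectionVars false

namespace Cfsg.Lib.Fr4

open MulAction Subgroup Cfsg.Lib.Perm Cfsg.Lib.Trans
open scoped Pointwise

variable {G Ω : Type*} [Group G] [MulAction G Ω] [Finite G] [Finite Ω] {m k : ℕ}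
  {s U B : Set Ω} {Q : Subgroup G} {a ρ η : G} {z w t : Ω}

theorem CB.exists_even (h : CB G Ω m 7) (hB : GB G B) {w t1 t2 t3 s1 s2 s3 : Ω}
    (nd : [w, t1, t2, t3, s1, s2, s3].Nodup) (hs : ∀ x ∈ [w, t1, t2, t3, s1, s2, s3], x ∈ B) :
    ∃ g : G, (∀ x ∈ B, g • x ∈ B) ∧ g • w = w ∧ g • t1 = s1 ∧ g • t2 = s3 ∧ g • t3 = s2 ∧
      g • s1 = t1 ∧ g • s2 = t2 ∧ g • s3 = t3 := by
  classical
  have := Fintype.ofFinite (FixT Ω (Pz G 2 B))
  obtain ⟨U, h1, hU⟩ := exists_sub_four hB.four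
  have hA := (h.hallP hB hU h1).2.2.2.2 rfl
  have key : ∀ x ∈ [w, t1, t2, t3, s1, s2, s3], ∃ v : FixT Ω (Pz G 2 B), (v : Ω) = x :=
    fun x hx => ⟨⟨x, (h.Fs_P hB).ge (hs x hx)⟩, rfl⟩
  obtain ⟨w, rfl⟩ := key w (by simp)
  obtain ⟨t1, rfl⟩ := key t1 (by simp)
  obtain ⟨t2, rfl⟩ := key t2 (by simp)
  obtain ⟨t3, rfl⟩ := key t3 (by simp)
  obtain ⟨s1, rfl⟩ := key s1 (by simp)
  obtain ⟨s2, rfl⟩ := key s2 (by simp)
  obtain ⟨s3, rfl⟩ := key s3 (by simp)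
  simp only [List.nodup_cons, List.mem_cons, List.not_mem_nil, not_or, Subtype.coe_inj] at nd
  obtain ⟨⟨a1, a2, a3, a4, a5, a6, -⟩, ⟨b1, b2, b3, b4, b5, -⟩, ⟨c1, c2, c3, c4, -⟩, ⟨d1, d2, d3, -⟩,
    ⟨e1, e2, -⟩, ⟨f1, -⟩, -⟩ := nd
  obtain ⟨g, hg, e⟩ : Equiv.swap t1 s1 * (Equiv.swap t2 s2 * (Equiv.swap t2 t3 * Equiv.swap t2 s3)) ∈
      resX Ω (Pz G 2 B) := by
    rw [hA, Equiv.Perm.mem_alternatingGroup]
    simp [*]
  refine ⟨g, h.smul_mem_of_norm hB hg, ?_, ?_, ?_, ?_, ?_, ?_, ?_⟩ <;> rw [← e] <;>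
    simp [Equiv.swap_apply_def, *, eq_comm]

theorem R3.exists_s (h : R3 G m 7 Q B a z ρ η w t) : ∃ u, (η • u = ρ • u ∨ η⁻¹ • u = ρ • u) ∧
    [w, t, ρ • t, ρ • ρ • t, u, ρ • u, ρ • ρ • u].Nodup ∧
      B = {w, t, ρ • t, ρ • ρ • t, u, ρ • u, ρ • ρ • u} := by
  have h7 := h.card_gb h.gb
  obtain ⟨u, hu, h1⟩ : ∃ u ∈ B, η • u ≠ u := by
    by_contra hc
    push Not at hc
    have := h.eq_one h7.ge η (mem_Dx.2 hc) (PE.of_orderOf h.oη)
    have h2 := h.oη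
    rw [this, orderOf_one] at h2
    omega
  have h2 : u ∉ ({w, t, ρ • t, ρ • ρ • t} : Set Ω) := fun e => h1 (mem_Dx.1 h.ηD u e)
  have h3 := LQ.smul_notMem h.Uρ h2
  have h4 := LQ.smul_notMem h.Uρ h3
  have h5 := nodup_cyc h.oρ (h.ρne hu fun e => h2 (Or.inl e))
  have h6 : B \ {w, t, ρ • t, ρ • ρ • t} = {u, ρ • u, ρ • ρ • u} :=
    (Set.eq_of_subset_of_ncard_le (by
      rintro x (rfl | rfl | rfl)
      exacts [⟨hu, h2⟩, ⟨h.ps.st _ hu, h3⟩, ⟨h.ps.st _ (h.ps.st _ hu), h4⟩])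
      (by rw [Set.ncard_sdiff h.UB, h7, h.U4, ncard_three h5])).symm
  refine ⟨u, ?_, ?_, ?_⟩
  · rcases h6.le ⟨h.ηB u hu, LQ.smul_notMem (fun x hx => by rwa [mem_Dx.1 h.ηD x hx]) h2⟩ with
      e | e | e
    · exact absurd e h1
    · exact Or.inl e
    · exact Or.inr (by
        rw [inv_smul_eq_iff, ← mul_smul, ← h.cm, mul_smul, (e : η • u = _), smul3 h.oρ])
  · refine List.Nodup.append h.nd h5 fun x hx hx' => ?_
    simp only [List.mem_cons, List.not_mem_nil, or_false] at hx hx'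
    rcases hx' with rfl | rfl | rfl
    exacts [h2 hx, h3 hx, h4 hx]
  · rw [← Set.union_sdiff_cancel h.UB, h6]
    simp only [Set.insert_union, Set.singleton_union]

theorem R3.seven' (h : R3 G m 7 Q B a z ρ η w t) {u : Ω} (hu : η • u = ρ • u)
    (nd : [w, t, ρ • t, ρ • ρ • t, u, ρ • u, ρ • ρ • u].Nodup)
    (hB : B = {w, t, ρ • t, ρ • ρ • t, u, ρ • u, ρ • ρ • u}) :
    Om (Pz G 2 B) = Pz G 2 B ∧ Nat.card (Pz G 2 B) = 16 := by
  have := Fact.mk Nat.prime_three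
  have h7 := h.card_gb h.gb
  have cm' : ∀ x : Ω, η • ρ • x = ρ • η • x := fun x => by rw [← mul_smul, ← h.cm, mul_smul]
  obtain ⟨g0, g1, e1, e2, e3, e4, e5, e6, e7⟩ := h.exists_even h.gb nd (fun x hx => by
    rw [hB]; simpa using hx)
  have hst : ∀ x ∈ B, (ρ * η) • x ∈ B := fun x hx => by
    rw [mul_smul]; exact h.ps.st _ (h.ηB x hx)
  obtain ⟨d, hd, e⟩ := conj3 (h.eq_one h7.ge) (h.ps.pe.conj g0) (PE.of_orderOf h.o3) hst (by
    have key : ∀ x ∈ B, g0 • ρ • x = ρ • η • g0 • x := by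
      intro x hx
      rw [hB] at hx
      rcases hx with rfl | rfl | rfl | rfl | rfl | rfl | rfl <;>
        simp only [h.ρw, h.ηw, h.ηt, smul3 h.oρ, e1, e2, e3, e4, e5, e6, e7, cm', hu]
    intro x hx
    obtain ⟨y, hy, rfl⟩ := (image_eq_of_mem g1).ge hx
    rw [conj_smul_smul, key y hy, mul_smul])
  obtain ⟨g, hg, eg⟩ : ∃ g ∈ normalizer (Pz G 2 B : Set G), g * ρ * g⁻¹ = ρ * η :=
    ⟨d * g0, mul_mem (mem_normalizer_Pz fun x hx => by rwa [mem_Dx.1 hd x hx])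
      (mem_normalizer_Pz g1), by rw [← e]; group⟩
  have tr1 : ∀ c : G, ρ * η * c = c * (ρ * η) → ρ * (g⁻¹ * c * g⁻¹⁻¹) = g⁻¹ * c * g⁻¹⁻¹ * ρ :=
    fun c ec => by
      calc _ = g⁻¹ * (g * ρ * g⁻¹ * c) * g := by group
        _ = _ := by rw [eg, ec, ← eg]; group
  have hV : ({w, u, ρ • u, ρ • ρ • u} : Set Ω) ⊆ B := by
    rw [hB]
    rintro x (rfl | rfl | rfl | rfl) <;> simp
  have c4 : ∀ c ∈ Pz G 2 B, ρ * η⁻¹ * c = c * (ρ * η⁻¹) → c = 1 := fun c hc ec =>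
    h.fpfP (ncard_four (List.Nodup.sublist
      (.cons_cons _ (.cons _ (.cons _ (.cons _ (.refl _))))) nd)).ge (mem_Dx.2 (by
      rintro x (rfl | rfl | rfl | rfl) <;>
        rw [← (Commute.inv_right h.cm).eq.symm, mul_smul, inv_smul_eq_iff] <;>
        simp only [h.ρw, h.ηw, cm', hu])) (h.ncp h.inv.o3.symm.dvd) (Dx_anti hV (Pz_le 2 B hc))
      (h.pe h.gb.four hc) ec
  have nρ := mem_normalizer_Pz (r := 2) h.ps.st
  have nη := mem_normalizer_Pz (r := 2) h.ηB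
  obtain ⟨c, hc, c1, c2⟩ : ∃ c ∈ Om (Pz G 2 B), c ≠ 1 ∧ ρ * c = c * ρ := by
    by_contra hc
    push Not at hc
    refine Om_ne_bot (h.pg h.gb.four) (h.P_ne h.gb) (eq_bot_iff.2 (h.genP (Om_le _)
      (mem_normalizer_fintype fun c hc => conj_mem_Om nρ hc)
      (mem_normalizer_fintype fun c hc => conj_mem_Om nη hc)
      (fun c h1 ec => by_contra fun h2 => hc c h1 h2 ec) (fun c h1 ec => by_contra fun h2 => ?_)
      fun c h1 ec => c4 c h1.1 ec))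
    exact hc _ (conj_mem_Om (inv_mem hg) h1) (mt conj_eq_one_iff.1 h2) (tr1 c ec)
  have k1 : ∀ d ∈ Pz G 2 B, ρ * d = d * ρ → d ∈ Om (Pz G 2 B) := fun d hd ed =>
    h.cent_le (Om_le _) (fun c hc => conj_mem_Om nη hc) hc c1 c2 hd ed
  have k2 : Om (Pz G 2 B) = Pz G 2 B := le_antisymm (Om_le _) (h.genP le_rfl nρ nη k1
    (fun c hc ec => by
      simpa [mul_assoc] using conj_mem_Om hg (k1 _ (mem_normalizer_conj (inv_mem hg) hc) (tr1 c ec)))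
    fun c hc ec => c4 c hc ec ▸ one_mem _)
  refine ⟨k2, ?_⟩
  have k3 : Nat.card (Pz G 2 B ⊓ centralizer ({ρ} : Set G) : Subgroup G) = 4 :=
    h.card_four inf_le_left (fun c hc => mem_centralizer_singleton_iff.1 hc.2)
      (fun c hc => ⟨mem_normalizer_conj nη hc.1, h.conj_cent hc.2⟩) fun e0 => c1 (mem_bot.1 (e0 ▸
        (⟨hc.1, mem_centralizer_singleton_iff.2 c2.symm⟩ : c ∈ _ ⊓ centralizer ({ρ} : Set G))))
  set A : Subgroup G := Pz G 2 B ⊓ centralizer ({ρ} : Set G)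
  have k4 : cj g A ≤ Pz G 2 B := cj_le_iff.2 fun c hc => mem_normalizer_conj hg hc.1
  have k5 : Pz G 2 B = A ⊔ cj g A := le_antisymm (h.genP le_rfl nρ nη
    (fun c hc ec => mem_sup_left ⟨hc, mem_centralizer_singleton_iff.2 ec.symm⟩)
    (fun c hc ec => mem_sup_right (mem_cj.2 ⟨mem_normalizer_conj' hg hc,
      mem_centralizer_singleton_iff.2 (by simpa using (tr1 c ec).symm)⟩))
    fun c hc ec => c4 c hc ec ▸ one_mem _) (sup_le inf_le_left k4)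
  rw [k5, Solv.Coprime.card_sup (K := A) (fun c hc => centralizer_le_normalizer _ fun d hd =>
    (k2.ge (k4 hc)).2.2 d hd.1) (disjoint_def.2 fun {c} h1 h2 => ?_), card_cj, k3]
  have e1 : c * ρ = ρ * c := mem_centralizer_singleton_iff.1 h1.2
  have e2 : g⁻¹ * c * g * ρ = ρ * (g⁻¹ * c * g) := mem_centralizer_singleton_iff.1 (mem_cj.1 h2).2
  refine h.ηfpfP h1.1 (mul_left_cancel (a := ρ) ?_)
  calc ρ * (η * c) = g * (ρ * (g⁻¹ * c * g)) * g⁻¹ := by rw [← mul_assoc, ← eg]; group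
    _ = c * (ρ * η) := by rw [← e2, ← eg]; group
    _ = _ := by rw [← mul_assoc, e1, mul_assoc]

theorem CB.exists_image (h : CB G Ω m k) (hB : GB G B) {B' : Set Ω} (hB' : GB G B') :
    ∃ g : G, (g • ·) '' B = B' := by
  obtain ⟨U, hU, rfl⟩ := hB
  obtain ⟨V, hV, rfl⟩ := hB'
  obtain ⟨g, rfl⟩ := exists_image_eq h.tr hU hV
  exact ⟨g, by rw [← cj_Pz, Fs_cj]⟩

theorem LQ.exists_r3 (h : LQ G Ω m k Q) (hB : GB G B) (hBΦ : B ⊆ Fs Ω Q) (Y : Subgroup G)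
    (hY : ∀ B' : Set Ω, GB G B' → B' ⊆ Fs Ω Q → ∀ g ∈ Pz G 2 B',
      g ∈ normalizer (Q : Set G) → g ∈ Y) :
    ∃ a : G, ∀ z ∈ Fs Ω Q, z ∉ B → ∃ ρ ∈ Y, ∃ η w t, R3 G m k Q B a z ρ η w t := by
  obtain ⟨a, ha⟩ := h.exists_sc hB hBΦ
  refine ⟨a, fun z hz hzB => ?_⟩
  obtain ⟨ρ, h1, h2⟩ := (ha z hz hzB).psi (r := 3) (by have := h.cases.1; omega) Y hY
  exact ⟨ρ, h1, (ha z hz hzB).r3 h2⟩

theorem LQ.seven (h : LQ G Ω m 7 Q) (hB : GB G B) :
    Om (Pz G 2 B) = Pz G 2 B ∧ Nat.card (Pz G 2 B) = 16 := by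
  obtain ⟨C, hC, hCΦ⟩ := h.exists_blk
  obtain ⟨a, ha⟩ := h.exists_r3 hC hCΦ ⊤ fun _ _ _ _ _ _ => mem_top _
  obtain ⟨z, hz, hzC⟩ := h.exists_out hC
  obtain ⟨ρ, -, η, w, t, h1⟩ := ha z hz hzC
  obtain ⟨u, hu, nd, e⟩ := h1.exists_s
  obtain ⟨h2, h3⟩ := hu.elim (fun hu => h1.seven' hu nd e) fun hu => h1.inv.seven' hu nd e
  obtain ⟨g, rfl⟩ := h.exists_image hC hB
  rw [← cj_Pz, card_cj]
  refine ⟨le_antisymm (Om_le _) fun x hx => ⟨hx, ?_, fun y hy => ?_⟩, h3⟩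
  · have := (h2.ge (mem_cj.1 hx)).2.1
    calc x * x = g * (g⁻¹ * x * g * (g⁻¹ * x * g)) * g⁻¹ := by group
      _ = 1 := by rw [this]; group
  · have := (h2.ge (mem_cj.1 hx)).2.2 _ (mem_cj.1 hy)
    calc y * x = g * (g⁻¹ * y * g * (g⁻¹ * x * g)) * g⁻¹ := by group
      _ = _ := by rw [this]; group

theorem LQ.seven_bot (h : LQ G Ω m 7 Q) : Q = ⊥ := by
  obtain ⟨C, hC, hCΦ⟩ := h.exists_blk
  obtain ⟨a, ha⟩ := h.exists_r3 hC hCΦ (centralizer Q) fun B hB h1 g hg _ q hq =>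
    ((h.seven hB).1.ge hg).2.2 q (h.le_P h1 hq)
  obtain ⟨z, hz, hzC⟩ := h.exists_out hC
  obtain ⟨ρ, hρ, η, w, t, h1⟩ := ha z hz hzC
  obtain ⟨b, b1, -, b3, b4, -⟩ := h1.exists_b Nat.prime_three (by norm_num) h1.ps
  refine eq_bot_iff.2 fun q hq => by_contra fun h2 => b3 ?_
  exact h1.cent_le (h.le_P hCΦ) (fun c hc => mem_normalizer_conj h1.ηM hc) hq h2 (hρ q hq).symm b1 b4

theorem LQ.seven_cent (h : LQ G Ω m 7 Q) (hB : GB G B) {g : G} (hg : g ∈ Dx G B) : Cp m g := by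
  by_contra hc
  have := Fact.mk Nat.prime_three
  have hBΦ : B ⊆ Fs Ω Q := fun x _ q hq => by rw [h.seven_bot, mem_bot] at hq; rw [hq, one_smul]
  obtain ⟨a, ha⟩ := h.exists_r3 hB hBΦ ⊤ fun _ _ _ _ _ _ => mem_top _
  obtain ⟨z, hz, hzC⟩ := h.exists_out hB
  obtain ⟨ρ, -, η, w, t, h1⟩ := ha z hz hzC
  have h0 := h1.eq_one (h.card_gb hB).ge
  obtain ⟨p, hp, hd, j, hj⟩ := exists_prime_pow (g := g) (fun e => hc (by simp [e, Cp]))
  have hm := hd.trans (h.dvd hB.four hg hc)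
  obtain ⟨y, hy, oy, o, ho, po, e⟩ := h.comm_lift (by norm_num) hB Nat.prime_three (by norm_num)
    h1.ps.pe h1.ps.st (fun a ha b hb pa pb => by rw [h0 a ha pa, one_mul]; exact pb) hp hm
    (pow_mem hg j) hj
  rw [h0 o ho po, one_mul] at e
  obtain ⟨b, b1, -, b3, b4, -⟩ := h1.exists_b Nat.prime_three (by norm_num) h1.ps
  have k3 : Nat.card (Pz G 2 B ⊓ centralizer ({ρ} : Set G) : Subgroup G) = 4 :=
    h1.card_four inf_le_left (fun c hc => mem_centralizer_singleton_iff.1 hc.2)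
      (fun c hc => ⟨mem_normalizer_conj (mem_normalizer_Pz h1.ηB) hc.1, h1.conj_cent hc.2⟩)
      fun e0 => b3 (mem_bot.1 (e0.le ⟨b1, mem_centralizer_singleton_iff.2 b4.symm⟩) ▸ Q.one_mem)
  have e' := mem_centralizer_singleton_iff.2 e.symm
  have k4 := dvd_card_sub_one hp oy (A := Pz G 2 B ⊓ centralizer ({ρ} : Set G))
    (fun c hc => ⟨mem_normalizer_conj (mem_normalizer_Pz fun x hx => by rwa [mem_Dx.1 hy x hx]) hc.1,
      Subgroup.mul_mem _ (Subgroup.mul_mem _ e' hc.2) (Subgroup.inv_mem _ e')⟩)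
    fun c hc ec => h.fpfP hB.four hy (not_cp_of_dvd hp hm oy.symm.dvd) (Pz_le 2 B hc.1)
      (h.pe hB.four hc.1) ec
  rw [k3] at k4
  have k5 := (Nat.prime_dvd_prime_iff_eq hp Nat.prime_three).1 k4
  rw [h0 y hy (PE.of_orderOf (k5 ▸ oy)), orderOf_one] at oy
  omega

theorem LQ.Fx_bot (h : LQ G Ω m k ⊥) {c : G} (h1 : c ≠ 1) (pc : PE 2 c) (hU : U.ncard = 4)
    (hc : U ⊆ Fx Ω c) : Fx Ω c = Fs Ω (Pz G 2 U) := by
  have hB : GB G (Fs Ω (Pz G 2 U)) := ⟨U, hU, rfl⟩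
  have e : Fs Ω (⊥ : Subgroup G) = Set.univ := Set.eq_univ_of_forall fun x q hq => by
    rw [mem_bot.1 hq, one_smul]
  have := h.Fx_inter hB (e ▸ Set.subset_univ _) (h.P_eq hB hU.ge (subset_Fs_Pz 2 U) ▸
    mem_Pz_of (mem_Dx_iff.2 hc) pc) (mt mem_bot.1 h1)
  rwa [e, Set.univ_inter] at this

theorem LQ.sr_bot (h : LQ G Ω m k ⊥) : SR G Ω k where
  mul s hs := h.PE_mul hs Nat.prime_two h.not_two
  ex s hs := by
    obtain ⟨⟨c, hc⟩, h1⟩ := ne_bot_iff_exists_ne_one.1 (h.ne s hs)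
    exact ⟨c, Pz_le 2 s hc, fun e => h1 (Subtype.ext e), h.pe hs.ge hc⟩
  fix c h1 pc h4 := by
    obtain ⟨U, h2, hU⟩ := exists_sub_four h4
    rw [h.Fx_bot h1 pc hU h2, h.blk U hU]
  same c d h1 h2 pc pd h4 := by
    obtain ⟨U, h3, hU⟩ := exists_sub_four h4
    rw [h.Fx_bot h1 pc hU (h3.trans Set.inter_subset_left),
      h.Fx_bot h2 pd hU (h3.trans Set.inter_subset_right)]
  lt := h.lt_card

theorem LQ.card23 (h : LQ G Ω m 7 Q) : Nat.card Ω = 23 := by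
  obtain rfl := h.seven_bot
  have key : ∀ B : Set Ω, Blk G B → GB G B := by
    rintro _ ⟨h4, c, h1, pc, rfl⟩
    obtain ⟨U, h2, hU⟩ := exists_sub_four h4
    exact ⟨U, hU, (h.Fx_bot h1 pc hU h2).symm⟩
  refine (h.sr_bot.card23 h.faith (fun B hB g hg c hc => ?_) fun B hB => ?_).1
  · have hB' := key B hB
    refine (mem_centralizer_singleton_iff.1 (mem_of_forall_PE fun p hp i hi => ?_))
    refine mem_centralizer_singleton_iff.2 ?_
    by_cases h2 : p = 2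
    · exact hc.2.2 _ (mem_Pz_of (pow_mem hg i) (h2 ▸ hi))
    obtain ⟨j, hj⟩ := (h.pe hB.1 hc.1).orderOf_eq Nat.prime_two
    exact h.comm hB.1 (pow_mem hg i) (Pz_le 2 B hc.1) (h.seven_cent hB' (pow_mem hg i))
      (h.cp (h.pe hB.1 hc.1)) (hi.coprime hp fun e => h2 ((Nat.prime_dvd_prime_iff_eq hp
        Nat.prime_two).1 (hp.dvd_of_dvd_pow (hj ▸ e))))
  · rw [(h.seven (key B hB)).1, (h.seven (key B hB)).2]

theorem LQ.isoM23 (h : LQ G Ω m 7 Q) : Cfsg.Spor.IsoM23 G := by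
  classical
  have := Fintype.ofFinite Ω
  have h23 := h.card23
  let S : Set (Finset Ω) := {b | GB G (b : Set Ω)}
  have hS : Cfsg.IsSteinerSystem 4 7 S := by
    refine ⟨fun b hb => by rw [← Set.ncard_coe_finset, h.card_gb hb], fun u hu => ?_⟩
    have hu' : (u : Set Ω).ncard = 4 := by rw [Set.ncard_coe_finset, hu]
    obtain ⟨B, hB, h1⟩ := Fr4.exists_gb (G := G) hu'
    lift B to Finset Ω using B.toFinite
    refine ⟨B, ⟨hB, Finset.coe_subset.1 h1⟩, fun C hC => Finset.coe_injective (h.gb_eq hC.1 hB ?_)⟩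
    exact hu' ▸ Set.ncard_le_ncard (Set.subset_inter (Finset.coe_subset.2 hC.2) h1)
  obtain ⟨hM, -⟩ := Cfsg.Agent.S0413.result (by rw [← Nat.card_eq_fintype_card, h23]) hS
  have hle : ∀ g : G, toPermHom G Ω g • S ⊆ S := by
    rintro g _ ⟨b, hb, rfl⟩
    have := GB.image hb g
    change GB G ((toPermHom G Ω g • b : Finset Ω) : Set Ω)
    rwa [Finset.coe_smul_finset]
  have hmem : ∀ g : G, toPermHom G Ω g ∈ Cfsg.setSystemAut S := fun g =>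
    mem_stabilizer_iff.2 (Set.Subset.antisymm (hle g) (by
      have := hle g⁻¹
      rwa [map_inv, ← Set.subset_smul_set_iff] at this))
  obtain ⟨U, -, hU⟩ := exists_sub_four (s := (Set.univ : Set Ω)) (by rw [Set.ncard_univ]; omega)
  obtain ⟨B, hB, h1⟩ := Fr4.exists_gb (G := G) hU
  have h2 := card_eq_mul h.tr hU
  have h3 := card_dvd_of_le (Pz_le (G := G) 2 U)
  rw [h.P_eq hB hU.ge h1, (h.seven hB).2] at h3
  have h4 := h.cases.2.trans (h.dvd_card hU)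
  have h5 : 0 < Nat.card (Dx G U) := Nat.card_pos
  rw [h23] at h2
  have hinj : Function.Injective ((toPermHom G Ω).codRestrict _ hmem) :=
    (injective_iff_map_eq_one _).2 fun g hg => h.faith g fun x =>
      DFunLike.congr_fun (congrArg Subtype.val hg) x
  have e := MulEquiv.ofBijective _ ((Nat.bijective_iff_injective_and_card _).2 ⟨hinj,
    le_antisymm (Nat.card_le_card_of_injective _ hinj) (by
      rw [hM.2, h2]
      simp only [Nat.descFactorial]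
      omega)⟩)
  have := hM.1
  exact Cfsg.Agent.S1664.result ⟨e.isSimpleGroup, (Nat.card_congr e.toEquiv).trans hM.2⟩

end Cfsg.Lib.Fr4
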