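import Cfsg.Agent.Fr4.Util

/-!
# Four-fold transitive groups with a Frobenius four-point stabiliser: blocks of the local
configuration
-/

set_option autoImplicit false
set_option linter.unusedSectionVars false

namespace Cfsg.Lib.Fr4

open MulAction Subgroup Cfsg.Lib.Perm Cfsg.Lib.Trans

variable {X Φ : Type*} [Group X] [MulAction X Φ] [Finite X] [Finite Φ] {k : ℕ}

theorem SR.mem_Pz (h : SR X Φ k) {s : Set Φ} (hs : 4 ≤ s.ncard) {a : X} :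
    a ∈ Pz X 2 s ↔ a ∈ Dx X s ∧ PE 2 a := mem_Pz_iff (h.mul s hs)

theorem SR.isPGroup (h : SR X Φ k) {s : Set Φ} (hs : 4 ≤ s.ncard) : IsPGroup 2 (Pz X 2 s) :=
  isPGroup_of_PE fun _ hg => ((h.mem_Pz hs).1 hg).2

theorem SR.exists_blk (h : SR X Φ k) {s : Set Φ} (hs : s.ncard = 4) : ∃ B, Blk X B ∧ s ⊆ B := by
  obtain ⟨a, h1, h2, h3⟩ := h.ex s hs
  exact ⟨Fx Φ a, ⟨hs ▸ Set.ncard_le_ncard (mem_Dx_iff.1 h1), a, h2, h3, rfl⟩, mem_Dx_iff.1 h1⟩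

theorem SR.blk_eq (h : SR X Φ k) {B B' : Set Φ} (hB : Blk X B) (hB' : Blk X B')
    (h4 : 4 ≤ (B ∩ B').ncard) : B = B' := by
  obtain ⟨-, a, h1, h2, rfl⟩ := hB
  obtain ⟨-, b, h3, h5, rfl⟩ := hB'
  exact h.same a b h1 h3 h2 h5 h4

theorem SR.card_blk (h : SR X Φ k) {B : Set Φ} (hB : Blk X B) : B.ncard = k := by
  obtain ⟨h0, a, h1, h2, rfl⟩ := hB
  exact h.fix a h1 h2 h0

theorem SR.fx_eq (h : SR X Φ k) {B : Set Φ} (hB : Blk X B) {a : X} (ha : a ∈ Pz X 2 B)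
    (h1 : a ≠ 1) : Fx Φ a = B := by
  obtain ⟨h2, h3⟩ := (h.mem_Pz hB.1).1 ha
  obtain ⟨h0, b, h4, h5, rfl⟩ := hB
  refine h.same a b h1 h4 h3 h5 (h0.trans (Set.ncard_le_ncard ?_))
  exact Set.subset_inter (mem_Dx_iff.1 h2) le_rfl

theorem Blk.ne_bot {B : Set Φ} (hB : Blk X B) : Pz X 2 B ≠ ⊥ := by
  obtain ⟨-, b, h4, h5, rfl⟩ := hB
  exact fun e => h4 (mem_bot.1 (e ▸ mem_Pz_of (mem_Dx_iff.2 le_rfl) h5))

theorem Blk.image {B : Set Φ} (hB : Blk X B) (g : X) : Blk X ((g • ·) '' B) := by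
  obtain ⟨h0, b, h4, h5, rfl⟩ := hB
  exact ⟨by rwa [ncard_smul], g * b * g⁻¹, by simpa using h4, h5.conj g, Fx_conj g b⟩

theorem SR.om_ne_bot (h : SR X Φ k) {B : Set Φ} (hB : Blk X B) : Om (Pz X 2 B) ≠ ⊥ :=
  Om_ne_bot (h.isPGroup hB.1) hB.ne_bot

theorem SR.exists_om (h : SR X Φ k) {B : Set Φ} (hB : Blk X B) :
    ∃ a ∈ Om (Pz X 2 B), a ≠ 1 := by
  obtain ⟨⟨a, ha⟩, h1⟩ := ne_bot_iff_exists_ne_one.1 (h.om_ne_bot hB)
  exact ⟨a, ha, fun e => h1 (Subtype.ext e)⟩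

/-- An element stabilising four points of a block stabilises the block. -/
theorem SR.smul_mem_blk (h : SR X Φ k) {B : Set Φ} (hB : Blk X B) {s : Set Φ} (hs : 4 ≤ s.ncard)
    (hsB : s ⊆ B) {g : X} (hg : ∀ x ∈ s, g • x ∈ B) : ∀ x ∈ B, g • x ∈ B := by
  have h1 := h.blk_eq (hB.image g) hB (hs.trans ((ncard_smul g s).ge.trans (Set.ncard_le_ncard (by
    rintro _ ⟨x, hx, rfl⟩
    exact ⟨⟨x, hsB hx, rfl⟩, hg x hx⟩))))
  exact fun x hx => h1 ▸ ⟨x, hx, rfl⟩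

theorem SR.Pz_eq (h : SR X Φ k) {B : Set Φ} (hB : Blk X B) {s : Set Φ} (hs : 4 ≤ s.ncard)
    (hsB : s ⊆ B) : Pz X 2 s = Pz X 2 B := by
  refine le_antisymm (fun a ha => ?_) (Pz_anti hsB)
  obtain ⟨h2, h3⟩ := (h.mem_Pz hs).1 ha
  by_cases h1 : a = 1
  · exact h1 ▸ one_mem _
  have h4 := mem_Dx_iff.1 h2
  have h5 := h.blk_eq ⟨hs.trans (Set.ncard_le_ncard h4), a, h1, h3, rfl⟩ hB
    (hs.trans (Set.ncard_le_ncard (Set.subset_inter h4 hsB)))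
  exact mem_Pz_of (mem_Dx_iff.2 h5.ge) h3

/-- The basic pair of commuting involutions. -/
theorem SR.pair (h : SR X Φ k) {B : Set Φ} (hB : Blk X B) {a : X} (ha : a ∈ Pz X 2 B) (h1 : a ≠ 1)
    (h2 : a * a = 1) {z x y : Φ} (hz : z ∉ B) (hx : x ∈ B) (hy : y ∈ B) (hxy : x ≠ y) :
    ∃ B' : Set Φ, Blk X B' ∧ x ∈ B' ∧ y ∈ B' ∧ z ∈ B' ∧ a • z ∈ B' ∧ (∀ w ∈ B', a • w ∈ B') ∧
      (B ∩ B').ncard ≤ 3 ∧ (B ∩ B').ncard % 2 = k % 2 ∧
      ∃ a' ∈ Om (Pz X 2 B'), a' ≠ 1 ∧ a' * a = a * a' ∧ ∀ w ∈ B, a' • w ∈ B := by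
  have hF := h.fx_eq hB ha h1
  have haa : ∀ w : Φ, a • a • w = w := fun w => by rw [← mul_smul, h2, one_smul]
  have hz1 : a • z ≠ z := fun e => hz (hF ▸ e)
  have hz2 : a • z ∉ B := fun e => hz1 ((haa z).symm.trans (hF.ge e)).symm
  have hn : [x, y, z, a • z].Nodup := by
    simp only [List.nodup_cons, List.mem_cons, List.not_mem_nil, not_or, or_false,
      not_false_eq_true, List.nodup_nil, and_true]
    exact ⟨⟨hxy, fun e => hz (e ▸ hx), fun e => hz2 (e ▸ hx)⟩,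
      ⟨fun e => hz (e ▸ hy), fun e => hz2 (e ▸ hy)⟩, hz1.symm⟩
  obtain ⟨B', hB', hs⟩ := h.exists_blk (ncard_four hn)
  have hx' : x ∈ B' := hs (by simp)
  have hy' : y ∈ B' := hs (by simp)
  have hz' : z ∈ B' := hs (by simp)
  have haz' : a • z ∈ B' := hs (by simp)
  have hst : ∀ w ∈ B', a • w ∈ B' := h.smul_mem_blk hB' (ncard_four hn).ge hs (by
    rintro w (rfl | rfl | rfl | rfl)
    · rwa [hF.ge hx]
    · rwa [hF.ge hy]
    · exact haz'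
    · rwa [haa])
  refine ⟨B', hB', hx', hy', hz', haz', hst, ?_, ?_, ?_⟩
  · by_contra hc
    exact hz (h.blk_eq hB hB' (by omega) ▸ hz')
  · have := (PE.of_sq h2).ncard_modEq Nat.prime_two hst
    rw [hF, h.card_blk hB', Set.inter_comm] at this
    exact this.symm
  · obtain ⟨a', h3, h4, h5⟩ := exists_comm_ne_one Nat.prime_two (PE.of_sq h2)
      ((h.isPGroup hB'.1).to_le (Om_le _)) (h.om_ne_bot hB')
      fun b hb => conj_mem_Om (mem_normalizer_Pz hst) hb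
    exact ⟨a', h3, h4, h5.symm, fun w hw => hF ▸ smul_mem_Fx h5.symm (hF ▸ hw)⟩

end Cfsg.Lib.Fr4
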