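import Cfsg.Agent.Fr4.Blocks
import Cfsg.Agent.Fr4.SR0

/-!
# Four-fold transitive groups with a Frobenius four-point stabiliser: the local configuration
-/

set_option autoImplicit false
set_option linter.unusedSectionVars false

namespace Cfsg.Lib.Fr4

open MulAction Subgroup Cfsg.Lib.Perm Cfsg.Lib.Trans

/-- `Q` is maximal among the `2`-subgroups fixing more than `k` points. -/
structure LQ (G Ω : Type*) [Group G] [MulAction G Ω] (m k : ℕ) (Q : Subgroup G) : Prop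
    extends CB G Ω m k where
  pq : IsPGroup 2 Q
  ltq : k < (Fs Ω Q).ncard
  max : ∀ R : Subgroup G, IsPGroup 2 R → Q ≤ R → k < (Fs Ω R).ncard → R ≤ Q

variable {G Ω : Type*} [Group G] [MulAction G Ω] [Finite G] [Finite Ω] {m k r p : ℕ}
  {s U B : Set Ω} {Q : Subgroup G}

theorem CB.exists_LQ (h : CB G Ω m k) : ∃ Q : Subgroup G, LQ G Ω m k Q := by
  classical
  have := Fintype.ofFinite Ω
  obtain ⟨Q, hQ⟩ := exists_maxFix (G := G) (α := Ω) (k := k) 2 (by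
    rw [← Nat.card_eq_fintype_card]; exact h.lt_card)
  exact ⟨Q, h, hQ.isPGroup, hQ.lt_card, hQ.max⟩

theorem conj_pow_mem {x a : G} (hx : x ∈ normalizer (Q : Set G)) (h : a⁻¹ * (x * a * x⁻¹) ∈ Q)
    (n : ℕ) : a⁻¹ * (x ^ n * a * (x ^ n)⁻¹) ∈ Q := by
  induction n with
  | zero => simp
  | succ n ih =>
    have := mul_mem h (mem_normalizer_conj hx ih)
    convert this using 1
    rw [pow_succ']
    group

namespace LQ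

theorem not_dvd (h : LQ G Ω m k Q) (hr : r.Prime) (h2 : r ≠ 2) : ¬ r ∣ Nat.card Q := fun hd => by
  have := Fact.mk Nat.prime_two
  obtain ⟨n, hn⟩ := IsPGroup.iff_card.1 h.pq
  exact h2 ((Nat.prime_dvd_prime_iff_eq hr Nat.prime_two).1 (hr.dvd_of_dvd_pow (hn ▸ hd)))

theorem le_P (h : LQ G Ω m k Q) (hsΦ : s ⊆ Fs Ω Q) : Q ≤ Pz G 2 s :=
  fun _ hq => mem_Pz_of (le_Dx_iff.2 hsΦ hq) (PE.of_mem h.pq hq)

theorem gb_sub (h : LQ G Ω m k Q) (hB : GB G B) (hs : 4 ≤ s.ncard) (hsB : s ⊆ B)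
    (hsΦ : s ⊆ Fs Ω Q) : B ⊆ Fs Ω Q := fun _ hx _ hq =>
  (h.Fs_P hB).ge hx _ (h.P_eq hB hs hsB ▸ h.le_P hsΦ hq)

theorem exists_gb (h : LQ G Ω m k Q) (hU : U.ncard = 4) (hUΦ : U ⊆ Fs Ω Q) :
    ∃ B, GB G B ∧ U ⊆ B ∧ B ⊆ Fs Ω Q := by
  obtain ⟨B, hB, h1⟩ := Fr4.exists_gb (G := G) hU
  exact ⟨B, hB, h1, h.gb_sub hB hU.ge h1 hUΦ⟩

theorem exists_blk (h : LQ G Ω m k Q) : ∃ B, GB G B ∧ B ⊆ Fs Ω Q := by
  obtain ⟨U, h1, hU⟩ := exists_sub_four (s := Fs Ω Q) (by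
    have := h.ltq; have := h.k_cases; omega)
  obtain ⟨B, hB, -, h2⟩ := h.exists_gb hU h1
  exact ⟨B, hB, h2⟩

theorem exists_out (h : LQ G Ω m k Q) (hB : GB G B) : ∃ z ∈ Fs Ω Q, z ∉ B :=
  exists_mem_notMem (by rw [h.card_gb hB]; exact h.ltq)

theorem mem_Q (h : LQ G Ω m k Q) (hB : GB G B) (hBΦ : B ⊆ Fs Ω Q) {y : Ω} (hy : y ∈ Fs Ω Q)
    (hyB : y ∉ B) {a : G} (ha : a ∈ Pz G 2 B) (e : a • y = y) : a ∈ Q := by
  refine h.max (Pz G 2 B ⊓ stabilizer G y) (h.pg hB.four).to_inf_left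
    (fun q hq => ⟨h.le_P hBΦ hq, hy q hq⟩) ?_ ⟨ha, e⟩
  refine lt_of_lt_of_le ?_ (Set.ncard_le_ncard (s := insert y B) ?_)
  · rw [Set.ncard_insert_of_notMem hyB, h.card_gb hB]
    omega
  · rintro x (rfl | hx) g hg
    exacts [hg.2, mem_Dx.1 (Pz_le 2 B hg.1) x hx]

theorem smul_notMem {g : G} (hg : ∀ x ∈ B, g • x ∈ B) {y : Ω} (hy : y ∉ B) : g • y ∉ B :=
  fun e => hy (by simpa using inv_smul_mem hg _ e)

theorem mem_M (h : LQ G Ω m k Q) (hB : GB G B) (hBΦ : B ⊆ Fs Ω Q) {g : G}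
    (hg : ∀ x ∈ B, g • x ∈ B) {y : Ω} (hy : y ∈ Fs Ω Q) (hyB : y ∉ B) (e : g • y ∈ Fs Ω Q) :
    g ∈ normalizer (Q : Set G) :=
  mem_normalizer_fintype fun q hq => h.mem_Q hB hBΦ e (smul_notMem hg hyB)
    (mem_normalizer_conj (mem_normalizer_Pz hg) (h.le_P hBΦ hq)) (by rw [conj_smul_smul, hy q hq])

theorem exists_a0 (h : LQ G Ω m k Q) (hB : GB G B) (hBΦ : B ⊆ Fs Ω Q) :
    ∃ a ∈ Pz G 2 B, a ∈ normalizer (Q : Set G) ∧ a ∉ Q := by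
  have := Fact.mk Nat.prime_two
  have h1 := lt_inf_normalizer (h.pg hB.four) (lt_of_le_of_ne (h.le_P hBΦ) fun e => by
    have := h.ltq
    rw [e, h.Fs_P hB, h.card_gb hB] at this
    omega)
  obtain ⟨a, ha, h2⟩ := SetLike.exists_of_lt h1
  exact ⟨a, ha.1, ha.2, h2⟩

theorem exists_a (h : LQ G Ω m k Q) (hB : GB G B) (hBΦ : B ⊆ Fs Ω Q) :
    ∃ a ∈ Pz G 2 B, a ∈ normalizer (Q : Set G) ∧ a ∉ Q ∧ a * a ∈ Q := by
  classical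
  obtain ⟨a, h1, h2, h3⟩ := h.exists_a0 hB hBΦ
  have hex : ∃ j, a ^ 2 ^ j ∈ Q := by
    obtain ⟨j, hj⟩ := h.pe hB.four h1
    exact ⟨j, hj ▸ Q.one_mem⟩
  have h4 := Nat.find_spec hex
  have h5 : Nat.find hex ≠ 0 := fun e => h3 (by simpa [e] using h4)
  obtain ⟨j, hj⟩ := Nat.exists_eq_succ_of_ne_zero h5
  refine ⟨a ^ 2 ^ j, pow_mem h1 _, pow_mem h2 _, Nat.find_min hex (by omega), ?_⟩
  rwa [hj, pow_succ, pow_mul, pow_two] at h4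

theorem conj_mem (h : LQ G Ω m k Q) (hB : GB G B) (hBΦ : B ⊆ Fs Ω Q) {a ψ : G} {z : Ω}
    (hz : z ∈ Fs Ω Q) (hzB : z ∉ B) (ha : a ∈ Pz G 2 B) (hψ : ∀ x ∈ B, ψ • x ∈ B) (e1 : ψ • z = z)
    (e2 : ψ • a • z = a • z) : a⁻¹ * (ψ * a * ψ⁻¹) ∈ Q :=
  h.mem_Q hB hBΦ hz hzB (mul_mem (inv_mem ha) (mem_normalizer_conj (mem_normalizer_Pz hψ) ha)) (by
    rw [mul_smul, inv_smul_eq_iff, mul_smul, mul_smul, (inv_smul_eq_iff.2 e1.symm : ψ⁻¹ • z = z), e2])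

theorem exists_comm (h : LQ G Ω m k Q) (hr : r.Prime) (h2 : r ≠ 2) {a ψ : G} (pψ : PE r ψ)
    (hM : ψ ∈ normalizer (Q : Set G)) (e : a⁻¹ * (ψ * a * ψ⁻¹) ∈ Q) :
    ∃ b, a⁻¹ * b ∈ Q ∧ ψ * b = b * ψ :=
  exists_fix_coset hr pψ (h.not_dvd hr h2) (fun _ hq => mem_normalizer_conj hM hq) e

/-- An element outside the kernel is fixed point free on `N_P(Q) / Q`. -/
theorem fpfQ (h : LQ G Ω m k Q) (hs : 4 ≤ s.ncard) (hsΦ : s ⊆ Fs Ω Q) {x a : G} (hx : x ∈ Dx G s)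
    (hc : ¬ Cp m x) (hM : x ∈ normalizer (Q : Set G)) (ha : a ∈ Pz G 2 s)
    (e : a⁻¹ * (x * a * x⁻¹) ∈ Q) : a ∈ Q := by
  obtain ⟨p, hp, hd, j, hj⟩ := exists_prime_pow (g := x) (fun e => hc (by simp [e, Cp]))
  have hm := hd.trans (h.dvd hs hx hc)
  obtain ⟨b, h1, h2⟩ := h.exists_comm hp (h.ne_two hm) (PE.of_orderOf hj) (pow_mem hM j)
    (conj_pow_mem hM e j)
  have h3 : b ∈ Pz G 2 s := (mul_mem_cancel_left (inv_mem ha)).1 (h.le_P hsΦ h1)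
  have h4 := h.fpfP hs (pow_mem hx j) (not_cp_of_dvd hp hm hj.symm.dvd) (Pz_le 2 s h3)
    (h.pe hs h3) h2
  rwa [h4, mul_one, inv_mem_iff] at h1

/-- An element outside the kernel does not fix two points exchanged by `P`. -/
theorem not_fix (h : LQ G Ω m k Q) (hB : GB G B) (hBΦ : B ⊆ Fs Ω Q) (hs : 4 ≤ s.ncard)
    (hsB : s ⊆ B) {x a : G} {z : Ω} (hz : z ∈ Fs Ω Q) (hzB : z ∉ B) (ha : a ∈ Pz G 2 B)
    (haQ : a ∉ Q) (hx : x ∈ Dx G s) (hc : ¬ Cp m x) (e1 : x • z = z) (e2 : x • a • z = a • z) :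
    False :=
  have h1 := h.smul_mem' hB hs hsB hx
  haQ (h.fpfQ hs (hsB.trans hBΦ) hx hc (h.mem_M hB hBΦ h1 hz hzB (e1.symm ▸ hz))
    ((h.P_eq hB hs hsB).symm ▸ ha) (h.conj_mem hB hBΦ hz hzB ha h1 e1 e2))

theorem Fx_inter (h : LQ G Ω m k Q) (hB : GB G B) (hBΦ : B ⊆ Fs Ω Q) {a : G} (ha : a ∈ Pz G 2 B)
    (haQ : a ∉ Q) : Fs Ω Q ∩ Fx Ω a = B :=
  Set.Subset.antisymm (fun _ hy => by_contra fun hyB => haQ (h.mem_Q hB hBΦ hy.1 hyB ha hy.2))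
    fun y hy => ⟨hBΦ hy, mem_Dx.1 (Pz_le 2 B ha) y hy⟩

theorem parity (h : LQ G Ω m k Q) (hB : GB G B) (hBΦ : B ⊆ Fs Ω Q) {b ψ : G} (hb : b ∈ Pz G 2 B)
    (hM : b ∈ normalizer (Q : Set G)) (hbQ : b ∉ Q) (e : ψ * b = b * ψ) :
    (Fs Ω Q ∩ Fx Ω ψ).ncard ≡ (B ∩ Fx Ω ψ).ncard [MOD 2] := by
  have := (h.pe hB.four hb).ncard_modEq Nat.prime_two (S := Fs Ω Q ∩ Fx Ω ψ)
    fun x hx => ⟨smul_mem_Fs hM hx.1, smul_mem_Fx e.symm hx.2⟩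
  rwa [Set.inter_right_comm, h.Fx_inter hB hBΦ hb hbQ] at this

/-- Lifting a `2`-element of the induced group. -/
theorem lift2 (h : LQ G Ω m k Q) {σ : resX Ω Q} (pσ : PE 2 σ) :
    ∃ g ∈ normalizer (Q : Set G), PE 2 g ∧
      ∀ x : FixT Ω Q, ((σ • x : FixT Ω Q) : Ω) = g • (x : Ω) := by
  obtain ⟨g, hg, h1⟩ := resX_exists σ
  obtain ⟨e, he⟩ := pσ
  obtain ⟨i, h2, h3⟩ := exists_PE_part (B := Fs Ω Q) Nat.prime_two (c := g) (e := e) fun y hy => by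
    have := resX_pow h1 (2 ^ e) ⟨y, hy⟩
    rw [he, one_smul] at this
    exact this.symm
  exact ⟨g ^ i, pow_mem hg i, h2, fun x => by rw [h3 _ x.2, h1]⟩

theorem pe_res {σ : resX Ω Q} {g : G} (pg : PE r g)
    (e : ∀ x : FixT Ω Q, ((σ • x : FixT Ω Q) : Ω) = g • (x : Ω)) : PE r σ := by
  obtain ⟨j, hj⟩ := pg
  exact ⟨j, orderOf_dvd_iff_pow_eq_one.1 (resX_orderOf_dvd e (hj ▸ Q.one_mem))⟩

theorem image_sub (s : Set (FixT Ω Q)) : Subtype.val '' s ⊆ Fs Ω Q := by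
  rintro _ ⟨x, -, rfl⟩
  exact x.2

theorem ncard_image (s : Set (FixT Ω Q)) : (Subtype.val '' s).ncard = s.ncard :=
  Set.ncard_image_of_injective _ Subtype.val_injective

theorem mem_Dx_image {σ : resX Ω Q} {g : G} {s : Set (FixT Ω Q)}
    (e : ∀ x : FixT Ω Q, ((σ • x : FixT Ω Q) : Ω) = g • (x : Ω)) :
    g ∈ Dx G (Subtype.val '' s) ↔ σ ∈ Dx (resX Ω Q) s := by
  rw [mem_Dx, mem_Dx, Set.forall_mem_image]
  exact forall_congr' fun x => forall_congr' fun _ => by rw [← e, Subtype.ext_iff]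

theorem res_ne_one (h : LQ G Ω m k Q) (hB : GB G B) (hBΦ : B ⊆ Fs Ω Q) {σ : resX Ω Q} {g : G}
    (e : ∀ x : FixT Ω Q, ((σ • x : FixT Ω Q) : Ω) = g • (x : Ω)) (hg : g ∈ Pz G 2 B) :
    σ ≠ 1 ↔ g ∉ Q := by
  refine not_congr ⟨fun h1 => ?_, fun h1 => resX_eq_one fun x => Subtype.ext ((e x).trans (x.2 g h1))⟩
  obtain ⟨z, hz, hzB⟩ := h.exists_out hB
  refine h.mem_Q hB hBΦ hz hzB hg ?_
  have := e ⟨z, hz⟩
  rw [h1, one_smul] at this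
  exact this.symm

theorem Fx_res (h : LQ G Ω m k Q) (hB : GB G B) (hBΦ : B ⊆ Fs Ω Q) {σ : resX Ω Q} {g : G}
    (e : ∀ x : FixT Ω Q, ((σ • x : FixT Ω Q) : Ω) = g • (x : Ω)) (hg : g ∈ Pz G 2 B) (h1 : σ ≠ 1) :
    Fx (FixT Ω Q) σ = Subtype.val ⁻¹' B := by
  ext x
  rw [← h.Fx_inter hB hBΦ hg ((h.res_ne_one hB hBΦ e hg).1 h1), mem_Fx, Subtype.ext_iff, e]
  exact ⟨fun h => ⟨x.2, h⟩, fun h => h.2⟩

/-- A non-trivial `2`-element fixing four points fixes the block through them. -/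
theorem Fx_eq (h : LQ G Ω m k Q) {σ : resX Ω Q} (pσ : PE 2 σ) (h1 : σ ≠ 1) {s : Set (FixT Ω Q)}
    (hs : s.ncard = 4) (hσ : s ⊆ Fx (FixT Ω Q) σ) :
    Fx (FixT Ω Q) σ = Subtype.val ⁻¹' Fs Ω (Pz G 2 (Subtype.val '' s)) := by
  obtain ⟨g, -, h2, e⟩ := h.lift2 pσ
  have h3 := (ncard_image s).trans hs
  have hB : GB G (Fs Ω (Pz G 2 (Subtype.val '' s))) := ⟨_, h3, rfl⟩
  refine h.Fx_res hB (h.gb_sub hB h3.ge (subset_Fs_Pz 2 _) (image_sub s)) e ?_ h1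
  rw [← h.P_eq hB h3.ge (subset_Fs_Pz 2 _)]
  exact mem_Pz_of ((mem_Dx_image e).2 (mem_Dx_iff.2 hσ)) h2

theorem sr (h : LQ G Ω m k Q) : SR (resX Ω Q) (FixT Ω Q) k where
  mul s hs a ha b hb pa pb := by
    obtain ⟨g, -, g2, e⟩ := h.lift2 pa
    obtain ⟨g', -, g2', e'⟩ := h.lift2 pb
    exact pe_res (h.PE_mul ((ncard_image s).symm ▸ hs) Nat.prime_two h.not_two g
      ((mem_Dx_image e).2 ha) g' ((mem_Dx_image e').2 hb) g2 g2')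
      fun x => by rw [mul_smul, e, e', mul_smul]
  ex s hs := by
    have h3 := (ncard_image s).trans hs
    obtain ⟨B, hB, h1, h2⟩ := h.exists_gb h3 (image_sub s)
    obtain ⟨a, a1, a2, a3⟩ := h.exists_a0 hB h2
    obtain ⟨σ, e⟩ := exists_resX (α := Ω) a2
    exact ⟨σ, (mem_Dx_image e).1 (Dx_anti h1 (Pz_le 2 B a1)), (h.res_ne_one hB h2 e a1).2 a3,
      pe_res (h.pe hB.four a1) e⟩
  fix a h1 pa h4 := by
    obtain ⟨s, h2, hs⟩ := exists_sub_four h4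
    have h3 := (ncard_image s).trans hs
    have hB : GB G (Fs Ω (Pz G 2 (Subtype.val '' s))) := ⟨_, h3, rfl⟩
    rw [h.Fx_eq pa h1 hs h2, ncard_preimage (h.gb_sub hB h3.ge (subset_Fs_Pz 2 _) (image_sub s)),
      h.card_gb hB]
  same a b h1 h2 pa pb h4 := by
    obtain ⟨s, h3, hs⟩ := exists_sub_four h4
    rw [h.Fx_eq pa h1 hs (h3.trans Set.inter_subset_left),
      h.Fx_eq pb h2 hs (h3.trans Set.inter_subset_right)]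
  lt := h.ltq

theorem blkX (h : LQ G Ω m k Q) (hB : GB G B) (hBΦ : B ⊆ Fs Ω Q) :
    Blk (resX Ω Q) (Subtype.val ⁻¹' B : Set (FixT Ω Q)) := by
  obtain ⟨a, a1, a2, a3⟩ := h.exists_a0 hB hBΦ
  obtain ⟨σ, e⟩ := exists_resX (α := Ω) a2
  have h1 := (h.res_ne_one hB hBΦ e a1).2 a3
  exact ⟨(ncard_preimage hBΦ).symm ▸ hB.four, σ, h1, pe_res (h.pe hB.four a1) e,
    h.Fx_res hB hBΦ e a1 h1⟩

theorem of_blkX (h : LQ G Ω m k Q) {B' : Set (FixT Ω Q)} (hB' : Blk (resX Ω Q) B') :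
    ∃ B, GB G B ∧ B ⊆ Fs Ω Q ∧ B' = Subtype.val ⁻¹' B := by
  obtain ⟨h4, σ, h1, pσ, rfl⟩ := hB'
  obtain ⟨s, h2, hs⟩ := exists_sub_four h4
  have h3 := (ncard_image s).trans hs
  have hB : GB G (Fs Ω (Pz G 2 (Subtype.val '' s))) := ⟨_, h3, rfl⟩
  exact ⟨_, hB, h.gb_sub hB h3.ge (subset_Fs_Pz 2 _) (image_sub s), h.Fx_eq pσ h1 hs h2⟩

theorem mem_PX (h : LQ G Ω m k Q) (hBΦ : B ⊆ Fs Ω Q) {σ : resX Ω Q} {g : G}
    (e : ∀ x : FixT Ω Q, ((σ • x : FixT Ω Q) : Ω) = g • (x : Ω)) (hB : 4 ≤ B.ncard)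
    (hg : g ∈ Pz G 2 B) : σ ∈ Pz (resX Ω Q) 2 (Subtype.val ⁻¹' B : Set (FixT Ω Q)) :=
  mem_Pz_of (mem_Dx.2 fun x hx => Subtype.ext ((e x).trans (mem_Dx.1 (Pz_le 2 B hg) _ hx)))
    (pe_res (h.pe hB hg) e)

theorem liftP (h : LQ G Ω m k Q) (hBΦ : B ⊆ Fs Ω Q) (hB : 4 ≤ B.ncard) {σ : resX Ω Q}
    (hσ : σ ∈ Pz (resX Ω Q) 2 (Subtype.val ⁻¹' B : Set (FixT Ω Q))) :
    ∃ g ∈ Pz G 2 B, g ∈ normalizer (Q : Set G) ∧
      ∀ x : FixT Ω Q, ((σ • x : FixT Ω Q) : Ω) = g • (x : Ω) := by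
  obtain ⟨h1, h2⟩ := (h.sr.mem_Pz ((ncard_preimage hBΦ).symm ▸ hB)).1 hσ
  obtain ⟨g, g1, g2, e⟩ := h.lift2 h2
  exact ⟨g, mem_Pz_of (mem_Dx.2 fun x hx => (e ⟨x, hBΦ hx⟩).symm.trans
    (congrArg Subtype.val (mem_Dx.1 h1 ⟨x, hBΦ hx⟩ hx))) g2, g1, e⟩

end LQ

end Cfsg.Lib.Fr4
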