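import Cfsg.Agent.Fr4.U3
import Cfsg.Agent.Solv.CoprimeGen

/-!
# Four-fold transitive groups with a Frobenius four-point stabiliser: action of the group of
order nine
-/

set_option autoImplicit false
set_option linter.unusedSectionVars false

namespace Cfsg.Lib.Fr4

open MulAction Subgroup Cfsg.Lib.Perm Cfsg.Lib.Trans

variable {G Ω : Type*} [Group G] [MulAction G Ω] [Finite G] [Finite Ω] {m k r p : ℕ}
  {s U B : Set Ω} {Q : Subgroup G} {a ρ η : G} {z w t : Ω}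

theorem inv_eq_sq {g : G} (h : orderOf g = 3) : g⁻¹ = g * g :=
  inv_eq_of_mul_eq_one_left (cube_eq_one h)

theorem gen9 (oρ : orderOf ρ = 3) (oη : orderOf η = 3) (cm : ρ * η = η * ρ) (hne : η ∉ zpowers ρ)
    {K H : Subgroup G} (n1 : ρ ∈ normalizer (K : Set G)) (n2 : η ∈ normalizer (K : Set G))
    (h3 : ¬ 3 ∣ Nat.card K) (c1 : ∀ c ∈ K, η * c = c * η → c ∈ H)
    (c2 : ∀ c ∈ K, ρ * c = c * ρ → c ∈ H) (c3 : ∀ c ∈ K, ρ * η * c = c * (ρ * η) → c ∈ H)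
    (c4 : ∀ c ∈ K, ρ * η⁻¹ * c = c * (ρ * η⁻¹) → c ∈ H) : K ≤ H := by
  have p3 := Nat.prime_three
  have := Fact.mk p3
  have hn := mem_normalizer_of_comm cm.symm
  have hA := IsPGroup.to_sup_of_normal_left' (PE.of_orderOf oρ).isPGroup
    (PE.of_orderOf oη).isPGroup (zpowers_le.2 hn)
  have cm' : Commute ρ η := cm
  have key : ∀ x ∈ zpowers ρ ⊔ zpowers η, ∃ i < 3, ∃ j < 3, x = ρ ^ i * η ^ j := by
    intro x hx
    obtain ⟨j, d, hd, rfl⟩ := exists_of_mem_sup hn hx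
    obtain ⟨i, rfl⟩ := mem_powers_iff_mem_zpowers.2 hd
    refine ⟨i % 3, Nat.mod_lt _ (by norm_num), j % 3, Nat.mod_lt _ (by norm_num), ?_⟩
    rw [← oρ, pow_mod_orderOf, oρ, ← oη, pow_mod_orderOf]
    exact (cm'.pow_pow i j).eq.symm
  have : IsMulCommutative (zpowers ρ ⊔ zpowers η : Subgroup G) := ⟨⟨fun x y => Subtype.ext (by
    obtain ⟨i, -, j, -, e⟩ := key x x.2
    obtain ⟨i', -, j', -, e'⟩ := key y y.2
    rw [coe_mul, coe_mul, e, e']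
    exact (((Commute.refl ρ).pow_pow i i').mul_right (cm'.pow_pow i j')).mul_left
      ((cm'.symm.pow_pow j i').mul_right ((Commute.refl η).pow_pow j j')))⟩⟩
  obtain ⟨n, hn'⟩ := IsPGroup.iff_card.1 hA
  refine Solv.Coprime.le_of_forall_centralizer_singleton (A := zpowers ρ ⊔ zpowers η) (fun hc => ?_)
    (sup_le (zpowers_le.2 n1) (zpowers_le.2 n2))
    (hn' ▸ ((Nat.Prime.coprime_iff_not_dvd p3).2 h3).pow_left n) fun x hx h1 c hc => ?_
  · exact hne (Solv.PG.eq_of_card_eq_of_isCyclic (A := zpowers ρ ⊔ zpowers η) le_sup_right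
      le_sup_left (by rw [Nat.card_zpowers, Nat.card_zpowers, oρ, oη]) ▸ mem_zpowers η)
  have e : Commute x c := (mem_centralizer_singleton_iff.1 hc.2).symm
  have e2 := e.pow_left 2
  obtain ⟨i, hi, j, hj, rfl⟩ := key x hx
  have r4 : ρ ^ 4 = ρ := by rw [pow_succ, ← oρ, pow_orderOf_eq_one, one_mul]
  have s4 : η ^ 4 = η := by rw [pow_succ, ← oη, pow_orderOf_eq_one, one_mul]
  rw [(cm'.pow_pow i j).mul_pow, ← pow_mul, ← pow_mul] at e2
  rw [inv_eq_sq oη, ← pow_two] at c4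
  interval_cases i <;> interval_cases j
  · simp at h1
  · exact c1 c hc.1 (by simpa using e.eq)
  · exact c1 c hc.1 (by simpa [s4] using e2.eq)
  · exact c2 c hc.1 (by simpa using e.eq)
  · exact c3 c hc.1 (by simpa using e.eq)
  · exact c4 c hc.1 (by simpa using e.eq)
  · exact c2 c hc.1 (by simpa [r4] using e2.eq)
  · exact c4 c hc.1 (by simpa [r4] using e2.eq)
  · exact c3 c hc.1 (by simpa [r4, s4] using e2.eq)

theorem not_three_dvd {A : Subgroup G} (hr : r.Prime) (h3 : r ≠ 3) (hA : IsPGroup r A) :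
    ¬ 3 ∣ Nat.card A := fun hd => by
  have := Fact.mk hr
  obtain ⟨n, hn⟩ := IsPGroup.iff_card.1 hA
  exact h3 ((Nat.prime_dvd_prime_iff_eq Nat.prime_three hr).1
    (Nat.prime_three.dvd_of_dvd_pow (hn ▸ hd))).symm

theorem dvd_card_sub_one (hp : p.Prime) {x : G} (ox : orderOf x = p) {A : Subgroup G}
    (hn : ∀ c ∈ A, x * c * x⁻¹ ∈ A) (hf : ∀ c ∈ A, x * c = c * x → c = 1) : p ∣ Nat.card A - 1 := by
  refine ox ▸ orderOf_dvd_card_sub_one hn fun i hi c hc e => hf c hc ?_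
  obtain ⟨j, hj⟩ := exists_pow_eq_self_of_coprime (x := x) (n := i) (by
    rw [ox]
    exact ((Nat.Prime.coprime_iff_not_dvd hp).2 fun hd =>
      hi (orderOf_dvd_iff_pow_eq_one.1 (ox ▸ hd))).symm)
  rw [← hj]
  exact (Commute.pow_left e j).eq

/-- Two elements of order three which agree on a set of at least seven points are conjugate. -/
theorem conj3 (h0 : ∀ g ∈ Dx G s, PE 3 g → g = 1) {x y : G} (px : PE 3 x) (py : PE 3 y)
    (hy : ∀ u ∈ s, y • u ∈ s) (e : ∀ u ∈ s, x • u = y • u) : ∃ d ∈ Dx G s, d * x * d⁻¹ = y := by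
  obtain ⟨d, hd, h1, h2⟩ := sylow_coset Nat.prime_three (D := Dx G s)
    (fun a ha b hb pa pb => by rw [h0 a ha pa, one_mul]; exact pb) py px (mem_normalizer_Dx hy)
    (mem_Dx.2 fun u hu => by rw [mul_smul, e _ (inv_smul_mem hy u hu), smul_inv_smul])
  exact ⟨d, hd, mul_inv_eq_one.1 (h0 _ h1 h2)⟩

namespace R3

theorem inv (h : R3 G m k Q B a z ρ η w t) : R3 G m k Q B a z ρ η⁻¹ w t :=
  { h with
    ηD := inv_mem h.ηD
    oη := by rw [orderOf_inv, h.oη]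
    cm := (Commute.inv_right h.cm).eq
    ηM := inv_mem h.ηM }

theorem wB (h : R3 G m k Q B a z ρ η w t) : w ∈ B := (h.hw.ge rfl).1

theorem ρw (h : R3 G m k Q B a z ρ η w t) : ρ • w = w := (h.hw.ge rfl).2

theorem ρne (h : R3 G m k Q B a z ρ η w t) {x : Ω} (hx : x ∈ B) (h1 : x ≠ w) : ρ • x ≠ x :=
  fun e => h1 (h.hw.le ⟨hx, e⟩)

theorem U4 (h : R3 G m k Q B a z ρ η w t) : ({w, t, ρ • t, ρ • ρ • t} : Set Ω).ncard = 4 :=
  ncard_four h.nd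

theorem UB (h : R3 G m k Q B a z ρ η w t) : ({w, t, ρ • t, ρ • ρ • t} : Set Ω) ⊆ B := by
  rintro x (rfl | rfl | rfl | rfl)
  exacts [h.wB, h.tB, h.ps.st _ h.tB, h.ps.st _ (h.ps.st _ h.tB)]

theorem Uρ (h : R3 G m k Q B a z ρ η w t) : ∀ x ∈ ({w, t, ρ • t, ρ • ρ • t} : Set Ω),
    ρ • x ∈ ({w, t, ρ • t, ρ • ρ • t} : Set Ω) := by
  rintro x (rfl | rfl | rfl | rfl) <;> simp [h.ρw, smul3 h.oρ]

theorem ηB (h : R3 G m k Q B a z ρ η w t) : ∀ x ∈ B, η • x ∈ B := h.smul_mem' h.gb h.U4.ge h.UB h.ηD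

theorem ηw (h : R3 G m k Q B a z ρ η w t) : η • w = w := mem_Dx.1 h.ηD _ (by simp)

theorem ηt (h : R3 G m k Q B a z ρ η w t) : η • t = t := mem_Dx.1 h.ηD _ (by simp)

theorem ρM (h : R3 G m k Q B a z ρ η w t) : ρ ∈ normalizer (Q : Set G) := h.psM h.ps

theorem five_le (h : R3 G m k Q B a z ρ η w t) : 5 ≤ (Fx Ω ρ).ncard :=
  h.five ▸ Set.ncard_le_ncard Set.inter_subset_right

theorem Fx_eq (h : R3 G m k Q B a z ρ η w t) {x : G} (ox : orderOf x = 3)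
    (h4 : 4 ≤ (Fx Ω x).ncard) : (Fx Ω x).ncard = (Fx Ω ρ).ncard :=
  h.ncard_Fx_eq Nat.prime_three (by norm_num) h.dvd3 h4 (by have := h.five_le; omega) ox h.oρ

theorem ncp (h : R3 G m k Q B a z ρ η w t) {x : G} (hx : 3 ∣ orderOf x) : ¬ Cp m x :=
  not_cp_of_dvd Nat.prime_three h.dvd3 hx

theorem eq_one (h : R3 G m k Q B a z ρ η w t) (hs : 7 ≤ s.ncard) :
    ∀ g ∈ Dx G s, PE 3 g → g = 1 := fun g hg pg => by_contra fun h1 => by
  have h2 := Set.ncard_le_ncard (mem_Dx_iff.1 hg)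
  have := h.Fx_eq (orderOf_eq_three h.nine (s := s) (by omega) hg pg h1) (by omega)
  have := h.six
  omega

theorem η_ne (h : R3 G m k Q B a z ρ η w t) : η ∉ zpowers ρ := fun e =>
  h.not_fix h.gb h.sub h.U4.ge h.UB h.zF h.zB h.aP h.aQ h.ηD (h.ncp h.oη.symm.dvd)
    ((zpowers_le (H := stabilizer G z)).2 h.ps.e1 e)
    ((zpowers_le (H := stabilizer G (a • z))).2 h.ps.e2 e)

theorem ηfpf (h : R3 G m k Q B a z ρ η w t) {c : G} (hc : c ∈ Dx G B) (h1 : Cp m c)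
    (e : η * c = c * η) : c = 1 :=
  h.fpf h.U4.ge h.ηD (h.ncp h.oη.symm.dvd) (Dx_anti h.UB hc) h1 e

theorem ηfpfP (h : R3 G m k Q B a z ρ η w t) {c : G} (hc : c ∈ Pz G 2 B)
    (e : η * c = c * η) : c = 1 := h.ηfpf (Pz_le 2 B hc) (h.cp (h.pe h.gb.four hc)) e

theorem gen (h : R3 G m k Q B a z ρ η w t) {K H : Subgroup G} (hK : ∀ c ∈ K, c ∈ Dx G B ∧ Cp m c)
    (n1 : ρ ∈ normalizer (K : Set G)) (n2 : η ∈ normalizer (K : Set G))
    (h3 : ¬ 3 ∣ Nat.card K) (c2 : ∀ c ∈ K, ρ * c = c * ρ → c ∈ H)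
    (c3 : ∀ c ∈ K, ρ * η * c = c * (ρ * η) → c ∈ H)
    (c4 : ∀ c ∈ K, ρ * η⁻¹ * c = c * (ρ * η⁻¹) → c ∈ H) : K ≤ H :=
  gen9 h.oρ h.oη h.cm h.η_ne n1 n2 h3
    (fun c hc e => h.ηfpf (hK c hc).1 (hK c hc).2 e ▸ one_mem _) c2 c3 c4

theorem genP (h : R3 G m k Q B a z ρ η w t) {K H : Subgroup G} (hK : K ≤ Pz G 2 B)
    (n1 : ρ ∈ normalizer (K : Set G)) (n2 : η ∈ normalizer (K : Set G))
    (c2 : ∀ c ∈ K, ρ * c = c * ρ → c ∈ H) (c3 : ∀ c ∈ K, ρ * η * c = c * (ρ * η) → c ∈ H)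
    (c4 : ∀ c ∈ K, ρ * η⁻¹ * c = c * (ρ * η⁻¹) → c ∈ H) : K ≤ H :=
  h.gen (fun _ hc => ⟨Pz_le 2 B (hK hc), h.cp (h.pe h.gb.four (hK hc))⟩) n1 n2
    (not_three_dvd Nat.prime_two (by norm_num) ((h.pg h.gb.four).to_le hK)) c2 c3 c4

theorem card_dvd (h : R3 G m k Q B a z ρ η w t) {A : Subgroup G} (hA : IsPGroup 2 A)
    (hc : ∀ c ∈ A, c * ρ = ρ * c) : Nat.card A ∣ 8 := by
  have := Fact.mk Nat.prime_two
  have h5 := h.five_le
  have h6 := h.six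
  have h1 := h.card_cent Nat.prime_three h.dvd3 h.oρ (by omega) hA hc
  obtain ⟨V, hV1, hV⟩ := exists_sub_four (s := Fx Ω ρ) (by omega)
  have h2 := (h.hallh h.odd Nat.prime_three h.dvd3 h.oρ hV (mem_Dx_iff.2 hV1)).2.1
  obtain ⟨n, hn⟩ := IsPGroup.iff_card.1 hA
  rw [hn] at h1 ⊢
  refine pow_dvd_pow 2 (show n ≤ 3 from by_contra fun hc => ?_)
  have := (pow_dvd_pow 2 (show 4 ≤ n by omega)).trans h1
  omega

theorem card_four (h : R3 G m k Q B a z ρ η w t) {A : Subgroup G} (hA : A ≤ Pz G 2 B)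
    (hc : ∀ c ∈ A, c * ρ = ρ * c) (hn : ∀ c ∈ A, η * c * η⁻¹ ∈ A) (h1 : A ≠ ⊥) :
    Nat.card A = 4 := by
  have h2 := h.card_dvd ((h.pg h.gb.four).to_le hA) hc
  have h3 := dvd_card_sub_one Nat.prime_three h.oη hn fun c hc e => h.ηfpfP (hA hc) e
  have h4 := mt card_eq_one.1 h1
  have h5 := Nat.le_of_dvd (by norm_num) h2
  generalize Nat.card A = n at *
  interval_cases n <;> omega

theorem conj_cent (h : R3 G m k Q B a z ρ η w t) {c : G} (hc : c ∈ centralizer ({ρ} : Set G)) :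
    η * c * η⁻¹ ∈ centralizer ({ρ} : Set G) :=
  have h1 := mem_centralizer_singleton_iff.2 h.cm.symm
  Subgroup.mul_mem _ (Subgroup.mul_mem _ h1 hc) (Subgroup.inv_mem _ h1)

/-- A non-trivial invariant subgroup of `C_P(ρ)` is all of it. -/
theorem cent_le (h : R3 G m k Q B a z ρ η w t) {A : Subgroup G} (hA : A ≤ Pz G 2 B)
    (hn : ∀ c ∈ A, η * c * η⁻¹ ∈ A) {c : G} (hc : c ∈ A) (h1 : c ≠ 1) (e : ρ * c = c * ρ) {d : G}
    (hd : d ∈ Pz G 2 B) (e' : ρ * d = d * ρ) : d ∈ A := by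
  have h2 : ∀ A ≤ Pz G 2 B, (∀ c ∈ A, η * c * η⁻¹ ∈ A) → c ∈ A →
      Nat.card (A ⊓ centralizer ({ρ} : Set G) : Subgroup G) = 4 := fun A hA hn hc =>
    h.card_four (inf_le_left.trans hA) (fun c hc => mem_centralizer_singleton_iff.1 hc.2)
      (fun c hc => ⟨hn c hc.1, h.conj_cent hc.2⟩) fun e0 => h1 (mem_bot.1 (e0 ▸
        (⟨hc, mem_centralizer_singleton_iff.2 e.symm⟩ : c ∈ A ⊓ centralizer ({ρ} : Set G))))
  have h3 := eq_of_le_of_card_ge (inf_le_inf_right (centralizer ({ρ} : Set G)) hA) (by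
    rw [h2 A hA hn hc, h2 _ le_rfl (fun c hc => mem_normalizer_conj (mem_normalizer_Pz h.ηB) hc)
      (hA hc)])
  exact (h3.ge ⟨hd, mem_centralizer_singleton_iff.2 e'.symm⟩).1

theorem o3 (h : R3 G m k Q B a z ρ η w t) : orderOf (ρ * η) = 3 := by
  have := Fact.mk Nat.prime_three
  refine orderOf_eq_prime ?_ fun e => ?_
  · rw [Commute.mul_pow h.cm, ← h.oρ, pow_orderOf_eq_one, h.oρ, ← h.oη, pow_orderOf_eq_one, one_mul]
  · exact h.η_ne (eq_inv_of_mul_eq_one_right e ▸ inv_mem (mem_zpowers ρ))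

end R3

end Cfsg.Lib.Fr4
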