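import Cfsg.Agent.Fr4.SR0
import Cfsg.Agent.LG4.Lin

/-!
# Four-fold transitive groups with a Frobenius four-point stabiliser: the linear space on a block
-/

set_option autoImplicit false

namespace Cfsg.Lib.Fr4

open MulAction Subgroup Cfsg.Lib.Perm Cfsg.Lib.Trans

namespace L1

open Pointwise

theorem four_le {α : Type*} {S : Set α} (hS : S.Finite) {a b c d : α} (ha : a ∈ S) (hb : b ∈ S)
    (hc : c ∈ S) (hd : d ∈ S) (h : [a, b, c, d].Nodup) : 4 ≤ S.ncard := by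
  classical
  have h1 := List.toFinset_card_of_nodup h
  rw [← Set.ncard_coe_finset] at h1
  refine h1.ge.trans (Set.ncard_le_ncard (fun x hx => ?_) hS)
  simp only [List.coe_toFinset, List.mem_cons, List.not_mem_nil, or_false, Set.mem_ofPred_eq] at hx
  rcases hx with rfl | rfl | rfl | rfl <;> assumption

theorem ncard_offDiag {α : Type*} {S : Set α} (hS : S.Finite) :
    S.offDiag.ncard = S.ncard * (S.ncard - 1) := by
  lift S to Finset α using hS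
  rw [← Finset.coe_offDiag, Set.ncard_coe_finset, Set.ncard_coe_finset, Finset.offDiag_card,
    Nat.mul_sub_one]

theorem exists_not_mem {α : Type*} {S T : Set α} (h : (S ∩ T).ncard < S.ncard) :
    ∃ x ∈ S, x ∉ T := by
  by_contra! H
  rw [Set.inter_eq_left.2 H] at h
  exact lt_irrefl _ h

variable {X α : Type*} [Group X] [Finite X] [MulAction X α]

theorem exists_pe (H : Subgroup X) {r : ℕ} (hr : r.Prime) (p : α) (S : Set α)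
    (hS : ∀ q, q ∈ S ↔ ∃ g ∈ H, g • p = q) (hd : r ∣ S.ncard) : ∃ ψ ∈ H, PE r ψ ∧ ψ • p ≠ p := by
  by_contra! H1
  have : Fact r.Prime := ⟨hr⟩
  obtain ⟨P⟩ : Nonempty (Sylow r H) := inferInstance
  have h1 : orbit H p = S := Set.ext fun q => by
    rw [hS]
    exact ⟨fun ⟨g, e⟩ => ⟨g, g.2, e⟩, fun ⟨g, hg, e⟩ => ⟨⟨g, hg⟩, e⟩⟩
  refine P.not_dvd_index (hd.trans ?_)
  rw [← h1, ← index_stabilizer]
  refine index_dvd_of_le fun g hg => H1 g g.2 ?_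
  obtain ⟨j, hj⟩ := P.isPGroup' ⟨g, hg⟩
  exact ⟨j, congrArg (fun u : P => ((u : H) : X)) hj⟩

omit [Finite X] in
theorem fix_of_two {S : Set α} (h3 : S.ncard = 3) {g : X} (hS : ∀ q ∈ S, g • q ∈ S) {p q w : α}
    (hp : p ∈ S) (hq : q ∈ S) (hw : w ∈ S) (hpq : p ≠ q) (e1 : g • p = p) (e2 : g • q = q) :
    g • w = w := by
  by_contra e
  have h1 : w ≠ p := fun f => e (f ▸ e1)
  have h2 : w ≠ q := fun f => e (f ▸ e2)
  have := four_le (Set.finite_of_ncard_ne_zero (by omega)) hp hq hw (hS w hw) (by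
    have h4 : p ≠ g • w := fun f => h1 (smul_left_cancel g (f.symm.trans e1.symm))
    have h5 : q ≠ g • w := fun f => h2 (smul_left_cancel g (f.symm.trans e2.symm))
    simp [hpq, h1.symm, h2.symm, h4, h5, Ne.symm e])
  omega

theorem fix3 (H : Subgroup X) {S : Set α} (h3 : S.ncard = 3) (hS : ∀ g ∈ H, ∀ q ∈ S, g • q ∈ S) :
    (∃ q ∈ S, ∀ g ∈ H, g • q = q) ∨ ∃ q ∈ S, ∃ ψ ∈ H, PE 3 ψ ∧ ψ • q ≠ q := by
  obtain ⟨p, hp⟩ := Set.nonempty_of_ncard_ne_zero (s := S) (by omega)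
  by_cases h : ∀ w ∈ S, ∃ g ∈ H, g • p = w
  · exact .inr ⟨p, hp, exists_pe H Nat.prime_three p S
      (fun q => ⟨h q, fun ⟨g, hg, e⟩ => e ▸ hS g hg p hp⟩) h3.symm.dvd⟩
  left
  by_contra! H1
  push Not at h
  obtain ⟨w, hw, h⟩ := h
  obtain ⟨g, hg, e⟩ := H1 p hp
  obtain ⟨g', hg', e'⟩ := H1 w hw
  have := four_le (Set.finite_of_ncard_ne_zero (by omega)) hp (hS g hg p hp) hw (hS g' hg' w hw) (by
    have h1 : p ≠ w := by simpa using h 1 H.one_mem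
    have h2 : p ≠ g' • w := fun f => h g'⁻¹ (inv_mem hg') (by rw [f, inv_smul_smul])
    have h4 : g • p ≠ g' • w := fun f => h (g'⁻¹ * g) (mul_mem (inv_mem hg') hg) (by
      rw [mul_smul, f, inv_smul_smul])
    simp [h1, h2, h4, h g hg, e.symm, e'.symm])
  omega

variable {Φ : Type*} [MulAction X Φ] [Finite Φ] {k : ℕ}

omit [Finite X] [Finite Φ] in
theorem blk_smul {C : Set Φ} (hC : Blk X C) (g : X) : Blk X (g • C) := by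
  obtain ⟨h1, b, h2, ⟨j, h3⟩, rfl⟩ := hC
  refine ⟨by rwa [Set.ncard_smul_set], g * b * g⁻¹, by simpa using h2,
    ⟨j, by rw [conj_pow, h3, mul_one, mul_inv_cancel]⟩, Set.ext fun x => ?_⟩
  rw [Set.mem_smul_set_iff_inv_smul_mem, mem_Fx, mem_Fx, mul_smul, mul_smul, smul_eq_iff_eq_inv_smul]

/-- The linear space on a block. -/
structure Lin (Y : Subgroup X) (B : Set Φ) (k : ℕ) (ln : Φ → Φ → Set Φ) (τ : Φ → Φ → X) :
    Prop where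
  card : B.ncard = k
  stab : ∀ g ∈ Y, ∀ x ∈ B, g • x ∈ B
  l : ∀ x ∈ B, ∀ y ∈ B, x ≠ y → x ∈ ln x y
  r : ∀ x ∈ B, ∀ y ∈ B, x ≠ y → y ∈ ln x y
  le : ∀ x ∈ B, ∀ y ∈ B, x ≠ y → (B ∩ ln x y).ncard ≤ 3
  par : ∀ x ∈ B, ∀ y ∈ B, x ≠ y → (B ∩ ln x y).ncard % 2 = k % 2
  uq : ∀ x ∈ B, ∀ y ∈ B, x ≠ y → ∀ u ∈ B, ∀ v ∈ B, u ≠ v → u ∈ ln x y → v ∈ ln x y →
    ln u v = ln x y
  smul : ∀ g ∈ Y, ∀ x ∈ B, ∀ y ∈ B, x ≠ y → g • ln x y = ln (g • x) (g • y)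
  mem : ∀ x ∈ B, ∀ y ∈ B, x ≠ y → τ x y ∈ Y
  pe : ∀ x ∈ B, ∀ y ∈ B, x ≠ y → PE 2 (τ x y)
  fx : ∀ x ∈ B, ∀ y ∈ B, x ≠ y → Fx Φ (τ x y) = ln x y

theorem exists_lin (h : SR X Φ k) {B : Set Φ} (hB : Blk X B) {a : X} (ha : a ∈ Pz X 2 B)
    (h1 : a ≠ 1) (h2 : a * a = 1) {z : Φ} (hz : z ∉ B) (Y : Subgroup X)
    (hY : ∀ B' : Set Φ, Blk X B' → Pz X 2 B' ≤ Y) : ∃ ln τ,
      Lin (Y ⊓ stabilizer X B ⊓ stabilizer X z ⊓ stabilizer X (a • z)) B k ln τ := by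
  have hx := h.fx_eq hB ha h1
  have z1 : z ≠ a • z := fun e => hz (hx ▸ e.symm)
  have z2 : a • z ∉ B := fun e => z1 (smul_left_cancel a (mem_Fx.1 (hx ▸ e))).symm
  choose! ln p1 p2 p3 p4 p5 _ p6 p7 τ p8 p9 _ p10 using fun (x : Φ) (hx : x ∈ B) (y : Φ)
    (hy : y ∈ B) (hxy : x ≠ y) => h.pair hB ha h1 h2 hz hx hy hxy
  have uq : ∀ C, Blk X C → z ∈ C → a • z ∈ C → ∀ u ∈ B, ∀ v ∈ B, u ≠ v → u ∈ C → v ∈ C →
      ln u v = C := fun C c1 c2 c3 u hu v hv e c4 c5 => h.blk_eq (p1 u hu v hv e) c1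
    (four_le (Set.toFinite _) ⟨p2 u hu v hv e, c4⟩ ⟨p3 u hu v hv e, c5⟩ ⟨p4 u hu v hv e, c2⟩
      ⟨p5 u hu v hv e, c3⟩ (by
        simp [e, z1, ne_of_mem_of_not_mem hu hz, ne_of_mem_of_not_mem hv hz,
          ne_of_mem_of_not_mem hu z2, ne_of_mem_of_not_mem hv z2]))
  have st : ∀ g ∈ Y ⊓ stabilizer X B ⊓ stabilizer X z ⊓ stabilizer X (a • z), ∀ x ∈ B, g • x ∈ B :=
    fun g hg x hx => (mem_stabilizer_iff.1 hg.1.1.2) ▸ Set.smul_mem_smul_set hx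
  have fx : ∀ x ∈ B, ∀ y ∈ B, x ≠ y → Fx Φ (τ x y) = ln x y := fun x hx y hy e =>
    h.fx_eq (p1 x hx y hy e) (p8 x hx y hy e).1 (p9 x hx y hy e)
  refine ⟨ln, τ, h.card_blk hB, st, p2, p3, p6, p7, fun x hx y hy e =>
    uq _ (p1 x hx y hy e) (p4 x hx y hy e) (p5 x hx y hy e), fun g hg x hx y hy e =>
    (uq _ (blk_smul (p1 x hx y hy e) g) ?_ ?_ _ (st g hg x hx) _ (st g hg y hy)
      ((smul_left_cancel_iff g).ne.2 e) (Set.smul_mem_smul_set (p2 x hx y hy e))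
      (Set.smul_mem_smul_set (p3 x hx y hy e))).symm, fun x hx y hy e => ⟨⟨⟨hY _ (p1 x hx y hy e)
      (p8 x hx y hy e).1, ?_⟩, mem_Fx.1 (fx x hx y hy e ▸ p4 x hx y hy e)⟩,
      mem_Fx.1 (fx x hx y hy e ▸ p5 x hx y hy e)⟩,
    fun x hx y hy e => ⟨1, by rw [pow_one, sq]; exact (p8 x hx y hy e).2.1⟩, fx⟩
  · exact (mem_stabilizer_iff.1 hg.1.2) ▸ Set.smul_mem_smul_set (p4 x hx y hy e)
  · exact (mem_stabilizer_iff.1 hg.2) ▸ Set.smul_mem_smul_set (p5 x hx y hy e)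
  · exact Set.eq_of_subset_of_ncard_le (fun _ ⟨w, hw, e'⟩ => e' ▸ p10 x hx y hy e w hw)
      (Set.ncard_smul_set _ _).ge

variable {Y : Subgroup X} {B : Set Φ} {ln : Φ → Φ → Set Φ} {τ : Φ → Φ → X}

omit [Finite X] in
theorem Lin.two_le (h : Lin Y B k ln τ) {x y : Φ} (hx : x ∈ B) (hy : y ∈ B) (e : x ≠ y) :
    2 ≤ (B ∩ ln x y).ncard :=
  (Set.one_lt_ncard (Set.toFinite _)).2 ⟨x, ⟨hx, h.l x hx y hy e⟩, y, ⟨hy, h.r x hx y hy e⟩, e⟩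

omit [Finite X] in
theorem Lin.three (h : Lin Y B k ln τ) (hk : Odd k) {x y : Φ} (hx : x ∈ B) (hy : y ∈ B)
    (e : x ≠ y) : (B ∩ ln x y).ncard = 3 := by
  have := h.two_le hx hy e
  have := h.le x hx y hy e
  have := h.par x hx y hy e
  have := Nat.odd_iff.1 hk
  omega

omit [Finite X] in
theorem Lin.three_dvd (h : Lin Y B k ln τ) (hk : Odd k) : 3 ∣ k * (k - 1) := by
  rw [← h.card, ← ncard_offDiag B.toFinite, LG4.ncard_eq_mul_of_classes _ (Set.toFinite _)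
    (fun p => ln p.1 p.2) 6]
  · exact Dvd.dvd.mul_left (by decide) _
  rintro ⟨x, y⟩ ⟨hx, hy, e⟩
  have := ncard_offDiag (B ∩ ln x y).toFinite
  rw [h.three hk hx hy e] at this
  refine Eq.trans (congrArg _ ?_) this
  refine Set.ext fun ⟨u, v⟩ => ⟨fun ⟨⟨hu, hv, e'⟩, f⟩ => ?_,
    fun ⟨hu, hv, e'⟩ => ⟨⟨hu.1, hv.1, e'⟩, h.uq x hx y hy e u hu.1 v hv.1 e' hu.2 hv.2⟩⟩
  exact ⟨⟨hu, (show ln u v = ln x y from f) ▸ h.l u hu v hv e'⟩,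
    ⟨hv, (show ln u v = ln x y from f) ▸ h.r u hu v hv e'⟩, e'⟩

theorem Lin.even (h : Lin Y B k ln τ) {r : ℕ} (hr : r.Prime) (hk : k = r + 1) (h2 : r ≠ 2) :
    ∃ ψ ∈ Y, PE r ψ ∧ ∃ x ∈ B, ψ • x ≠ x := by
  have := hr.two_le
  have h3 := Nat.odd_iff.1 (hr.odd_of_ne_two h2)
  obtain ⟨x, hx, y, hy, e⟩ := (Set.one_lt_ncard B.toFinite).1 (by rw [h.card]; omega)
  have hS : ∀ g ∈ Y ⊓ stabilizer X x, ∀ w ∈ B \ {x}, g • w ∈ B \ {x} := fun g hg w hw =>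
    ⟨h.stab g hg.1 w hw.1, fun f => hw.2 (smul_left_cancel g (f.trans hg.2.symm))⟩
  refine (exists_pe (Y ⊓ stabilizer X x) hr y (B \ {x}) (fun q => ⟨fun hq =>
    gleason_step Nat.prime_two _ _ (Set.toFinite _) hS (fun w hw => ?_) ⟨hy, e.symm⟩ hq,
    fun ⟨g, hg, f⟩ => f ▸ hS g hg y ⟨hy, e.symm⟩⟩)
    (by rw [Set.ncard_sdiff_singleton_of_mem hx, h.card, hk]; rfl)).imp
      fun ψ ⟨p1, p2, p3⟩ => ⟨p1.1, p2, y, hy, p3⟩
  have f : x ≠ w := Ne.symm hw.2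
  have h4 := h.fx x hx w hw.1 f
  obtain ⟨j, hj⟩ := h.pe x hx w hw.1 f
  refine ⟨zpowers (τ x w), zpowers_le.2 ⟨h.mem x hx w hw.1 f, mem_Fx.1 (h4 ▸ h.l x hx w hw.1 f)⟩,
    fun ⟨_, n, rfl⟩ => ⟨j, Subtype.ext ?_⟩, zpowers_le (H := stabilizer X w).2
      (mem_Fx.1 (h4 ▸ h.r x hx w hw.1 f)), fun u hu H => ?_⟩
  · change (τ x w ^ n) ^ 2 ^ j = 1
    rw [← zpow_natCast, ← zpow_mul, mul_comm, zpow_mul, zpow_natCast, hj, one_zpow]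
  by_contra e'
  have h5 := (Set.two_lt_ncard (B ∩ ln x w).toFinite).2 ⟨x, ⟨hx, h.l x hx w hw.1 f⟩, w,
    ⟨hw.1, h.r x hx w hw.1 f⟩, u, ⟨hu.1, h4 ▸ H _ (mem_zpowers _)⟩, f, Ne.symm hu.2, Ne.symm e'⟩
  have := h.le x hx w hw.1 f
  have := h.par x hx w hw.1 f
  omega

theorem Lin.seven (h : Lin Y B 7 ln τ) : ∃ ψ ∈ Y, PE 3 ψ ∧ ∃ x ∈ B, ψ • x ≠ x := by
  by_contra! H
  have h3 : ∀ x ∈ B, (ln x '' (B \ {x})).ncard = 3 := fun x hx => by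
    have := LG4.ncard_eq_mul_of_classes (B \ {x}) (Set.toFinite _) (ln x) 2 fun y hy => by
      have e : x ≠ y := Ne.symm hy.2
      have := Set.ncard_sdiff_singleton_of_mem (s := B ∩ ln x y) ⟨hx, h.l x hx y hy.1 e⟩
      rw [h.three (by decide) hx hy.1 e] at this
      refine Eq.trans (congrArg _ ?_) this
      exact Set.ext fun u => ⟨fun ⟨hu, f⟩ =>
        ⟨⟨hu.1, f ▸ h.r x hx u hu.1 (Ne.symm hu.2)⟩, hu.2⟩, fun ⟨hu, f⟩ => ⟨⟨hu.1, f⟩,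
          h.uq x hx y hy.1 e x hx u hu.1 (Ne.symm f) (h.l x hx y hy.1 e) hu.2⟩⟩
    rw [Set.ncard_sdiff_singleton_of_mem hx, h.card] at this
    omega
  have hS : ∀ x ∈ B, ∀ g ∈ Y ⊓ stabilizer X x, ∀ C ∈ ln x '' (B \ {x}),
      g • C ∈ ln x '' (B \ {x}) := by
    rintro x hx g hg _ ⟨y, hy, rfl⟩
    rw [h.smul g hg.1 x hx y hy.1 (Ne.symm hy.2), mem_stabilizer_iff.1 hg.2]
    exact ⟨_, ⟨h.stab g hg.1 y hy.1, fun f => hy.2 (smul_left_cancel g (f.trans hg.2.symm))⟩, rfl⟩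
  have h4 : ∀ x ∈ B, ∃ u ∈ B, x ≠ u ∧ ∀ g ∈ Y ⊓ stabilizer X x, g • ln x u = ln x u := by
    intro x hx
    rcases fix3 _ (h3 x hx) (hS x hx) with ⟨_, ⟨u, hu, rfl⟩, e⟩ | ⟨_, ⟨u, hu, rfl⟩, ψ, p1, p2, p3⟩
    · exact ⟨u, hu.1, Ne.symm hu.2, e⟩
    · exact absurd (by rw [h.smul ψ p1.1 x hx u hu.1 (Ne.symm hu.2), H ψ p1.1 p2 x hx,
        H ψ p1.1 p2 u hu.1]) p3
  choose! u u1 u2 u3 using h4
  have h5 : ∀ y ∈ B, ∀ y' ∈ B, y ≠ y' → y' ∉ ln y (u y) → ∀ g ∈ Y, g • y = y → g • y' = y' →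
      ∀ p ∈ B, y ≠ p → g • p ∈ ln y p := fun y hy y' hy' e n g hg e1 e2 p hp e3 => by
    rw [← fix_of_two (h3 y hy) (hS y hy g ⟨hg, e1⟩) ⟨_, ⟨u1 y hy, (u2 y hy).symm⟩, rfl⟩
      ⟨_, ⟨hy', e.symm⟩, rfl⟩ ⟨_, ⟨hp, e3.symm⟩, rfl⟩ (fun f => n (f ▸ h.r y hy y' hy' e))
      (u3 y hy g ⟨hg, e1⟩) (by rw [h.smul g hg y hy y' hy' e, e1, e2])]
    exact Set.smul_mem_smul_set (h.r y hy p hp e3)
  have h6 : ∀ y ∈ B, ∀ y' ∈ B, y ≠ y' → y' ∉ ln y (u y) → y ∈ ln y' (u y') := by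
    intro y hy y' hy' e n
    by_contra n'
    obtain ⟨p, hp, np⟩ := exists_not_mem (S := B) (T := ln y y')
      (by rw [h.card, h.three (by decide) hy hy' e]; decide)
    have f := h.fx y hy y' hy' e
    have a1 := h.l y hy y' hy' e
    have a2 := h.r y hy y' hy' e
    have b1 := ne_of_mem_of_not_mem a1 np
    have b2 := ne_of_mem_of_not_mem a2 np
    have m := h.mem y hy y' hy' e
    have c1 := mem_Fx.1 (f ▸ a1)
    have c2 := mem_Fx.1 (f ▸ a2)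
    have d : p ≠ τ y y' • p := fun e' => np (f ▸ e'.symm)
    have g1 := h.uq y hy p hp b1 p hp _ (h.stab _ m p hp) d (h.r y hy p hp b1)
      (h5 y hy y' hy' e n _ m c1 c2 p hp b1)
    have g2 := h.uq y' hy' p hp b2 p hp _ (h.stab _ m p hp) d (h.r y' hy' p hp b2)
      (h5 y' hy' y hy e.symm n' _ m c2 c1 p hp b2)
    exact np (h.uq y hy p hp b1 y hy y' hy' e (h.l y hy p hp b1)
      (g1.symm.trans g2 ▸ h.l y' hy' p hp b2) ▸ h.r y hy p hp b1)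
  have h7 : ∀ x ∈ B, (B ∩ ln x (u x)).ncard = 3 := fun x hx =>
    h.three (by decide) hx (u1 x hx) (u2 x hx)
  have h8 : ∀ x ∈ B, x ∈ ln x (u x) := fun x hx => h.l x hx _ (u1 x hx) (u2 x hx)
  obtain ⟨x, hx⟩ := Set.nonempty_of_ncard_ne_zero (s := B) (by rw [h.card]; decide)
  obtain ⟨y, hy, n⟩ := exists_not_mem (S := B) (T := ln x (u x)) (by rw [h.card, h7 x hx]; decide)
  obtain ⟨y', hy', n'⟩ := exists_not_mem (S := B) (T := ln x (u x) ∪ ln y (u y)) (by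
    have := Set.ncard_union_le (B ∩ ln x (u x)) (B ∩ ln y (u y))
    rw [h7 x hx, h7 y hy, ← Set.inter_union_distrib_left] at this
    rw [h.card]
    omega)
  have e := ne_of_mem_of_not_mem (h8 x hx) n
  have a1 := h6 x hx y hy e n
  have a2 := h6 x hx y' hy' (ne_of_mem_of_not_mem (Set.mem_union_left _ (h8 x hx)) n')
    fun f => n' (.inl f)
  have a3 := h6 y hy y' hy' (ne_of_mem_of_not_mem (Set.mem_union_right _ (h8 y hy)) n')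
    fun f => n' (.inr f)
  exact n' (.inr ((h.uq y' hy' _ (u1 _ hy') (u2 _ hy') x hx y hy e a2 a3).symm.trans
    (h.uq y hy _ (u1 _ hy) (u2 _ hy) x hx y hy e a1 (h8 y hy)) ▸ h8 y' hy'))

end L1

variable {X Φ : Type*} [Group X] [MulAction X Φ] [Finite X] [Finite Φ] {k : ℕ}

theorem SR.three_dvd (h : SR X Φ k) (hk : Odd k) : 3 ∣ k * (k - 1) := by
  by_cases h4 : 4 ≤ Nat.card Φ
  · obtain ⟨s, -, hs⟩ := Set.exists_subset_card_eq (s := (Set.univ : Set Φ)) (n := 4)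
      (by rwa [Set.ncard_univ])
    obtain ⟨B, hB, -⟩ := h.exists_blk hs
    obtain ⟨a, ha, h1⟩ := h.exists_om hB
    obtain ⟨z, -, hz⟩ := L1.exists_not_mem (S := Set.univ) (T := B) (by
      rw [Set.univ_inter, Set.ncard_univ, h.card_blk hB]; exact h.lt)
    obtain ⟨ln, τ, H⟩ := L1.exists_lin h hB ha.1 h1 ha.2.1 hz ⊤ fun _ _ => le_top
    exact H.three_dvd hk
  · have := h.lt
    obtain rfl : k = 1 := by have := Nat.odd_iff.1 hk; omega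
    decide

open Pointwise in
theorem SR.psi (h : SR X Φ k) {B : Set Φ} (hB : Blk X B) {a : X} (ha : a ∈ Pz X 2 B) (h1 : a ≠ 1)
    (h2 : a * a = 1) {z : Φ} (hz : z ∉ B) {r : ℕ}
    (hr : k = 4 ∧ r = 3 ∨ k = 6 ∧ r = 5 ∨ k = 7 ∧ r = 3) (Y : Subgroup X)
    (hY : ∀ B' : Set Φ, Blk X B' → Pz X 2 B' ≤ Y) :
    ∃ ψ ∈ Y, PE r ψ ∧ (∀ x ∈ B, ψ • x ∈ B) ∧ ψ • z = z ∧ ψ • a • z = a • z ∧
      ∃ x ∈ B, ψ • x ≠ x := by
  obtain ⟨ln, τ, H⟩ := L1.exists_lin h hB ha h1 h2 hz Y hY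
  obtain ⟨ψ, p1, p2, p3⟩ : ∃ ψ ∈ Y ⊓ stabilizer X B ⊓ stabilizer X z ⊓ stabilizer X (a • z),
      PE r ψ ∧ ∃ x ∈ B, ψ • x ≠ x := by
    rcases hr with ⟨rfl, rfl⟩ | ⟨rfl, rfl⟩ | ⟨rfl, rfl⟩
    · exact H.even Nat.prime_three rfl (by decide)
    · exact H.even Nat.prime_five rfl (by decide)
    · exact H.seven
  exact ⟨ψ, p1.1.1.1, p2, H.stab ψ p1, p1.1.2, p1.2, p3⟩

end Cfsg.Lib.Fr4
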