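import Cfsg.Agent.Fr4.Hall
import Cfsg.Agent.Solv.Nilpotent
import Cfsg.Agent.Solv.CyclicP
import Cfsg.Agent.FT.BG3.Semireg

/-!
# Four-fold transitive groups with a Frobenius four-point stabiliser: Sylow arguments
-/

set_option autoImplicit false
set_option linter.unusedSectionVars false

namespace Cfsg.Lib.Fr4

open MulAction Subgroup Cfsg.Lib.Perm Cfsg.Lib.Trans
open scoped commutatorElement Pointwise

variable {G Ω : Type*} [Group G] [MulAction G Ω] [Finite G] {r : ℕ}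

theorem PE.mul_of_nilpotent (hr : r.Prime) {K : Subgroup G} (hK : Group.IsNilpotent K) {a b : G}
    (ha : a ∈ K) (hb : b ∈ K) (h1 : PE r a) (h2 : PE r b) : PE r (a * b) := by
  have := Fact.mk hr
  have key : ∀ c : K, PE r (c : G) → ∃ P : Sylow r K, c ∈ (P : Subgroup K) := fun c ⟨j, hj⟩ => by
    obtain ⟨P, hP⟩ := (PE.isPGroup (g := c) ⟨j, Subtype.ext hj⟩).exists_le_sylow
    exact ⟨P, hP (mem_zpowers c)⟩
  obtain ⟨P, hP⟩ := key ⟨a, ha⟩ h1
  obtain ⟨P', hP'⟩ := key ⟨b, hb⟩ h2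
  have := Sylow.unique_of_normal P inferInstance
  rw [Subsingleton.elim P' P] at hP'
  exact (PE.of_mem P.isPGroup' (mul_mem hP hP')).map K.subtype

theorem PE.mul_of_norm (hr : r.Prime) {P : Subgroup G} (hP : IsPGroup r P) {t b : G} (ht : PE r t)
    (hn : t ∈ normalizer (P : Set G)) (hb : b ∈ P) : PE r (b * t) :=
  have := Fact.mk hr
  PE.of_mem (IsPGroup.to_sup_of_normal_left' hP ht.isPGroup (zpowers_le.2 hn))
    (mul_mem (mem_sup_left hb) (mem_sup_right (mem_zpowers t)))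

theorem exists_of_mem_sup {D : Subgroup G} {ψ x : G} (hn : ψ ∈ normalizer (D : Set G))
    (hx : x ∈ D ⊔ zpowers ψ) : ∃ i : ℕ, ∃ d ∈ D, x = ψ ^ i * d := by
  have : x ∈ ((zpowers ψ ⊔ D : Subgroup G) : Set G) := sup_comm D _ ▸ hx
  rw [coe_mul_of_left_le_normalizer_right _ _ (zpowers_le.2 hn)] at this
  obtain ⟨_, hy, d, hd, rfl⟩ := this
  obtain ⟨i, rfl⟩ := mem_powers_iff_mem_zpowers.2 hy
  exact ⟨i, d, hd, rfl⟩

/-- Two `r`-elements in the same coset of `D`, whose `r`-elements form a group. -/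
theorem sylow_coset (hr : r.Prime) {D : Subgroup G}
    (hmul : ∀ a ∈ D, ∀ b ∈ D, PE r a → PE r b → PE r (a * b)) {ψ χ : G} (h1 : PE r ψ) (h2 : PE r χ)
    (hn : ψ ∈ normalizer (D : Set G)) (hc : χ * ψ⁻¹ ∈ D) :
    ∃ d ∈ D, d * χ * d⁻¹ * ψ⁻¹ ∈ D ∧ PE r (d * χ * d⁻¹ * ψ⁻¹) := by
  have := Fact.mk hr
  let O : Subgroup G :=
    { carrier := {g | g ∈ D ∧ PE r g}
      one_mem' := ⟨one_mem _, PE.one⟩
      mul_mem' := fun ha hb => ⟨mul_mem ha.1 hb.1, hmul _ ha.1 _ hb.1 ha.2 hb.2⟩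
      inv_mem' := fun ha => ⟨inv_mem ha.1, ha.2.inv⟩ }
  have hO : IsPGroup r O := isPGroup_of_PE fun _ hg => hg.2
  have hnO : ψ ∈ normalizer (O : Set G) :=
    mem_normalizer_fintype fun _ hg => ⟨mem_normalizer_conj hn hg.1, hg.2.conj ψ⟩
  have hT := IsPGroup.to_sup_of_normal_left' hO h1.isPGroup (zpowers_le.2 hnO)
  have hψ : ψ ∈ O ⊔ zpowers ψ := mem_sup_right (mem_zpowers ψ)
  have hS : IsSylowIn r (O ⊔ zpowers ψ) (D ⊔ zpowers ψ) :=
    isSylowIn_of_maximal (sup_le_sup_right (fun _ hg => hg.1) _) hT fun R hR h3 h4 x hx => by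
      obtain ⟨i, d, hd, rfl⟩ := exists_of_mem_sup hn (h4 hx)
      have h5 : d ∈ R := (mul_mem_cancel_left (pow_mem (h3 hψ) i)).1 hx
      exact mul_mem (pow_mem hψ i) (mem_sup_left ⟨hd, PE.of_mem hR h5⟩)
  obtain ⟨g, hg, hg'⟩ := hS.exists_cj_le h2.isPGroup (zpowers_le.2 (by
    have := mul_mem (mem_sup_left hc : _ ∈ D ⊔ zpowers ψ) (mem_sup_right (mem_zpowers ψ))
    rwa [inv_mul_cancel_right] at this))
  obtain ⟨i, d, hd, rfl⟩ := exists_of_mem_sup hn hg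
  have h3 := cj_le_iff.1 hg' χ (mem_zpowers χ)
  refine ⟨d, hd, ?_, PE.of_mem hT ?_⟩
  · have := mul_mem (mul_mem hd hc) (mem_normalizer_conj hn (inv_mem hd))
    convert this using 1
    group
  · have := mul_mem (mul_mem (mul_mem (inv_mem (pow_mem hψ i)) h3) (pow_mem hψ i)) (inv_mem hψ)
    convert this using 1
    group

/-- An `r`-element normalising `D` normalises a Sylow `r`-subgroup of `D`. -/
theorem exists_norm_sylow (hr : r.Prime) {D : Subgroup G} {ψ : G} (h1 : PE r ψ)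
    (hn : ψ ∈ normalizer (D : Set G)) :
    ∃ S, IsSylowIn r S D ∧ ψ ∈ normalizer (S : Set G) := by
  have := Fact.mk hr
  obtain ⟨T, hT, h2⟩ := exists_isSylowIn_ge h1.isPGroup (le_sup_right : _ ≤ D ⊔ zpowers ψ)
  refine ⟨T ⊓ D, hT.inf_normal_of_le (sup_le le_normalizer (zpowers_le.2 hn)) le_sup_left, ?_⟩
  have h3 := h2 (mem_zpowers ψ)
  exact mem_normalizer_fintype fun g hg =>
    ⟨T.mul_mem (T.mul_mem h3 hg.1) (T.inv_mem h3), mem_normalizer_conj hn hg.2⟩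

theorem exists_ord_comm (hr : r.Prime) {D : Subgroup G} {ψ : G} (h1 : PE r ψ)
    (hn : ψ ∈ normalizer (D : Set G)) (hd : r ∣ Nat.card D) :
    ∃ h ∈ D, orderOf h = r ∧ ψ * h = h * ψ := by
  have := Fact.mk hr
  obtain ⟨S, hS, h2⟩ := exists_norm_sylow hr h1 hn
  obtain ⟨a, ha, h3, h4⟩ := exists_comm_ne_one hr h1 hS.isPGroup
    (fun e => hS.not_dvd (by rwa [e, relIndex_bot_left])) fun a ha => mem_normalizer_conj h2 ha
  obtain ⟨j, hj⟩ := (PE.of_mem hS.isPGroup ha).exists_pow hr h3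
  exact ⟨a ^ j, pow_mem (hS.le ha) j, hj, (Commute.pow_right h4 j).eq⟩

/-- The Frattini argument for the commutator subgroup of the induced group. -/
theorem exists_comm_lift {W : Subgroup G} {h : G}
    (hF : ∀ n ∈ normalizer (W : Set G), ∃ d ∈ Dx G (Fs Ω W),
      d * n ∈ normalizer (zpowers h : Set G)) {σ : resX Ω W} (hσ : σ ∈ commutator (resX Ω W)) :
    ∃ c : G, c * h = h * c ∧ ∀ x : FixT Ω W, ((σ • x : FixT Ω W) : Ω) = c • (x : Ω) := by
  let L : Subgroup (resX Ω W) :=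
    { carrier := {σ | ∃ c : G, c * h = h * c ∧
        ∀ x : FixT Ω W, ((σ • x : FixT Ω W) : Ω) = c • (x : Ω)}
      one_mem' := ⟨1, by simp, fun x => by rw [one_smul, one_smul]⟩
      mul_mem' := by
        rintro σ τ ⟨g, hg, h1⟩ ⟨k, hk, h2⟩
        exact ⟨g * k, by rw [mul_assoc, hk, ← mul_assoc, hg, mul_assoc],
          fun x => by rw [mul_smul, h1, h2, mul_smul]⟩
      inv_mem' := by
        rintro σ ⟨g, hg, h1⟩
        exact ⟨g⁻¹, (Commute.inv_left hg).eq, fun x => by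
          rw [eq_inv_smul_iff, ← h1, smul_inv_smul]⟩ }
  have key : ∀ τ : resX Ω W, ∃ n ∈ normalizer (zpowers h : Set G),
      ∀ x : FixT Ω W, ((τ • x : FixT Ω W) : Ω) = n • (x : Ω) := fun τ => by
    obtain ⟨n, hn, h1⟩ := resX_exists τ
    obtain ⟨d, hd, h2⟩ := hF n hn
    exact ⟨d * n, h2, fun x => by rw [mul_smul, ← h1, mem_Dx.1 hd _ (τ • x).2]⟩
  refine (commutator_le.2 fun a _ b _ => ?_ : commutator _ ≤ L) hσ
  obtain ⟨n, hn, h1⟩ := key a
  obtain ⟨k, hk, h2⟩ := key b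
  refine ⟨⁅n, k⁆, (mem_centralizer_iff.1
    (Solv.PG.commutator_mem_centralizer_of_isCyclic hn hk) h (mem_zpowers h)).symm, fun x => ?_⟩
  have h3 : ∀ x : FixT Ω W, ((a⁻¹ • x : FixT Ω W) : Ω) = n⁻¹ • (x : Ω) := fun x => by
    rw [eq_inv_smul_iff, ← h1, smul_inv_smul]
  have h4 : ∀ x : FixT Ω W, ((b⁻¹ • x : FixT Ω W) : Ω) = k⁻¹ • (x : Ω) := fun x => by
    rw [eq_inv_smul_iff, ← h2, smul_inv_smul]
  simp only [commutatorElement_def, mul_smul, h1, h2, h3, h4]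

theorem smul_eq_of_pow {g : G} {x : Ω} {n : ℕ} (h : g ^ n • x = x) (hc : n.Coprime (orderOf g)) :
    g • x = x := by
  obtain ⟨j, hj⟩ := exists_pow_eq_self_of_coprime hc
  rw [← hj]
  exact pow_smul_eq h j

/-- An element all of whose prime divisors are larger than a set it stabilises fixes the set. -/
theorem smul_eq_of_coprime [Finite Ω] {g : G} {S : Set Ω} (hS : ∀ x ∈ S, g • x ∈ S)
    (hc : ∀ p : ℕ, p.Prime → p ∣ orderOf g → S.ncard < p) : ∀ x ∈ S, g • x = x := by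
  intro x hx
  have h1 : (orbit (zpowers g) x).ncard ≤ S.ncard := Set.ncard_le_ncard (by
    rintro _ ⟨k, rfl⟩
    exact zpowers_smul_mem hS k k.2 x hx)
  have h2 : (orbit (zpowers g) x).ncard ∣ orderOf g := by
    rw [← index_stabilizer, ← Nat.card_zpowers]
    exact index_dvd_card _
  by_contra hne
  have h3 : (orbit (zpowers g) x).ncard ≠ 1 := fun e => by
    obtain ⟨y, hy⟩ := Set.ncard_eq_one.1 e
    have h4 : x ∈ orbit (zpowers g) x := mem_orbit_self x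
    have h5 : g • x ∈ orbit (zpowers g) x := ⟨⟨g, mem_zpowers g⟩, rfl⟩
    rw [hy] at h4 h5
    exact hne (h5.trans h4.symm)
  obtain ⟨p, hp, hd⟩ := Nat.exists_prime_and_dvd h3
  have h6 := hc p hp (hd.trans h2)
  have h7 := Nat.le_of_dvd ((Set.ncard_pos).2 ⟨x, mem_orbit_self x⟩) hd
  omega

theorem PE.smul_eq [Finite Ω] (hr : r.Prime) {g : G} (hg : PE r g) {S : Set Ω}
    (hS : ∀ x ∈ S, g • x ∈ S) (hc : S.ncard < r) : ∀ x ∈ S, g • x = x :=
  smul_eq_of_coprime hS fun p hp hd => by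
    obtain ⟨j, hj⟩ := hg.orderOf_eq hr
    rwa [(Nat.prime_dvd_prime_iff_eq hp hr).1 (hp.dvd_of_dvd_pow (hj ▸ hd))]

theorem exists_conj_of_odd {s u : G} (hs : s * s = 1) (hu : u * u = 1)
    (h : Odd (orderOf (s * u))) : ∃ g : G, g * s * g⁻¹ = u := by
  obtain ⟨j, hj⟩ := h
  have h1 : s * (s * u) * s⁻¹ = (s * u)⁻¹ := by
    rw [← mul_assoc, hs, one_mul, mul_inv_rev, inv_eq_of_mul_eq_one_right hu]
  have h2 : s * (s * u) ^ j * s⁻¹ = ((s * u) ^ j)⁻¹ := by rw [← conj_pow, h1, inv_pow]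
  have h3 : (s * u) ^ j * (s * u) ^ j * (s * u) = 1 := by
    rw [← pow_add, ← pow_succ, ← two_mul, ← hj, pow_orderOf_eq_one]
  refine ⟨(s * u) ^ j, ?_⟩
  rw [← h2, ← mul_assoc, ← mul_assoc, mul_assoc _ s s, hs, mul_one,
    eq_inv_of_mul_eq_one_left h3, h1.symm.trans h1, mul_inv_rev, inv_eq_of_mul_eq_one_right hs,
    inv_eq_of_mul_eq_one_right hu, mul_assoc, hs, mul_one]

theorem comm_of_coprime_totient {x n : G} (hn : n ∈ normalizer (zpowers x : Set G))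
    (hc : (orderOf n).Coprime (orderOf x).totient) : n * x = x * n := by
  have h1 : (zpowers x).normalizerMonoidHom ⟨n, hn⟩ = 1 := by
    rw [← orderOf_eq_one_iff]
    refine Nat.eq_one_of_dvd_coprimes hc ?_ ?_
    · exact (orderOf_map_dvd _ _).trans (by rw [orderOf_mk])
    · rw [← Nat.card_zpowers x, ← IsCyclic.card_mulAut]
      exact orderOf_dvd_natCard _
  have h2 : (⟨n, hn⟩ : normalizer (zpowers x : Set G)) ∈ (zpowers x).normalizerMonoidHom.ker := h1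
  rw [normalizerMonoidHom_ker, mem_subgroupOf] at h2
  exact (mem_centralizer_iff.1 h2 x (mem_zpowers x)).symm

theorem orderOf_dvd_card_sub_one {x : G} {A : Subgroup G} (hn : ∀ a ∈ A, x * a * x⁻¹ ∈ A)
    (hf : ∀ i : ℕ, x ^ i ≠ 1 → ∀ a ∈ A, x ^ i * a = a * x ^ i → a = 1) :
    orderOf x ∣ Nat.card A - 1 := by
  rw [← Nat.card_zpowers]
  refine FT.semiregular_card_dvd (zpowers_le.2 (mem_normalizer_fintype hn)) fun y hy h1 => ?_
  obtain ⟨i, rfl⟩ := mem_powers_iff_mem_zpowers.2 hy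
  exact eq_bot_iff.2 fun a ha => hf i h1 a ha.1 (mem_centralizer_singleton_iff.1 ha.2).symm

theorem mem_of_forall_PE {S : Subgroup G} {g : G}
    (h : ∀ p : ℕ, p.Prime → ∀ i : ℕ, PE p (g ^ i) → g ^ i ∈ S) : g ∈ S :=
  Solv.le_of_forall_prime_pow_mem (K := zpowers g) (fun p hp k x hx ho => by
    obtain ⟨i, rfl⟩ := mem_powers_iff_mem_zpowers.2 hx
    exact h p hp i ⟨k, ho ▸ pow_orderOf_eq_one _⟩) (mem_zpowers g)

theorem exists_prime_pow {g : G} (h1 : g ≠ 1) :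
    ∃ p : ℕ, p.Prime ∧ p ∣ orderOf g ∧ ∃ j, orderOf (g ^ j) = p := by
  obtain ⟨p, hp, hd⟩ := Nat.exists_prime_and_dvd (mt orderOf_eq_one_iff.1 h1)
  exact ⟨p, hp, hd, _, orderOf_pow_orderOf_div (orderOf_pos g).ne' hd⟩

end Cfsg.Lib.Fr4
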