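import Cfsg.Agent.Fr4.Loc
import Cfsg.Agent.Fr4.SR1

/-!
# Four-fold transitive groups with a Frobenius four-point stabiliser: the block size is `4` or `7`
and `3` divides the order of the complement
-/

set_option autoImplicit false
set_option linter.unusedSectionVars false

namespace Cfsg.Lib.Fr4

open MulAction Subgroup Cfsg.Lib.Perm Cfsg.Lib.Trans

/-- A block `B`, an involution `a` of `N_P(Q) / Q`, and a point `z` off the block. -/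
structure Sc (G : Type*) {Ω : Type*} [Group G] [MulAction G Ω] (m k : ℕ) (Q : Subgroup G)
    (B : Set Ω) (a : G) (z : Ω) : Prop extends LQ G Ω m k Q where
  gb : GB G B
  sub : B ⊆ Fs Ω Q
  aP : a ∈ Pz G 2 B
  aM : a ∈ normalizer (Q : Set G)
  aQ : a ∉ Q
  aa : a * a ∈ Q
  zF : z ∈ Fs Ω Q
  zB : z ∉ B

/-- An `r`-element stabilising `B`, non-trivial on `B`, fixing `z` and `a • z`. -/
structure Ps {G Ω : Type*} [Group G] [MulAction G Ω] (r : ℕ) (B : Set Ω) (a : G) (z : Ω) (ψ : G) :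
    Prop where
  pe : PE r ψ
  st : ∀ x ∈ B, ψ • x ∈ B
  e1 : ψ • z = z
  e2 : ψ • a • z = a • z
  mv : ∃ x ∈ B, ψ • x ≠ x

variable {G Ω : Type*} [Group G] [MulAction G Ω] [Finite G] [Finite Ω] {m k r p : ℕ}
  {s U B : Set Ω} {Q : Subgroup G} {a ψ : G} {z : Ω}

theorem CB.inter_eq (h : CB G Ω m k) {B' T : Set Ω} (hB : GB G B) (hB' : GB G B') (ne : B ≠ B')
    (hT : T.ncard = 3) (h1 : T ⊆ B) (h2 : T ⊆ B') : B ∩ B' = T :=
  (Set.eq_of_subset_of_ncard_le (Set.subset_inter h1 h2) (by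
    by_contra hc
    exact ne (h.gb_eq hB hB' (by omega)))).symm

theorem exists_gb' {T : Set Ω} (hT : T.ncard = 3) {u : Ω} (hu : u ∉ T) :
    ∃ B, GB G B ∧ insert u T ⊆ B ∧ (insert u T).ncard = 4 := by
  have h1 : (insert u T).ncard = 4 := by rw [Set.ncard_insert_of_notMem hu, hT]
  obtain ⟨B, hB, h2⟩ := exists_gb (G := G) h1
  exact ⟨B, hB, h2, h1⟩

theorem CB.fix6 (h : CB G Ω m 6) (hm : 5 ∣ m) {y : G} (oy : orderOf y = 5)
    (h4 : 4 ≤ (Fx Ω y).ncard) : (Fx Ω y).ncard = 6 := by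
  obtain ⟨U, h1, hU⟩ := exists_sub_four h4
  obtain ⟨B, hB, h2⟩ := exists_gb (G := G) hU
  have h3 := mem_Dx_iff.1 (h.fix_blk (by norm_num) hB hU.ge h2 (mem_Dx_iff.2 h1))
  have h5 := (h.hallh h.odd Nat.prime_five hm oy hU (mem_Dx_iff.2 h1)).2.1
  have h6 := h.card_gb hB
  obtain ⟨T, hTB, hT⟩ := Set.exists_subset_card_eq (s := B) (n := 3) (by omega)
  have key : ∀ u ∈ Fx Ω y, u ∉ T → ∃ B', GB G B' ∧ u ∈ B' ∧ T ⊆ B' ∧ B' ⊆ Fx Ω y := by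
    intro u hu huT
    obtain ⟨B', hB', e1, e2⟩ := exists_gb' (G := G) hT huT
    exact ⟨B', hB', e1 (by simp), (Set.subset_insert _ _).trans e1, mem_Dx_iff.1 (h.fix_blk
      (by norm_num) hB' e2.ge e1 (mem_Dx_iff.2 (Set.insert_subset hu (hTB.trans h3))))⟩
  by_contra hne
  have h7 := Set.ncard_le_ncard h3
  obtain ⟨u, hu, huB⟩ := exists_mem_notMem (s := B) (t := Fx Ω y) (by omega)
  obtain ⟨B', hB', e1, e2, e3⟩ := key u hu fun e => huB (hTB e)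
  have h8 := Set.ncard_union_add_ncard_inter B B'
  rw [h.inter_eq hB hB' (fun e => huB (e ▸ e1)) hT hTB e2, hT, h6, h.card_gb hB'] at h8
  have h9 := Set.ncard_le_ncard (Set.union_subset h3 e3)
  obtain ⟨v, hv, hvB⟩ := exists_mem_notMem (s := B ∪ B') (t := Fx Ω y) (by omega)
  obtain ⟨C, hC, f1, f2, f3⟩ := key v hv fun e => hvB (Or.inl (hTB e))
  have h10 := Set.ncard_union_add_ncard_inter (B ∪ B') C
  rw [Set.union_inter_distrib_right, h.inter_eq hB hC (fun e => hvB (Or.inl (e ▸ f1))) hT hTB f2,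
    h.inter_eq hB' hC (fun e => hvB (Or.inr (e ▸ f1))) hT e2 f2, Set.union_self, hT,
    h.card_gb hC] at h10
  have h11 := Set.ncard_le_ncard (Set.union_subset (Set.union_subset h3 e3) f3)
  omega

theorem CB.three_dvd7 (h : CB G Ω m 7) : 3 ∣ m := by
  by_contra h3
  obtain ⟨U, -, hU⟩ := exists_sub_four (s := (Set.univ : Set Ω)) (by
    rw [Set.ncard_univ]; exact h.four)
  obtain ⟨B, hB, h1⟩ := exists_gb (G := G) hU
  have key : ∀ g ∈ Dx G U, ¬ Cp m g → ∀ x ∈ B, g • x = x := by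
    intro g hg hc x hx
    by_cases hxU : x ∈ U
    · exact mem_Dx.1 hg x hxU
    refine smul_eq_of_coprime (S := B \ U) (fun y hy => ⟨h.smul_mem' hB hU.ge h1 hg y hy.1,
      LQ.smul_notMem (fun w hw => by rwa [mem_Dx.1 hg w hw]) hy.2⟩) (fun p hp hd => ?_) x ⟨hx, hxU⟩
    have h4 := hd.trans (h.dvd hU.ge hg hc)
    have h5 := h.ne_two h4
    have h6 : p ≠ 3 := fun e => h3 (e ▸ h4)
    have := hp.two_le
    rw [Set.ncard_sdiff h1, h.card_gb hB, hU]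
    omega
  obtain ⟨n, hn, x, hx, h2⟩ := (h.hallP hB hU h1).2.2.1 rfl
  obtain ⟨p, hp, hm, g, hg, og⟩ := h.exists_not_cp hU
  have h4 := not_cp_of_dvd hp hm og.symm.dvd
  have h5 := key _ (mul_mem hn hg)
    (h.not_cop_mul hU.ge hn hg (by_contra fun e => h2 (key n hn e x hx)) h4) x hx
  rw [mul_smul, key g hg h4 x hx] at h5
  exact h2 h5

namespace LQ

theorem exists_sc (h : LQ G Ω m k Q) (hB : GB G B) (hBΦ : B ⊆ Fs Ω Q) :
    ∃ a : G, ∀ z ∈ Fs Ω Q, z ∉ B → Sc G m k Q B a z := by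
  obtain ⟨a, h1, h2, h3, h4⟩ := h.exists_a hB hBΦ
  exact ⟨a, fun z hz hzB => ⟨h, hB, hBΦ, h1, h2, h3, h4, hz, hzB⟩⟩

theorem k_ne (h : LQ G Ω m k Q) : k ≠ 5 ∧ k ≠ 11 := by
  constructor <;> rintro rfl <;> exact absurd (h.sr.three_dvd (by decide)) (by decide)

theorem exists_cent (h : LQ G Ω m k Q) (hU : U.ncard = 4) (hUΦ : U ⊆ Fs Ω Q) {b : G}
    (hM : b ∈ normalizer (Q : Set G)) (pb : PE 2 b) (hb : ∀ x ∈ U, b • x ∈ U) :
    ∃ c ∈ Pz G 2 U, c ∈ normalizer (Q : Set G) ∧ c ∉ Q ∧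
      ∀ x ∈ Fs Ω Q, b • c • x = c • b • x := by
  obtain ⟨σ, e⟩ := exists_resX (α := Ω) hM
  have h4 := (ncard_preimage hUΦ).trans hU
  obtain ⟨τ, h1, h2, h3⟩ := exists_comm_ne_one Nat.prime_two (pe_res pb e) (h.sr.isPGroup h4.ge)
    (fun e' => by
      obtain ⟨c, c1, c2, c3⟩ := h.sr.ex _ h4
      exact c2 (mem_bot.1 (e' ▸ mem_Pz_of c1 c3)))
    fun c hc => mem_normalizer_conj (mem_normalizer_Pz fun x hx => by
      change ((σ • x : FixT Ω Q) : Ω) ∈ U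
      rw [e]
      exact hb _ hx) hc
  obtain ⟨c, c1, c2, c3⟩ := h.liftP hUΦ hU.ge h1
  refine ⟨c, c1, c2, fun hq => h2 (resX_eq_one fun x => Subtype.ext ((c3 x).trans (x.2 c hq))),
    fun x hx => ?_⟩
  have := congrArg (fun ρ : resX Ω Q => ((ρ • (⟨x, hx⟩ : FixT Ω Q) : FixT Ω Q) : Ω)) h3
  simpa only [mul_smul, e, c3] using this

end LQ

namespace Sc

theorem azF (h : Sc G m k Q B a z) : a • z ∈ Fs Ω Q := smul_mem_Fs h.aM h.zF

theorem afix (h : Sc G m k Q B a z) {x : Ω} (hx : x ∈ B) : a • x = x := mem_Dx.1 (Pz_le 2 B h.aP) x hx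

theorem azB (h : Sc G m k Q B a z) : a • z ∉ B :=
  LQ.smul_notMem (fun x hx => by rwa [h.afix hx]) h.zB

theorem ane (h : Sc G m k Q B a z) {y : Ω} (hy : y ∈ Fs Ω Q) (hyB : y ∉ B) : a • y ≠ y :=
  fun e => h.aQ (h.mem_Q h.gb h.sub hy hyB h.aP e)

theorem az_ne (h : Sc G m k Q B a z) : a • z ≠ z := h.ane h.zF h.zB

theorem aay (h : Sc G m k Q B a z) {y : Ω} (hy : y ∈ Fs Ω Q) : a • a • y = y := by
  rw [← mul_smul, hy _ h.aa]

theorem psi (h : Sc G m k Q B a z) (hr : k = 4 ∧ r = 3 ∨ k = 6 ∧ r = 5 ∨ k = 7 ∧ r = 3)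
    (Y : Subgroup G) (hY : ∀ B' : Set Ω, GB G B' → B' ⊆ Fs Ω Q → ∀ g ∈ Pz G 2 B',
      g ∈ normalizer (Q : Set G) → g ∈ Y) : ∃ ψ ∈ Y, Ps r B a z ψ := by
  have pr : r.Prime := by rcases hr with h | h | h <;> rw [h.2] <;> decide
  obtain ⟨σ, e⟩ := exists_resX (α := Ω) h.aM
  obtain ⟨τ, ⟨n, hn, rfl⟩, ⟨j, hj⟩, h3, h4, h5, x, h6, h7⟩ := h.sr.psi (h.blkX h.gb h.sub)
    (h.mem_PX h.sub e h.gb.four h.aP) ((h.res_ne_one h.gb h.sub e h.aP).2 h.aQ)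
    (resX_eq_one fun x => Subtype.ext (by rw [mul_smul, e, e, h.aay x.2]))
    (z := ⟨z, h.zF⟩) h.zB hr ((Y.subgroupOf _).map (resHom Ω Q)) fun B' hB' ρ hρ => by
      obtain ⟨C, hC, h1, rfl⟩ := h.of_blkX hB'
      obtain ⟨g, g1, g2, g3⟩ := h.liftP h1 hC.four hρ
      exact ⟨⟨g, g2⟩, hY C hC h1 g g1 g2, Subtype.ext (Equiv.ext fun x => Subtype.ext
        ((resHom_smul ⟨g, g2⟩ x).trans (g3 x).symm))⟩
  obtain ⟨i, h8, h9⟩ := exists_PE_part (B := Fs Ω Q) pr (c := (n : G)) (e := j) fun y hy => by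
    have := resX_pow (resHom_smul n) (r ^ j) ⟨y, hy⟩
    rw [hj, one_smul] at this
    exact this.symm
  refine ⟨(n : G) ^ i, pow_mem hn i, h8, fun y hy => ?_, ?_, ?_, x, h6, ?_⟩
  · rw [h9 y (h.sub hy), ← resHom_smul n ⟨y, h.sub hy⟩]
    exact h3 _ hy
  · rw [h9 z h.zF, ← resHom_smul n ⟨z, h.zF⟩, h4]
  · have := congrArg Subtype.val h5
    rwa [resHom_smul, e, ← h9 _ h.azF] at this
  · rw [h9 _ x.2, ← resHom_smul n x]
    exact fun e => h7 (Subtype.ext e)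

theorem psM (h : Sc G m k Q B a z) (hψ : Ps r B a z ψ) : ψ ∈ normalizer (Q : Set G) :=
  h.mem_M h.gb h.sub hψ.st h.zF h.zB (hψ.e1.symm ▸ h.zF)

/-- A lift of `a` commuting with `ψ`. -/
theorem exists_b (h : Sc G m k Q B a z) (hr : r.Prime) (h2 : r ≠ 2) (hψ : Ps r B a z ψ) :
    ∃ b ∈ Pz G 2 B, b ∈ normalizer (Q : Set G) ∧ b ∉ Q ∧ ψ * b = b * ψ ∧
      ∀ y ∈ Fs Ω Q, b • y = a • y := by
  obtain ⟨b, h1, h3⟩ := h.exists_comm hr h2 hψ.pe (h.psM hψ)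
    (h.conj_mem h.gb h.sub h.zF h.zB h.aP hψ.st hψ.e1 hψ.e2)
  exact ⟨b, (mul_mem_cancel_left (inv_mem h.aP)).1 (h.le_P h.sub h1),
    (mul_mem_cancel_left (inv_mem h.aM)).1 (le_normalizer h1),
    fun e => h.aQ (inv_mem_iff.1 ((mul_mem_cancel_right e).1 h1)), h3,
    fun y hy => by rw [← inv_smul_eq_iff, ← mul_smul, hy _ h1]⟩

theorem par (h : Sc G m k Q B a z) (hr : r.Prime) (h2 : r ≠ 2) (hψ : Ps r B a z ψ) :
    (Fs Ω Q ∩ Fx Ω ψ).ncard ≡ (B ∩ Fx Ω ψ).ncard [MOD 2] := by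
  obtain ⟨b, b1, b2, b3, b4, -⟩ := h.exists_b hr h2 hψ
  exact h.parity h.gb h.sub b1 b2 b3 b4

theorem lt_blk (h : Sc G m k Q B a z) (hψ : Ps r B a z ψ) : (B ∩ Fx Ω ψ).ncard < k := by
  obtain ⟨x, hx, h1⟩ := hψ.mv
  rw [← h.card_gb h.gb]
  exact Set.ncard_lt_ncard ⟨Set.inter_subset_left, fun e => h1 (e hx).2⟩

theorem one_fix (h : Sc G m k Q B a z) (hr : r.Prime) (hk : k = r + 1) (hψ : Ps r B a z ψ) :
    ∃ w, B ∩ Fx Ω ψ = {w} := by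
  have h1 := hψ.pe.ncard_modEq hr hψ.st
  have h2 := h.lt_blk hψ
  rw [h.card_gb h.gb, hk] at h1
  refine Set.ncard_eq_one.1 ?_
  have h3 : 1 ≡ (B ∩ Fx Ω ψ).ncard [MOD r] := (Nat.add_modEq_left.symm).trans h1
  have h4 := hr.one_lt
  rcases (by omega : (B ∩ Fx Ω ψ).ncard < r ∨ (B ∩ Fx Ω ψ).ncard = r) with h5 | h5
  · exact (h3.eq_of_lt_of_lt h4 h5).symm
  · rw [h5, Nat.ModEq, Nat.mod_self, Nat.mod_eq_of_lt h4] at h3
    omega

theorem three_fix (h : Sc G m k Q B a z) (hr : k = 4 ∧ r = 3 ∨ k = 6 ∧ r = 5) (hm : ¬ r ∣ m)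
    (hψ : Ps r B a z ψ) {w : Ω} (hw : B ∩ Fx Ω ψ = {w}) : Fs Ω Q ∩ Fx Ω ψ = {w, z, a • z} := by
  have pr : r.Prime := by rcases hr with h | h <;> rw [h.2] <;> decide
  have h2 : r ≠ 2 := by omega
  have hw' : w ∈ B ∩ Fx Ω ψ := hw.ge rfl
  refine Set.Subset.antisymm (fun y hy => by_contra fun hc => ?_) (by
    rintro y (rfl | rfl | rfl)
    exacts [⟨h.sub hw'.1, hw'.2⟩, ⟨h.zF, hψ.e1⟩, ⟨h.azF, hψ.e2⟩])
  simp only [Set.mem_insert_iff, Set.mem_singleton_iff, not_or] at hc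
  have hyB : y ∉ B := fun e => hc.1 (hw.le ⟨e, hy.2⟩)
  obtain ⟨b, b1, b2, b3, b4, b5⟩ := h.exists_b pr h2 hψ
  have hay : a • y ∈ Fs Ω Q ∩ Fx Ω ψ := ⟨smul_mem_Fs h.aM hy.1, b5 y hy.1 ▸ smul_mem_Fx b4.symm hy.2⟩
  have hn : [z, a • z, y, a • y].Nodup := by
    simp only [List.nodup_cons, List.mem_cons, List.not_mem_nil, not_or, or_false,
      not_false_eq_true, List.nodup_nil, and_true, smul_left_cancel_iff]
    exact ⟨⟨h.az_ne.symm, Ne.symm hc.2.1, fun e => hc.2.2 (by rw [e, h.aay hy.1])⟩,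
      ⟨Ne.symm hc.2.2, Ne.symm hc.2.1⟩, (h.ane hy.1 hyB).symm⟩
  have hU : ({z, a • z, y, a • y} : Set Ω) ⊆ Fs Ω Q ∩ Fx Ω ψ := by
    rintro x (rfl | rfl | rfl | rfl)
    exacts [⟨h.zF, hψ.e1⟩, ⟨h.azF, hψ.e2⟩, hy, hay]
  obtain ⟨c, c1, c2, c3, c4⟩ := h.exists_cent (ncard_four hn) (hU.trans Set.inter_subset_left) h.aM
    (h.pe h.gb.four h.aP) (by
      rintro x (rfl | rfl | rfl | rfl) <;> simp [h.aay h.zF, h.aay hy.1])
  have pc := h.pe (ncard_four hn).ge c1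
  have h3 : ∀ x ∈ B, c • x ∈ B := fun x hx => h.Fx_inter h.gb h.sub h.aP h.aQ ▸
    ⟨smul_mem_Fs c2 (h.sub hx), by rw [mem_Fx, c4 x (h.sub hx), h.afix hx]⟩
  have h4 : ψ * c = c * ψ := h.comm (ncard_four hn).ge
    (mem_Dx_iff.2 (hU.trans Set.inter_subset_right)) (Pz_le 2 _ c1) (hψ.pe.coprime pr hm) (h.cp pc)
    (by
      obtain ⟨j, hj⟩ := pc.orderOf_eq Nat.prime_two
      exact hψ.pe.coprime pr fun e => h2 ((Nat.prime_dvd_prime_iff_eq pr Nat.prime_two).1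
        (pr.dvd_of_dvd_pow (hj ▸ e))))
  have h5 : c • w = w := hw.le ⟨h3 w hw'.1, smul_mem_Fx h4.symm hw'.2⟩
  have h6 := pc.ncard_modEq Nat.prime_two h3
  have h7 := hψ.pe.ncard_modEq pr (S := B ∩ Fx Ω c) fun x hx => ⟨hψ.st x hx.1, smul_mem_Fx h4 hx.2⟩
  rw [Set.inter_right_comm, hw, Set.singleton_inter_of_mem (show w ∈ Fx Ω c from h5), Set.ncard_singleton] at h7
  have h8 := Set.ncard_le_ncard (Set.inter_subset_left (s := B) (t := Fx Ω c))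
  have h9 := h.card_gb h.gb
  have h10 : B ∩ Fx Ω c = B := Set.eq_of_subset_of_ncard_le Set.inter_subset_left (by
    unfold Nat.ModEq at h6 h7
    rcases hr with ⟨rfl, rfl⟩ | ⟨rfl, rfl⟩ <;> omega)
  exact c3 (h.mem_Q h.gb h.sub h.zF h.zB (mem_Pz_of (mem_Dx.2 fun x hx => (h10.ge hx).2) pc)
    (mem_Dx.1 (Pz_le 2 _ c1) z (by simp)))

theorem nodup3 (h : Sc G m k Q B a z) {w : Ω} (hw : w ∈ B) : [w, z, a • z].Nodup := by
  simp only [List.nodup_cons, List.mem_cons, List.not_mem_nil, not_or, or_false,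
    not_false_eq_true, List.nodup_nil, and_true]
  exact ⟨⟨fun e => h.zB (e ▸ hw), fun e => h.azB (e ▸ hw)⟩, h.az_ne.symm⟩

/-- An element of odd prime order outside the kernel does not stabilise `{z, a z}`. -/
theorem not_pair (h : Sc G m k Q B a z) (hs : 4 ≤ s.ncard) (hsB : s ⊆ B) (hp : p.Prime)
    (hm : p ∣ m) {y : G} (hy : y ∈ Dx G s) (oy : orderOf y = p)
    (e : ∀ x ∈ ({z, a • z} : Set Ω), y • x ∈ ({z, a • z} : Set Ω)) : False := by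
  have := (PE.of_orderOf oy).smul_eq hp e (by
    have := h.ne_two hm
    have := hp.two_le
    rw [Set.ncard_pair h.az_ne.symm]
    omega)
  exact h.not_fix h.gb h.sub hs hsB h.zF h.zB h.aP h.aQ hy (not_cp_of_dvd hp hm oy.symm.dvd)
    (this z (by simp)) (this _ (by simp))

end Sc

theorem LQ.dvd_of (h : LQ G Ω m k Q) (hr : k = 4 ∧ r = 3 ∨ k = 6 ∧ r = 5) : r ∣ m := by
  by_contra hm
  have pr : r.Prime := by rcases hr with h | h <;> rw [h.2] <;> decide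
  have h2 : r ≠ 2 := by omega
  obtain ⟨B, hB, hBΦ⟩ := h.exists_blk
  obtain ⟨a, ha⟩ := h.exists_sc hB hBΦ
  obtain ⟨z0, hz0, hz0B⟩ := h.exists_out hB
  have h0 := ha z0 hz0 hz0B
  have hOP : ∀ o ∈ Pz G r B, ∀ t ∈ Pz G 2 B, o * t = t * o := fun o ho t ht => by
    have po := ((h.mem_Pz hB.four pr hm).1 ho).2
    obtain ⟨j, hj⟩ := (h.pe hB.four ht).orderOf_eq Nat.prime_two
    exact h.comm hB.four (Pz_le r B ho) (Pz_le 2 B ht) (po.coprime pr hm) (h.cp (h.pe hB.four ht))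
      (po.coprime pr fun e => h2 ((Nat.prime_dvd_prime_iff_eq pr Nat.prime_two).1
        (pr.dvd_of_dvd_pow (hj ▸ e))))
  have hOM : ∀ o ∈ Pz G r B, o ∈ normalizer (Q : Set G) := fun o ho =>
    centralizer_le_normalizer _ fun q hq => (hOP o ho q (h.le_P hBΦ hq)).symm
  obtain ⟨z, ⟨hz, hzB⟩, hzO⟩ : ∃ z ∈ Fs Ω Q \ B, ∀ o ∈ Pz G r B, o • z = z := by
    refine exists_fixed_of_not_dvd_ncard pr _ (h.isPGroup hB.four pr hm) _ (fun o ho x hx =>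
      ⟨smul_mem_Fs (hOM o ho) hx.1, LQ.smul_notMem (fun w hw => by
        rwa [mem_Dx.1 (Pz_le r B ho) w hw]) hx.2⟩) ?_
    obtain ⟨ψ, -, hψ⟩ := h0.psi (r := r) (by omega) ⊤ fun _ _ _ _ _ _ => mem_top _
    obtain ⟨w, hw⟩ := h0.one_fix pr (by omega) hψ
    have h3 := hψ.pe.ncard_modEq pr (S := Fs Ω Q) fun x hx => smul_mem_Fs (h0.psM hψ) hx
    rw [h0.three_fix hr hm hψ hw, ncard_three (h0.nodup3 (hw.ge rfl).1)] at h3
    have h4 := h.ltq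
    rw [Set.ncard_sdiff hBΦ, h.card_gb hB]
    unfold Nat.ModEq at h3
    rcases hr with ⟨rfl, rfl⟩ | ⟨rfl, rfl⟩ <;> omega
  have h1 := ha z hz hzB
  have hazO : ∀ o ∈ Pz G r B, o • a • z = a • z := fun o ho => by
    rw [← mul_smul, hOP o ho a h1.aP, mul_smul, hzO o ho]
  obtain ⟨ψ, -, hψ⟩ := h1.psi (r := r) (by omega) ⊤ fun _ _ _ _ _ _ => mem_top _
  obtain ⟨U, hUB, hU⟩ := exists_sub_four hB.four
  obtain ⟨p, hp, hpm, x, hx, ox⟩ := h.exists_not_cp hU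
  obtain ⟨y, hy, oy, o, ho, po, e⟩ := h.comm_lift h.k_ne.2 hB pr h2 hψ.pe hψ.st
    (h.PE_mul hB.four pr hm) hp hpm (h.fix_blk (by omega) hB hU.ge hUB hx) ox
  have ho' := mem_Pz_of ho po
  have hχ : Ps r B a z (o * ψ) :=
    ⟨PE.mul_of_norm pr (h.isPGroup hB.four pr hm) hψ.pe (mem_normalizer_Pz hψ.st) ho',
      fun x hx => by rw [mul_smul, mem_Dx.1 ho _ (hψ.st x hx)]; exact hψ.st x hx,
      by rw [mul_smul, hψ.e1, hzO o ho'], by rw [mul_smul, hψ.e2, hazO o ho'],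
      hψ.mv.imp fun x hx => ⟨hx.1, by rw [mul_smul, mem_Dx.1 ho _ (hψ.st x hx.1)]; exact hx.2⟩⟩
  obtain ⟨w, hw⟩ := h1.one_fix pr (by omega) hχ
  have h3 := h1.three_fix hr hm hχ hw
  have hw' : w ∈ B ∩ Fx Ω (o * ψ) := hw.ge rfl
  have hyB : ∀ x ∈ B, y • x ∈ B := fun x hx => by rwa [mem_Dx.1 hy x hx]
  by_cases hyz : y • z ∈ Fs Ω Q
  · have hM := h.mem_M hB hBΦ hyB hz hzB hyz
    refine h1.not_pair hB.four le_rfl hp hpm hy oy fun x hx => ?_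
    have h4 : x ∈ Fs Ω Q ∩ Fx Ω (o * ψ) := h3.ge (Or.inr hx)
    have h5 : x ∉ B := by
      rcases hx with rfl | rfl
      exacts [hzB, h1.azB]
    exact (h3.le ⟨smul_mem_Fs hM h4.1, smul_mem_Fx e.symm h4.2⟩).resolve_left
      fun e => LQ.smul_notMem hyB h5 (e ▸ hw'.1)
  · have h4 : ({y • z, w, z, a • z} : Set Ω).ncard = 4 := by
      rw [Set.ncard_insert_of_notMem (fun e => hyz (h3.ge e).1), ncard_three (h1.nodup3 hw'.1)]
    have h5 : Pz G r U = Pz G r B := le_antisymm (fun g hg => mem_Pz_of (h.fix_blk (by omega) hB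
      hU.ge hUB (Pz_le r U hg)) ((h.mem_Pz hU.ge pr hm).1 hg).2) (Pz_anti hUB)
    have h6 := h.Pz_eq pr hm hU h4.ge (by
      rw [h5]
      rintro x (rfl | rfl | rfl | rfl)
      exacts [smul_mem_Fs (mem_normalizer_Pz hyB) hzO, subset_Fs_Pz r B hw'.1, hzO, hazO])
    have h7 : o * ψ ∈ Pz G r B := h5 ▸ h6 ▸ mem_Pz_of (mem_Dx_iff.2 (Set.insert_subset
      (smul_mem_Fx e.symm hχ.e1) (h3.ge.trans Set.inter_subset_right))) hχ.pe
    obtain ⟨x, hx, h8⟩ := hχ.mv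
    exact h8 (mem_Dx.1 (Pz_le r B h7) x hx)

theorem LQ.k_ne_six (h : LQ G Ω m 6 Q) : False := by
  have hm := h.dvd_of (r := 5) (by omega)
  have p5 := Nat.prime_five
  obtain ⟨B, hB, hBΦ⟩ := h.exists_blk
  obtain ⟨a, ha⟩ := h.exists_sc hB hBΦ
  obtain ⟨z, hz, hzB⟩ := h.exists_out hB
  have h1 := ha z hz hzB
  obtain ⟨ψ, -, hψ⟩ := h1.psi (r := 5) (by omega) ⊤ fun _ _ _ _ _ _ => mem_top _
  obtain ⟨w, hw⟩ := h1.one_fix p5 rfl hψ
  have hw' : w ∈ B ∩ Fx Ω ψ := hw.ge rfl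
  obtain ⟨U, hUB, hU⟩ := exists_sub_four hB.four
  obtain ⟨x, hx, ox⟩ := h.exists_ord hU p5 hm
  obtain ⟨y, hy, oy, e⟩ := exists_ord_comm p5 hψ.pe (mem_normalizer_Dx hψ.st)
    (ox ▸ orderOf_dvd_natCard _ (h.fix_blk (by omega) hB hU.ge hUB hx))
  have hF : ∀ g ∈ Dx G B, orderOf g = 5 → Fx Ω g = B := fun g hg og =>
    (Set.eq_of_subset_of_ncard_le (mem_Dx_iff.1 hg) (by
      rw [h.fix6 hm og (hB.four.trans (Set.ncard_le_ncard (mem_Dx_iff.1 hg))), h.card_gb hB])).symm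
  have h3 : ({w, z, a • z} : Set Ω) ⊆ Fs Ω Q ∩ Fx Ω ψ := by
    rintro y (rfl | rfl | rfl)
    exacts [⟨hBΦ hw'.1, hw'.2⟩, ⟨hz, hψ.e1⟩, ⟨h1.azF, hψ.e2⟩]
  have h4 := Set.ncard_le_ncard h3
  rw [ncard_three (h1.nodup3 hw'.1)] at h4
  have h5 := Set.ncard_le_ncard (Set.inter_subset_right (s := Fs Ω Q) (t := Fx Ω ψ))
  have h6 := (PE.of_orderOf oy).ncard_modEq p5 (S := Fx Ω ψ) fun x hx => smul_mem_Fx e.symm hx
  rw [hF y hy oy, Set.inter_comm, hw, Set.ncard_singleton] at h6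
  have h7 : (Fx Ω ψ).ncard = 6 := by
    obtain ⟨j, hj⟩ := hψ.pe.exists_pow p5 fun e => by
      obtain ⟨x, -, hx⟩ := hψ.mv
      exact hx (by rw [e, one_smul])
    have h8 : (Fx Ω ψ).ncard ≤ (Fx Ω (ψ ^ j)).ncard :=
      Set.ncard_le_ncard fun x hx => pow_smul_eq hx j
    unfold Nat.ModEq at h6
    have h9 := h.fix6 hm hj (by omega)
    omega
  have hyD : zpowers y ≤ Dx G B := zpowers_le.2 hy
  obtain ⟨g, hg, h8⟩ : ∃ g ∈ zpowers y, g • z = a • z := by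
    by_contra hc
    push Not at hc
    have := card_le_ncard (zpowers y) (S := Fx Ω ψ \ {w, a • z}) (x := z) (fun g hg =>
      ⟨zpowers_smul_mem (fun x hx => smul_mem_Fx e.symm hx) g hg z hψ.e1, by
        rintro (e | e)
        · exact LQ.smul_notMem (fun x hx => by rwa [mem_Dx.1 (hyD hg) x hx]) hzB (e ▸ hw'.1)
        · exact hc g hg e⟩) fun g hg e => by_contra fun h0 => hzB (hF g (hyD hg)
          (((Nat.dvd_prime p5).1 (oy ▸ orderOf_dvd_of_mem_zpowers hg)).resolve_left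
            (mt orderOf_eq_one_iff.1 h0)) ▸ e)
    rw [Nat.card_zpowers, oy, Set.ncard_sdiff (by
      rintro x (rfl | rfl)
      exacts [hw'.2, hψ.e2]), Set.ncard_pair fun e : w = a • z => h1.azB (e ▸ hw'.1)] at this
    omega
  have og : orderOf g = 5 := ((Nat.dvd_prime p5).1 (oy ▸ orderOf_dvd_of_mem_zpowers hg)).resolve_left
    (mt orderOf_eq_one_iff.1 fun e => h1.az_ne (by rw [← h8, e, one_smul]))
  have hM := h.mem_M hB hBΦ (fun x hx => by rwa [mem_Dx.1 (hyD hg) x hx]) hz hzB (h8 ▸ h1.azF)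
  have h9 := (PE.of_orderOf og).ncard_modEq p5 (S := Fs Ω Q ∩ Fx Ω ψ) fun x hx =>
    ⟨smul_mem_Fs hM hx.1, zpowers_smul_mem (fun x hx => smul_mem_Fx e.symm hx) g hg x hx.2⟩
  rw [hF g (hyD hg) og, Set.inter_assoc, Set.inter_comm _ B, hw,
    Set.inter_singleton_of_mem (hBΦ hw'.1), Set.ncard_singleton] at h9
  have h10 := h1.par p5 (by omega) hψ
  rw [hw, Set.ncard_singleton] at h10
  unfold Nat.ModEq at h9 h10
  omega

theorem LQ.cases (h : LQ G Ω m k Q) : (k = 4 ∨ k = 7) ∧ 3 ∣ m := by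
  have h1 := h.k_ne
  rcases h.k_cases with rfl | rfl | rfl | rfl | rfl
  · exact ⟨Or.inl rfl, h.dvd_of (Or.inl ⟨rfl, rfl⟩)⟩
  · omega
  · exact h.k_ne_six.elim
  · exact ⟨Or.inr rfl, h.three_dvd7⟩
  · omega

end Cfsg.Lib.Fr4
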