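import Cfsg.Agent.Fr4.U1
import Cfsg.Agent.Fr4.E11

/-!
# Four-fold transitive groups with a Frobenius four-point stabiliser: the elements of order three
-/

set_option autoImplicit false
set_option linter.unusedSectionVars false

namespace Cfsg.Lib.Fr4

open MulAction Subgroup Cfsg.Lib.Perm Cfsg.Lib.Trans
open scoped commutatorElement

/-- The elementary abelian group of order nine acting on the local configuration. -/
structure R3 (G : Type*) {Ω : Type*} [Group G] [MulAction G Ω] (m k : ℕ) (Q : Subgroup G)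
    (B : Set Ω) (a : G) (z : Ω) (ρ η : G) (w t : Ω) : Prop extends Sc G m k Q B a z where
  ps : Ps 3 B a z ρ
  dvd3 : 3 ∣ m
  hw : B ∩ Fx Ω ρ = {w}
  oρ : orderOf ρ = 3
  tB : t ∈ B
  nd : [w, t, ρ • t, ρ • ρ • t].Nodup
  ηD : η ∈ Dx G ({w, t, ρ • t, ρ • ρ • t} : Set Ω)
  oη : orderOf η = 3
  cm : ρ * η = η * ρ
  ηM : η ∈ normalizer (Q : Set G)
  five : (Fs Ω Q ∩ Fx Ω ρ).ncard = 5
  six : (Fx Ω ρ).ncard ≤ 6
  nine : ∀ U : Set Ω, U.ncard = 4 → ¬ 9 ∣ Nat.card (Dx G U)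

variable {G Ω : Type*} [Group G] [MulAction G Ω] [Finite G] [Finite Ω] {m k r p : ℕ}
  {s U B : Set Ω} {Q : Subgroup G} {a ρ η : G} {z w t : Ω}

theorem PE.pow_smul_eq (hr : r.Prime) {g : G} (hg : PE r g) {S : Set Ω} (hS : ∀ x ∈ S, g • x ∈ S)
    (hc : S.ncard < r * r) : ∀ x ∈ S, g ^ r • x = x := by
  intro x hx
  have h1 : (orbit (zpowers g) x).ncard ≤ S.ncard := Set.ncard_le_ncard (by
    rintro _ ⟨k, rfl⟩
    exact zpowers_smul_mem hS k k.2 x hx)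
  obtain ⟨j, hj⟩ := hg.orderOf_eq hr
  have h2 := index_dvd_card (stabilizer (zpowers g) x)
  rw [Nat.card_zpowers, hj] at h2
  obtain ⟨i, -, hi⟩ := (Nat.dvd_prime_pow hr).1 h2
  have h3 : i ≤ 1 := by
    by_contra hc'
    have := Nat.pow_le_pow_right hr.pos (show 2 ≤ i by omega)
    rw [← hi, index_stabilizer, pow_two] at this
    omega
  have h4 := pow_index_mem (stabilizer (zpowers g) x) ⟨g, mem_zpowers g⟩
  obtain ⟨l, hl⟩ : (stabilizer (zpowers g) x).index ∣ r := by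
    rw [hi]
    exact (pow_dvd_pow r h3).trans (pow_one r).dvd
  rw [hl, pow_mul]
  exact Fr4.pow_smul_eq (g := g ^ (stabilizer (zpowers g) x).index) h4 l

theorem PE_coe {C : Subgroup G} {c : C} : PE r (c : G) ↔ PE r c :=
  exists_congr fun _ => by rw [← coe_pow, OneMemClass.coe_eq_one]

theorem cube_eq_one {g : G} (h : orderOf g = 3) : g * g * g = 1 := by
  rw [← pow_three', ← h, pow_orderOf_eq_one]

theorem smul3 {g : G} (h : orderOf g = 3) (x : Ω) : g • g • g • x = x := by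
  rw [← mul_smul, ← mul_smul, cube_eq_one h, one_smul]

theorem mem_of_sq {g : G} (h : orderOf g = 3) {S : Subgroup G} (hS : g * g ∈ S) : g ∈ S := by
  have := mul_mem hS hS
  rwa [← mul_assoc, cube_eq_one h, one_mul] at this

theorem nodup_cyc {g : G} (h : orderOf g = 3) {x : Ω} (hx : g • x ≠ x) :
    [x, g • x, g • g • x].Nodup := by
  simp only [List.nodup_cons, List.mem_cons, List.not_mem_nil, not_or, or_false,
    not_false_eq_true, List.nodup_nil, and_true, smul_left_cancel_iff]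
  exact ⟨⟨hx.symm, fun e => hx (by nth_rewrite 1 [e]; exact smul3 h x)⟩, hx.symm⟩

theorem Cx.zpowers_eq (h : Cx G Ω m) (hs : 4 ≤ s.ncard) (hp : p.Prime) (h2 : p ≠ 2) (hm : p ∣ m)
    {x y : G} (hx : x ∈ Dx G s) (hy : y ∈ Dx G s) (ox : orderOf x = p) (oy : orderOf y = p)
    (hn : y ∈ normalizer (zpowers x : Set G)) : zpowers y = zpowers x := by
  have := Fact.mk hp
  have h3 := IsPGroup.to_sup_of_normal_left' (PE.of_orderOf ox).isPGroup (PE.of_orderOf oy).isPGroup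
    (zpowers_le.2 hn)
  have := h.cyc hs hp h2 hm h3 (sup_le (zpowers_le.2 hx) (zpowers_le.2 hy))
  exact Solv.PG.eq_of_card_eq_of_isCyclic (A := zpowers x ⊔ zpowers y) le_sup_right le_sup_left
    (by rw [Nat.card_zpowers, Nat.card_zpowers, ox, oy])

theorem orderOf_eq_three (h9 : ∀ U : Set Ω, U.ncard = 4 → ¬ 9 ∣ Nat.card (Dx G U))
    (hs : 4 ≤ s.ncard) {g : G} (hg : g ∈ Dx G s) (pg : PE 3 g) (h1 : g ≠ 1) : orderOf g = 3 := by
  obtain ⟨U, hUs, hU⟩ := exists_sub_four hs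
  obtain ⟨j, hj⟩ := pg.orderOf_eq Nat.prime_three
  have h2 := orderOf_dvd_natCard _ (Dx_anti hUs hg)
  rcases (by omega : j = 0 ∨ j = 1 ∨ 2 ≤ j) with rfl | rfl | h3
  · exact absurd (orderOf_eq_one_iff.1 hj) h1
  · exact hj
  · exact absurd ((pow_dvd_pow 3 h3).trans (hj ▸ h2)) (h9 U hU)

theorem mem_normalizer_of_comm {x y : G} (e : y * x = x * y) :
    y ∈ normalizer (zpowers x : Set G) :=
  Solv.PG.mem_normalizer_zpowers (by rw [e, mul_inv_cancel_right]; exact mem_zpowers x)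

/-- The centraliser of an element of the complement in a `2`-group. -/
theorem CB.card_cent (h : CB G Ω m k) (hp : p.Prime) (hm : p ∣ m) {x : G} (ox : orderOf x = p)
    (h4 : 4 ≤ (Fx Ω x).ncard) {A : Subgroup G} (hA : IsPGroup 2 A) (hc : ∀ c ∈ A, c * x = x * c) :
    Nat.card A ∣ Nat.card (resX Ω (zpowers x)) :=
  card_dvd_resX (fun c h1 => mem_normalizer_of_comm (hc c h1)) fun c h1 h2 =>
    h.fpfP h4 (mem_Dx_iff.2 le_rfl) (not_cp_of_dvd hp hm ox.symm.dvd) (Fs_zpowers (Ω := Ω) x ▸ h2)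
      (PE.of_mem hA h1) (hc c h1).symm

namespace Sc

theorem fix_one3 (h : Sc G m k Q B a z) (hk : k = 4 ∨ k = 7) (h3 : 3 ∣ m) (hρ : Ps 3 B a z ρ) :
    ∃ w, B ∩ Fx Ω ρ = {w} := by
  have h1 := hρ.pe.ncard_modEq Nat.prime_three hρ.st
  have h2 := h.lt_blk hρ
  rw [h.card_gb h.gb] at h1
  refine Set.ncard_eq_one.1 (by_contra fun hc => ?_)
  obtain ⟨x, -, hx⟩ := hρ.mv
  exact h.not_fix h.gb h.sub (s := B ∩ Fx Ω ρ) (by unfold Nat.ModEq at h1; omega)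
    Set.inter_subset_left h.zF h.zB h.aP h.aQ (mem_Dx_iff.2 Set.inter_subset_right)
    (hρ.pe.not_coprime Nat.prime_three (fun e => hx (by rw [e, one_smul])) h3) hρ.e1 hρ.e2

theorem ord3 (h : Sc G m k Q B a z) (hk : k = 4 ∨ k = 7) (h3 : 3 ∣ m) (hρ : Ps 3 B a z ρ) :
    orderOf ρ = 3 := by
  have := Fact.mk Nat.prime_three
  obtain ⟨x, -, hx⟩ := hρ.mv
  refine orderOf_eq_prime (by_contra fun hc => ?_) fun e => hx (by rw [e, one_smul])
  exact h.not_fix h.gb h.sub h.gb.four le_rfl h.zF h.zB h.aP h.aQ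
    (mem_Dx.2 (hρ.pe.pow_smul_eq Nat.prime_three hρ.st (by rw [h.card_gb h.gb]; omega)))
    ((hρ.pe.pow 3).not_coprime Nat.prime_three hc h3) (pow_smul_eq hρ.e1 3) (pow_smul_eq hρ.e2 3)

theorem not_nine (h : Sc G m k Q B a z) (h3 : 3 ∣ m) (hρ : Ps 3 B a z ρ) (oρ : orderOf ρ = 3)
    (hw : w ∈ B ∩ Fx Ω ρ) (ht : t ∈ B) (nd : [w, t, ρ • t, ρ • ρ • t].Nodup)
    (h4 : 4 ≤ (Fx Ω ρ).ncard) (hV : U.ncard = 4) : ¬ 9 ∣ Nat.card (Dx G U) := by
  intro h9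
  have p3 := Nat.prime_three
  have := Fact.mk p3
  have := Fact.mk Nat.prime_two
  have hU := ncard_four nd
  rw [h.card_Dx hV hU] at h9
  set U : Set Ω := {w, t, ρ • t, ρ • ρ • t} with hUdef
  have hUB : U ⊆ B := by
    rintro x (rfl | rfl | rfl | rfl)
    exacts [hw.1, ht, hρ.st _ ht, hρ.st _ (hρ.st _ ht)]
  have hw2 : ρ • w = w := hw.2
  obtain ⟨S, hS, hn⟩ := exists_norm_sylow p3 hρ.pe (mem_normalizer_Dx (s := U) (by
    rintro x (rfl | rfl | rfl | rfl) <;> simp [hUdef, hw2, smul3 oρ]))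
  have := h.cyc hU.ge p3 (by norm_num) h3 hS.isPGroup hS.le
  obtain ⟨x0, rfl⟩ := Solv.PG.exists_zpowers_eq S
  have h5 : 9 ∣ orderOf x0 := by
    rw [← Nat.card_zpowers]
    exact Nat.Coprime.dvd_of_dvd_mul_right (k := 3 ^ 2)
      (((Nat.Prime.coprime_iff_not_dvd p3).2 hS.not_dvd).pow_left 2) (card_mul_relIndex hS.le ▸ h9)
  obtain ⟨x, hx0, ox⟩ : ∃ x ∈ zpowers x0, orderOf x = 9 :=
    ⟨_, pow_mem (mem_zpowers x0) _, orderOf_pow_orderOf_div (orderOf_pos x0).ne' h5⟩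
  have hx := hS.le hx0
  have px : PE 3 x := PE.of_mem hS.isPGroup hx0
  have cx : ¬ Cp m x := not_cp_of_dvd p3 h3 (by rw [ox]; norm_num)
  have hρx := Solv.PG.normalizer_le_normalizer_of_isCyclic (zpowers_le.2 hx0) hn
  obtain ⟨g0, e1, e2, e3, e4⟩ := map4' h.tr nd (a' := w) (b' := t) (c' := ρ • ρ • t) (d' := ρ • t)
    (List.Perm.nodup (.cons _ (.cons _ (.swap _ _ _))) nd)
  obtain ⟨d, hd, e5⟩ := h.conj_zpowers hU.ge p3 (by norm_num) h3 (conj_mem_Dx' (k := g0) (by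
    rintro y (rfl | rfl | rfl | rfl) <;> simp [hUdef, e1, e2, e3, e4]) hx) hx (px.conj g0) px
    (SemiconjBy.conj_mk g0 x).orderOf_eq.symm
  have hg : d * g0 ∈ normalizer (zpowers x : Set G) :=
    cj_eq_self_iff.1 (by rw [cj_mul, cj_zpowers g0, e5])
  set g := d * g0 with hgdef
  have hd' := mem_Dx.1 hd
  have f1 : g • w = w := by rw [mul_smul, e1, hd' _ (by simp [hUdef])]
  have f2 : g • t = t := by rw [mul_smul, e2, hd' _ (by simp [hUdef])]
  have f3 : g • ρ • t = ρ • ρ • t := by rw [mul_smul, e3, hd' _ (by simp [hUdef])]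
  have f4 : g • ρ • ρ • t = ρ • t := by rw [mul_smul, e4, hd' _ (by simp [hUdef])]
  have h6 : g * ρ * g⁻¹ * ρ ∈ Dx G U := mem_Dx.2 (by
    rintro y (rfl | rfl | rfl | rfl) <;> rw [mul_smul]
    · rw [hw2]; nth_rewrite 1 [← f1]; rw [conj_smul_smul, hw2, f1]
    · nth_rewrite 1 [← f4]; rw [conj_smul_smul, smul3 oρ, f2]
    · nth_rewrite 1 [← f3]; rw [conj_smul_smul, f4]
    · rw [smul3 oρ]; nth_rewrite 1 [← f2]; rw [conj_smul_smul, f3])
  have h7 : g * ρ * g⁻¹ * ρ ∈ normalizer (zpowers x : Set G) :=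
    mul_mem (mul_mem (mul_mem hg hρx) (inv_mem hg)) hρx
  have h8 : g * ρ * g⁻¹ * ρ ∈ centralizer ({x} : Set G) := mem_of_forall_PE fun p hp i hi => by
    refine mem_centralizer_singleton_iff.2 ?_
    by_cases hp3 : p = 3
    · exact h.comm_of_PE hU.ge p3 (by norm_num) h3 hx (pow_mem h6 i) px (hp3 ▸ hi) (pow_mem h7 i)
    refine comm_of_coprime_totient (pow_mem h7 i) ?_
    rw [ox, show Nat.totient 9 = 2 * 3 by decide]
    refine Nat.Coprime.mul_right (Nat.Coprime.symm ((Nat.Prime.coprime_iff_not_dvd Nat.prime_two).2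
      fun e => h.not_two (e.trans (h.norm_dvd hU.ge hx cx (pow_mem h6 i) (pow_mem h7 i))))) ?_
    exact hi.coprime hp fun e => hp3 ((Nat.prime_dvd_prime_iff_eq hp p3).1 e)
  have h10 : ⁅g, ρ⁆ ∈ centralizer ({x} : Set G) := centralizer_le (by simp)
    (Solv.PG.commutator_mem_centralizer_of_isCyclic hg hρx)
  have h11 : ρ * x = x * ρ := mem_centralizer_singleton_iff.1 (mem_of_sq oρ (by
    have := mul_mem (inv_mem h10) h8
    convert this using 1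
    rw [commutatorElement_def]
    group))
  obtain ⟨b, b1, -, b3, b4, -⟩ := h.exists_b p3 (by norm_num) hρ
  have hA : IsPGroup 2 (Pz G 2 B ⊓ centralizer ({ρ} : Set G) : Subgroup G) :=
    (h.pg h.gb.four).to_inf_left
  have h12 := h.card_cent p3 h3 oρ h4 hA fun c hc => mem_centralizer_singleton_iff.1 hc.2
  have h13 := orderOf_dvd_card_sub_one (x := x) (A := Pz G 2 B ⊓ centralizer ({ρ} : Set G))
    (fun c hc => ⟨mem_normalizer_conj (mem_normalizer_Pz (h.smul_mem' h.gb hU.ge hUB hx)) hc.1,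
      Subgroup.mul_mem _ (Subgroup.mul_mem _ (mem_centralizer_singleton_iff.2 h11.symm) hc.2)
        (Subgroup.inv_mem _ (mem_centralizer_singleton_iff.2 h11.symm))⟩)
    fun i hi c hc e => h.fpfP hU.ge (pow_mem hx i) ((px.pow i).not_coprime p3 hi h3)
      (Dx_anti hUB (Pz_le 2 B hc.1)) (PE.of_mem hA hc) e
  obtain ⟨V, hV1, hV2⟩ := exists_sub_four h4
  have h14 := (h.hallh h.odd p3 h3 oρ hV2 (mem_Dx_iff.2 hV1)).2.1
  obtain ⟨n, hn⟩ := IsPGroup.iff_card.1 hA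
  have h15 : n ≠ 0 := by
    rintro rfl
    have : b ∈ (Pz G 2 B ⊓ centralizer ({ρ} : Set G) : Subgroup G) :=
      ⟨b1, mem_centralizer_singleton_iff.2 b4.symm⟩
    rw [card_eq_one.1 hn, mem_bot] at this
    exact b3 (this ▸ Q.one_mem)
  rw [hn] at h12 h13
  rw [ox] at h13
  have h16 : n ≤ 4 := by
    by_contra hc
    have := (pow_dvd_pow 2 (show 5 ≤ n by omega)).trans h12
    omega
  interval_cases n <;> omega

end Sc

theorem CB.not_seven (h : CB G Ω m k) (h3 : 3 ∣ m)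
    (h9 : ∀ U : Set Ω, U.ncard = 4 → ¬ 9 ∣ Nat.card (Dx G U)) (oρ : orderOf ρ = 3) :
    (Fx Ω ρ).ncard ≠ 7 := by
  intro h7
  have p3 := Nat.prime_three
  obtain ⟨V, hV1, hV⟩ := exists_sub_four (s := Fx Ω ρ) (by omega)
  have hρ := mem_Dx_iff.2 hV1
  obtain ⟨n, h1, h2, y, hy, h4⟩ := (h.hallh h.odd p3 h3 oρ hV hρ).2.2 h7
  refine h4 (mem_of_forall_PE (S := stabilizer G y) fun p hp i hi => ?_)
  by_cases hp3 : p = 3
  · by_cases h0 : n ^ i = 1
    · exact h0 ▸ one_mem _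
    have h5 := h.zpowers_eq hV.ge p3 (by norm_num) h3 hρ (pow_mem h2 i) oρ
      (orderOf_eq_three h9 hV.ge (pow_mem h2 i) (hp3 ▸ hi) h0) (pow_mem h1 i)
    exact (zpowers_le (H := stabilizer G y)).2 hy (h5 ▸ mem_zpowers _)
  by_cases hyV : y ∈ V
  · exact mem_Dx.1 (pow_mem h2 i) y hyV
  refine smul_eq_of_coprime (S := Fx Ω ρ \ V) (fun x hx => ⟨?_, LQ.smul_notMem (fun w hw => by
    rwa [mem_Dx.1 (pow_mem h2 i) w hw]) hx.2⟩) (fun q hq hd => ?_) y ⟨hy, hyV⟩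
  · exact Fs_zpowers (Ω := Ω) ρ ▸ smul_mem_Fs (pow_mem h1 i) ((Fs_zpowers ρ).ge hx.1)
  · obtain ⟨j, hj⟩ := hi.orderOf_eq hp
    have h5 := (Nat.prime_dvd_prime_iff_eq hq hp).1 (hq.dvd_of_dvd_pow (hj ▸ hd))
    have h6 := h.ne_two (hd.trans (h.norm_dvd hV.ge hρ (not_cp_of_dvd p3 h3 oρ.symm.dvd)
      (pow_mem h2 i) (pow_mem h1 i)))
    have := hq.two_le
    rw [Set.ncard_sdiff hV1, h7, hV]
    omega

theorem Sc.not_eleven (h : Sc G m k Q B a z) (h3 : 3 ∣ m) (hρ : Ps 3 B a z ρ) (oρ : orderOf ρ = 3)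
    (hw : w ∈ B ∩ Fx Ω ρ) (ht : t ∈ B) (ht1 : ρ • t ≠ t)
    (h9 : ∀ U : Set Ω, U.ncard = 4 → ¬ 9 ∣ Nat.card (Dx G U)) : (Fx Ω ρ).ncard ≠ 11 := by
  intro h11
  have p3 := Nat.prime_three
  have := Fact.mk p3
  set T : Set Ω := {t, ρ • t, ρ • ρ • t} with hT
  have hT3 : T.ncard = 3 := ncard_three (nodup_cyc oρ ht1)
  have hTρ : ∀ x ∈ T, ρ • x ∈ T := by
    rintro x (rfl | rfl | rfl) <;> simp [hT, smul3 oρ]
  have hTB : T ⊆ B := by
    rintro x (rfl | rfl | rfl)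
    exacts [ht, hρ.st _ ht, hρ.st _ (hρ.st _ ht)]
  have hu4 : ∀ u ∈ Fx Ω ρ, (insert u T).ncard = 4 := fun u hu => by
    rw [Set.ncard_insert_of_notMem, hT3]
    rintro (rfl | rfl | rfl)
    · exact ht1 hu
    · exact ht1 (smul_left_cancel _ hu)
    · exact ht1 (smul_left_cancel _ (smul_left_cancel _ hu))
  let C : Subgroup G := centralizer {ρ} ⊓ Dx G T
  have hC : ∀ c ∈ C, c * ρ = ρ * c := fun c hc => mem_centralizer_singleton_iff.1 hc.1
  letI : MulAction C (Fx Ω ρ) :=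
    { smul := fun c x => ⟨(c : G) • (x : Ω), smul_mem_Fx (hC c c.2) x.2⟩
      one_smul := fun x => Subtype.ext (one_smul G (x : Ω))
      mul_smul := fun c d x => Subtype.ext (mul_smul (c : G) (d : G) (x : Ω)) }
  have hsm : ∀ (c : C) (x : Fx Ω ρ), c • x = x ↔ (c : G) • (x : Ω) = x := fun c x => Subtype.ext_iff
  have hD : ∀ (c : C) (x : Fx Ω ρ), c • x = x → (c : G) ∈ Dx G (insert (x : Ω) T) :=
    fun c x e => mem_Dx_iff.2 (Set.insert_subset ((hsm c x).1 e) (mem_Dx_iff.1 c.2.2))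
  obtain ⟨V, hV1, hV⟩ := exists_sub_four (s := Fx Ω ρ) (by omega)
  obtain ⟨h1, h2, -⟩ := h.hallh h.odd p3 h3 oρ hV (mem_Dx_iff.2 hV1)
  have h4 : Nat.card (resX Ω (zpowers ρ)) = 7920 := by omega
  have hf : ∀ c ∈ C, c ∈ Dx G (Fs Ω (zpowers ρ)) → c = 1 := fun c hc e => by
    rw [Fs_zpowers] at e
    refine h.fpf (s := Fx Ω ρ) (by omega) (mem_Dx_iff.2 le_rfl) (not_cp_of_dvd p3 h3 oρ.symm.dvd) e
      (by_contra fun h5 => ?_) (hC c hc).symm
    exact h.not_fix h.gb h.sub (hu4 w hw.2).ge (Set.insert_subset hw.1 hTB) h.zF h.zB h.aP h.aQ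
      (mem_Dx_iff.2 (Set.insert_subset (mem_Dx.1 e w hw.2) (mem_Dx_iff.1 hc.2))) h5
      (mem_Dx.1 e z hρ.e1) (mem_Dx.1 e _ hρ.e2)
  have hE : E11 C (Fx Ω ρ) :=
    { card := h11
      dvd := h4 ▸ card_dvd_resX (fun c hc => mem_normalizer_of_comm (hC c hc)) hf
      nine := fun e => by
        obtain ⟨A, hA⟩ := Sylow.exists_subgroup_card_pow_prime 3 (n := 2) e
        have h5 : Nat.card (A.map C.subtype) = 3 ^ 2 := by rw [card_subtype, hA]
        obtain ⟨u, hu, h6⟩ := exists_fixed_of_not_dvd_ncard p3 _ (IsPGroup.of_card h5) (Fx Ω ρ)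
          (fun c hc x hx => smul_mem_Fx (hC c (map_subtype_le A hc)) hx) (by omega)
        exact h9 _ (hu4 u hu) ((show 9 ∣ _ from h5.symm.dvd).trans (card_dvd_of_le fun c hc =>
          mem_Dx_iff.2 (Set.insert_subset (h6 c hc) (mem_Dx_iff.1 (map_subtype_le A hc).2))))
      four := fun c hc => Subtype.ext (hf c c.2 (hall_fix h1 (by rw [Fs_zpowers, h11, h4]; rfl)
        (s := Subtype.val '' Fx (Fx Ω ρ) c)
        (by rwa [Set.ncard_image_of_injective _ Subtype.val_injective])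
        (by rintro _ ⟨x, -, rfl⟩; exact (Fs_zpowers ρ).ge x.2) (mem_normalizer_of_comm (hC c c.2))
        (mem_Dx.2 (by rintro _ ⟨x, hx, rfl⟩; exact (hsm c x).1 hx))))
      mul := fun u c d e1 e2 pc pd => PE_coe.1 (h.PE_mul (hu4 u u.2).ge Nat.prime_two h.not_two
        _ (hD c u e1) _ (hD d u e2) (PE_coe.2 pc) (PE_coe.2 pd))
      three := fun u => by
        obtain ⟨y, y1, y2, y3⟩ := exists_ord_comm p3 hρ.pe (mem_normalizer_Dx
          (s := insert (u : Ω) T) (by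
            rintro x (rfl | hx)
            exacts [Or.inl u.2, Or.inr (hTρ x hx)])) (h3.trans (h.dvd_card (hu4 u u.2)))
        exact ⟨⟨y, mem_centralizer_singleton_iff.2 y3.symm, Dx_anti (Set.subset_insert _ _) y1⟩,
          (orderOf_coe _).symm.trans y2, (hsm _ u).2 (mem_Dx.1 y1 _ (Or.inl rfl))⟩
      fpf := fun u c d oc e1 e2 pd e => Subtype.ext (h.fpfP (hu4 u u.2).ge (hD c u e1)
        (not_cp_of_dvd p3 h3 (by rw [orderOf_coe, oc])) (hD d u e2) (PE_coe.2 pd)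
        (congrArg Subtype.val e)) }
  obtain ⟨b, b1, -, b3, b4, -⟩ := h.exists_b p3 (by norm_num) hρ
  have := hE.triv ⟨w, hw.2⟩ ⟨b, mem_centralizer_singleton_iff.2 b4.symm, Dx_anti hTB (Pz_le 2 B b1)⟩
    ((hsm _ _).2 (mem_Dx.1 (Pz_le 2 B b1) w hw.1)) (PE_coe.1 (h.pe h.gb.four b1))
  have h5 : b = 1 := congrArg Subtype.val this
  exact b3 (h5 ▸ Q.one_mem)

theorem Sc.r3 (h : Sc G m k Q B a z) (hρ : Ps 3 B a z ρ) :
    ∃ η w t, R3 G m k Q B a z ρ η w t := by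
  obtain ⟨hk, h3⟩ := h.cases
  have p3 := Nat.prime_three
  obtain ⟨w, hw⟩ := h.fix_one3 hk h3 hρ
  have hw' : w ∈ B ∩ Fx Ω ρ := hw.ge rfl
  have hw2 : ρ • w = w := hw'.2
  have oρ := h.ord3 hk h3 hρ
  obtain ⟨t, ht, ht1⟩ := hρ.mv
  have nd : [w, t, ρ • t, ρ • ρ • t].Nodup := List.nodup_cons.2 ⟨by
    simp only [List.mem_cons, List.not_mem_nil, or_false]
    rintro (rfl | rfl | rfl)
    · exact ht1 hw2
    · exact ht1 (smul_left_cancel _ hw2)
    · exact ht1 (smul_left_cancel _ (smul_left_cancel _ hw2)), nodup_cyc oρ ht1⟩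
  have hU := ncard_four nd
  have hUB : ({w, t, ρ • t, ρ • ρ • t} : Set Ω) ⊆ B := by
    rintro x (rfl | rfl | rfl | rfl)
    exacts [hw'.1, ht, hρ.st _ ht, hρ.st _ (hρ.st _ ht)]
  obtain ⟨η, η1, η2, η3⟩ := exists_ord_comm p3 hρ.pe (mem_normalizer_Dx
    (s := {w, t, ρ • t, ρ • ρ • t}) (by
      rintro x (rfl | rfl | rfl | rfl) <;> simp [hw2, smul3 oρ])) (h3.trans (h.dvd_card hU))
  have ηB := h.smul_mem' h.gb hU.ge hUB η1
  have h1 : ({w, z, a • z} : Set Ω) ⊆ Fs Ω Q ∩ Fx Ω ρ := by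
    rintro y (rfl | rfl | rfl)
    exacts [⟨h.sub hw'.1, hw2⟩, ⟨h.zF, hρ.e1⟩, ⟨h.azF, hρ.e2⟩]
  have h2 := ncard_three (h.nodup3 hw'.1)
  have key : ∀ S : Set Ω, {w, z, a • z} ⊆ S → (∀ x ∈ S, η • x ∈ S) → 4 ≤ S.ncard := by
    intro S hS1 hS2
    by_contra hc
    have e := Set.eq_of_subset_of_ncard_le hS1 (by omega)
    refine h.not_pair hU.ge hUB p3 h3 η1 η2 fun x hx => (e.ge (hS2 x (hS1 (Or.inr hx)))).resolve_left
      fun e => LQ.smul_notMem ηB (y := x) ?_ (e ▸ hw'.1)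
    rcases hx with rfl | rfl
    exacts [h.zB, h.azB]
  have ηF : ∀ x ∈ Fx Ω ρ, η • x ∈ Fx Ω ρ := fun x hx => smul_mem_Fx η3.symm hx
  have h4 := key _ (h1.trans Set.inter_subset_right) ηF
  have h9 : ∀ U : Set Ω, U.ncard = 4 → ¬ 9 ∣ Nat.card (Dx G U) := fun U hU =>
    h.not_nine h3 hρ oρ hw' ht nd h4 hU
  have h6 : (Fx Ω ρ).ncard ≤ 6 := by
    obtain ⟨V, hV1, hV⟩ := exists_sub_four h4
    have := (h.hallh h.odd p3 h3 oρ hV (mem_Dx_iff.2 hV1)).2.1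
    have := h.not_seven h3 h9 oρ
    have := h.not_eleven h3 hρ oρ hw' ht ht1 h9
    omega
  have hM : η ∈ normalizer (Q : Set G) := by
    by_contra hc
    have k1 : ∀ y ∈ Fs Ω Q, y ∉ B → η • y ∉ Fs Ω Q ∧ η • η • y ∉ Fs Ω Q := fun y hy hyB =>
      ⟨fun e => hc (h.mem_M h.gb h.sub ηB hy hyB e), fun e => hc (mem_of_sq η2 (h.mem_M h.gb h.sub
        (fun x hx => by rw [mul_smul]; exact ηB _ (ηB x hx)) hy hyB (by rwa [mul_smul])))⟩
    obtain ⟨k2, k3⟩ := k1 z h.zF h.zB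
    obtain ⟨k4, k5⟩ := k1 _ h.azF h.azB
    have k6 : [η • z, η • η • z, η • a • z, η • η • a • z].Nodup := by
      simp only [List.nodup_cons, List.mem_cons, List.not_mem_nil, not_or, or_false,
        not_false_eq_true, List.nodup_nil, and_true, smul_left_cancel_iff]
      exact ⟨⟨fun e => k2 (e ▸ h.zF), h.az_ne.symm, fun e => k4 (e ▸ h.zF)⟩,
        ⟨fun e => k2 (e ▸ h.azF), h.az_ne.symm⟩, fun e => k4 (e ▸ h.azF)⟩
    have k7 : 4 ≤ (Fx Ω ρ \ Fs Ω Q).ncard := ncard_four k6 ▸ Set.ncard_le_ncard (by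
      rintro y (rfl | rfl | rfl | rfl)
      exacts [⟨ηF _ hρ.e1, k2⟩, ⟨ηF _ (ηF _ hρ.e1), k3⟩, ⟨ηF _ hρ.e2, k4⟩, ⟨ηF _ (ηF _ hρ.e2), k5⟩])
    have k8 := Set.ncard_inter_add_ncard_sdiff_eq_ncard (Fx Ω ρ) (Fs Ω Q)
    have k9 := Set.ncard_le_ncard h1
    rw [Set.inter_comm] at k9
    omega
  refine ⟨η, w, t, h, hρ, h3, hw, oρ, ht, nd, η1, η2, η3, hM, ?_, h6, h9⟩
  have h7 := key _ h1 fun x hx => ⟨smul_mem_Fs hM hx.1, ηF x hx.2⟩
  have h8 := h.par p3 (by norm_num) hρ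
  have h10 := Set.ncard_le_ncard (Set.inter_subset_right (s := Fs Ω Q) (t := Fx Ω ρ))
  rw [hw, Set.ncard_singleton] at h8
  unfold Nat.ModEq at h8
  omega

end Cfsg.Lib.Fr4
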